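import Mathlib

/-!
# Generators of a finite field over the prime field (helper109)
-/

set_option autoImplicit false

namespace Cfsg.Agent.H109

variable {p : ℕ} [Fact p.Prime] {F : Type*} [Field F] [Fintype F] [Algebra (ZMod p) F]

/-- An element which does not generate `F` lies in a proper subfield. -/
theorem exists_pow_of_adjoin_ne_top {β : F} (h : Algebra.adjoin (ZMod p) {β} ≠ ⊤) :
    ∃ k, 1 < p ^ k ∧ (p ^ k) ^ 2 ≤ Fintype.card F ∧ β ^ (p ^ k) = β := by
  classical
  set K := IntermediateField.adjoin (ZMod p) {β} with hK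
  have hint : IsIntegral (ZMod p) β := Algebra.IsIntegral.isIntegral β
  have hne : K ≠ ⊤ := by
    intro hKt
    apply h
    rw [← IntermediateField.adjoin_simple_toSubalgebra_of_isAlgebraic hint.isAlgebraic, ← hK, hKt]
    rfl
  have : Fintype K := Fintype.ofFinite K
  refine ⟨Module.finrank (ZMod p) K, ?_, ?_, ?_⟩
  · exact Nat.one_lt_pow (Module.finrank_pos).ne' (Fact.out : p.Prime).one_lt
  · have hc : Fintype.card K = p ^ Module.finrank (ZMod p) K := by
      rw [Module.card_eq_pow_finrank (K := ZMod p) (V := K), ZMod.card]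
    have hF : Fintype.card F = Fintype.card K ^ Module.finrank K F := Module.card_eq_pow_finrank
    rw [← hc, hF]
    apply Nat.pow_le_pow_right Fintype.card_pos
    have h1 : 0 < Module.finrank K F := Module.finrank_pos
    by_contra h2
    have h3 : Module.finrank K F = 1 := by omega
    exact hne (IntermediateField.finrank_eq_one_iff_eq_top.1 h3)
  · have hc : Fintype.card K = p ^ Module.finrank (ZMod p) K := by
      rw [Module.card_eq_pow_finrank (K := ZMod p) (V := K), ZMod.card]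
    have h1 : (⟨β, IntermediateField.mem_adjoin_simple_self _ _⟩ : K) ^ Fintype.card K =
      ⟨β, IntermediateField.mem_adjoin_simple_self _ _⟩ := FiniteField.pow_card _
    rw [hc] at h1
    exact congrArg Subtype.val h1

omit [Fintype F] in
/-- order of a generator -/
theorem order_gen [Fintype F] {ζ : Fˣ} (hζ : ∀ y, y ∈ Subgroup.zpowers ζ) : orderOf ζ = Fintype.card F - 1 := by
  classical
  rw [orderOf_eq_card_of_forall_mem_zpowers hζ, Nat.card_eq_fintype_card, Fintype.card_units]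

/-- the square of a generator of the units generates the field -/
theorem adjoin_sq_eq_top {ζ : Fˣ} (hζ : ∀ y, y ∈ Subgroup.zpowers ζ) :
    Algebra.adjoin (ZMod p) {(ζ : F) ^ 2} = ⊤ := by
  by_contra hne
  obtain ⟨k, h1, h2, h3⟩ := exists_pow_of_adjoin_ne_top hne
  have ho : orderOf ζ = Fintype.card F - 1 := order_gen hζ
  have h4 : ζ ^ (2 * (p ^ k - 1)) = 1 := by
    apply Units.ext
    push_cast
    have h5 : (ζ : F) ^ (2 * (p ^ k - 1)) * (ζ : F) ^ 2 = (ζ : F) ^ 2 := by
      rw [← pow_add]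
      rw [← pow_mul] at h3
      have : 2 * (p ^ k - 1) + 2 = 2 * p ^ k := by omega
      rw [this]
      exact h3
    exact mul_right_cancel₀ (pow_ne_zero 2 ζ.ne_zero) (h5.trans (one_mul _).symm)
  have h5 := orderOf_dvd_of_pow_eq_one h4
  rw [ho] at h5
  have h6 := Nat.le_of_dvd (by omega) h5
  have h7 : (p ^ k) ^ 2 - 1 ≤ 2 * (p ^ k - 1) := by omega
  generalize p ^ k = r at *
  obtain ⟨s, rfl⟩ : ∃ s, r = s + 2 := ⟨r - 2, by omega⟩
  have h8 : (s + 2) ^ 2 = s ^ 2 + 4 * s + 4 := by ring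
  omega

/-- a generator of the units generates the field -/
theorem adjoin_eq_top {ζ : Fˣ} (hζ : ∀ y, y ∈ Subgroup.zpowers ζ) :
    Algebra.adjoin (ZMod p) {(ζ : F)} = ⊤ := by
  rw [eq_top_iff, ← adjoin_sq_eq_top (p := p) hζ]
  apply Algebra.adjoin_le
  rw [Set.singleton_subset_iff]
  exact pow_mem (Algebra.self_mem_adjoin_singleton _ _) 2

/-- the element `((1 - ζ²) / 2 ζ)²` generates the field -/
theorem adjoin_alpha_eq_top {ζ : Fˣ} (hζ : ∀ y, y ∈ Subgroup.zpowers ζ) (h2 : (2 : F) ≠ 0)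
    (h9 : Fintype.card F ≠ 9) :
    Algebra.adjoin (ZMod p) {((1 - (ζ : F) ^ 2) / (2 * ζ)) ^ 2} = ⊤ := by
  by_contra hne
  obtain ⟨k, h1, hk2, h3⟩ := exists_pow_of_adjoin_ne_top hne
  have hz := ζ.ne_zero
  have ho : orderOf ζ = Fintype.card F - 1 := order_gen hζ
  have hch : CharP F p := charP_of_injective_algebraMap (algebraMap (ZMod p) F).injective p
  set α : F := ((1 - (ζ : F) ^ 2) / (2 * ζ)) ^ 2 with hα
  have e1 : (ζ : F) ^ 2 + ((ζ : F) ^ 2)⁻¹ = 4 * α + 2 := by
    rw [hα]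
    field_simp
    ring
  have e2 : ((ζ : F) ^ 2 + ((ζ : F) ^ 2)⁻¹) ^ (p ^ k) = (ζ : F) ^ 2 + ((ζ : F) ^ 2)⁻¹ := by
    rw [e1]
    have h4 : (4 * α + 2) ^ p ^ k = (4 * α) ^ p ^ k + 2 ^ p ^ k := add_pow_char_pow (4 * α) 2 p k
    have h5 : ∀ n : ℕ, (n : F) ^ p ^ k = n := by
      intro n
      have := map_natCast (iterateFrobenius F p k) n
      rwa [iterateFrobenius_def] at this
    rw [h4, mul_pow, h3]
    have h6 := h5 4
    have h7 := h5 2
    push_cast at h6 h7
    rw [h6, h7]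
  rw [add_pow_char_pow] at e2
  generalize hr : p ^ k = r at *
  have e3 : (((ζ : F) ^ 2) ^ r - (ζ : F) ^ 2) * (((ζ : F) ^ 2) ^ r * (ζ : F) ^ 2 - 1) = 0 := by
    have hz2 : ((ζ : F) ^ 2) ^ r ≠ 0 := pow_ne_zero _ (pow_ne_zero _ hz)
    rw [inv_pow] at e2
    field_simp at e2
    linear_combination e2
  have hcard : 1 < Fintype.card F := Fintype.one_lt_card
  have hodd : Odd r := by
    rw [← hr]
    have hp2 : p ≠ 2 := by
      intro hp
      subst hp
      exact h2 (by exact_mod_cast CharP.cast_eq_zero F 2)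
    exact ((Fact.out : p.Prime).odd_of_ne_two hp2).pow
  have hr3 : 3 ≤ r := by
    obtain ⟨s, hs⟩ := hodd
    omega
  rcases mul_eq_zero.1 e3 with h | h
  · have h4 : ζ ^ (2 * (r - 1)) = 1 := by
      apply Units.ext
      push_cast
      have h5 : (ζ : F) ^ (2 * (r - 1)) * (ζ : F) ^ 2 = (ζ : F) ^ 2 := by
        rw [← pow_add]
        rw [← pow_mul] at h
        have : 2 * (r - 1) + 2 = 2 * r := by omega
        rw [this]
        exact sub_eq_zero.1 h
      exact mul_right_cancel₀ (pow_ne_zero 2 hz) (h5.trans (one_mul _).symm)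
    have h5 := orderOf_dvd_of_pow_eq_one h4
    rw [ho] at h5
    have h6 := Nat.le_of_dvd (by omega) h5
    obtain ⟨s, rfl⟩ : ∃ s, r = s + 3 := ⟨r - 3, by omega⟩
    have h8 : (s + 3) ^ 2 = s ^ 2 + 6 * s + 9 := by ring
    omega
  · have h4 : ζ ^ (2 * (r + 1)) = 1 := by
      apply Units.ext
      push_cast
      have h5 : (ζ : F) ^ (2 * (r + 1)) = ((ζ : F) ^ 2) ^ r * (ζ : F) ^ 2 := by
        rw [← pow_mul, ← pow_add]
        congr 1
      rw [h5]
      exact sub_eq_zero.1 h
    have h5 := orderOf_dvd_of_pow_eq_one h4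
    rw [ho] at h5
    have h6 := Nat.le_of_dvd (by omega) h5
    obtain ⟨s, rfl⟩ : ∃ s, r = s + 3 := ⟨r - 3, by omega⟩
    have h8 : (s + 3) ^ 2 = s ^ 2 + 6 * s + 9 := by ring
    have hs0 : s = 0 := by
      rcases Nat.eq_zero_or_pos s with h | h
      · exact h
      · have : 1 ≤ s ^ 2 := Nat.one_le_pow _ _ h
        omega
    subst hs0
    have h10 : Fintype.card F - 1 ≤ 8 := by omega
    have h11 : 9 ≤ Fintype.card F := by simpa using hk2
    omega

end Cfsg.Agent.H109
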