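import Cfsg.Agent.H109.ROrthA
import Cfsg.Agent.H777.ElimDef
import Cfsg.Agent.LieClassical.OmegaReindex
import Cfsg.Agent.LieClassical.OmegaCenter
import Cfsg.Agent.S0292
import Cfsg.Agent.S0293
import Cfsg.Agent.S0294

/-!
# The orthogonal rows of `H777.Elim.Row` (helper109, task 496 of helper777, S5229, S5231)

`row_oodd`, `row_oplus`, `row_ominus`: if the 3-part of the order of `PΩ(Q)`, `3 ∤ q`, is `3 ^ 10`, there is an abelian
3-subgroup of order at least `3 ^ 6`.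
-/

set_option autoImplicit false

namespace Cfsg.Agent.H109.ROrth

open Matrix Subgroup QuadraticMap Cfsg.Agent.H423.PGOrth Cfsg.Agent.LieClassical.OmegaReindex
open Cfsg (POmega Omega quadFormOdd quadFormPlus quadFormMinus)
open scoped commutatorElement

section num

theorem v_small {k : ℕ} (hk : 1 ≤ k) (h6 : k ≤ 6) : padicValNat 3 k ≤ if 3 ∣ k then 1 else 0 := by
  have : Fact (Nat.Prime 3) := ⟨Nat.prime_three⟩
  have h0 : k ≠ 0 := by omega
  split_ifs with h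
  · by_contra hc
    have h1 : 3 ^ 2 ∣ k := (padicValNat_dvd_iff_le h0).2 (by omega)
    have := Nat.le_of_dvd (by omega) h1
    omega
  · exact (padicValNat.eq_zero_of_not_dvd h).le

theorem v_fac {q b k : ℕ} (h2 : 2 ≤ q) (h3 : ¬ 3 ∣ q) (hb : ¬ 3 ^ (b + 1) ∣ q ^ 2 - 1) (hk : 1 ≤ k) (h6 : k ≤ 6) :
    padicValNat 3 (q ^ (2 * k) - 1) ≤ b + if 3 ∣ k then 1 else 0 := by
  have : Fact (Nat.Prime 3) := ⟨Nat.prime_three⟩
  have hq2 : 1 < q ^ 2 := by nlinarith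
  have h31 : 3 ∣ q ^ 2 - 1 := by
    have : q % 3 = 1 ∨ q % 3 = 2 := by omega
    have h4 : (q ^ 2) % 3 = 1 := by
      rw [pow_two, Nat.mul_mod]
      rcases this with h | h <;> simp [h]
    omega
  have h1 : padicValNat 3 ((q ^ 2) ^ k - 1 ^ k) = padicValNat 3 (q ^ 2 - 1) + padicValNat 3 k :=
    padicValNat.pow_sub_pow (by decide) hq2 h31 (fun h => h3 (Nat.prime_three.dvd_of_dvd_pow h)) (by omega)
  rw [one_pow] at h1
  rw [pow_mul, h1]
  have h5 : padicValNat 3 (q ^ 2 - 1) ≤ b := by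
    by_contra hc
    exact hb ((padicValNat_dvd_iff_le (by omega)).2 (by omega))
  have := v_small hk h6
  omega

theorem v_prod {q b m : ℕ} (h2 : 2 ≤ q) (h3 : ¬ 3 ∣ q) (hb : ¬ 3 ^ (b + 1) ∣ q ^ 2 - 1) (h6 : m ≤ 6) :
    padicValNat 3 (∏ i ∈ Finset.range m, (q ^ (2 * (i + 1)) - 1)) ≤ m * b + m / 3 := by
  have : Fact (Nat.Prime 3) := ⟨Nat.prime_three⟩
  induction m with
  | zero => simp
  | succ m ih =>
    have hne : ∀ k : ℕ, q ^ (2 * (k + 1)) - 1 ≠ 0 := by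
      intro k
      have := Nat.one_lt_pow (n := 2 * (k + 1)) (by omega) (show 1 < q by omega)
      omega
    rw [Finset.prod_range_succ, padicValNat.mul (Finset.prod_ne_zero_iff.2 fun i _ => hne i) (hne m)]
    have h1 := ih (by omega)
    have h4 := v_fac h2 h3 hb (k := m + 1) (by omega) h6
    have h5 : (m + 1) * b = m * b + b := by ring
    rw [h5]
    split_ifs at h4 with h7 <;> omega

theorem nums {q m h : ℕ} (h2 : 2 ≤ q) (h3 : ¬ 3 ∣ q)
    (hd : 3 ^ 10 ∣ ∏ i ∈ Finset.range m, (q ^ (2 * (i + 1)) - 1)) (hm : m ≤ h + 1) (hh : 3 ≤ h) :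
    ∃ a, 3 ^ a ∣ q ^ 2 - 1 ∧ 6 ≤ (h / 2) * (2 * a) := by
  have : Fact (Nat.Prime 3) := ⟨Nat.prime_three⟩
  have h31 : 3 ∣ q ^ 2 - 1 := by
    have : q % 3 = 1 ∨ q % 3 = 2 := by omega
    have h4 : (q ^ 2) % 3 = 1 := by
      rw [pow_two, Nat.mul_mod]
      rcases this with h | h <;> simp [h]
    omega
  have hne : ∏ i ∈ Finset.range m, (q ^ (2 * (i + 1)) - 1) ≠ 0 := by
    refine Finset.prod_ne_zero_iff.2 fun k _ => ?_
    have := Nat.one_lt_pow (n := 2 * (k + 1)) (by omega) (show 1 < q by omega)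
    omega
  rw [padicValNat_dvd_iff_le hne] at hd
  rcases Nat.lt_or_ge h 6 with h6 | h6
  · by_cases h9 : 3 ^ 2 ∣ q ^ 2 - 1
    · rcases Nat.lt_or_ge h 4 with h4 | h4
      · by_cases h27 : 3 ^ 3 ∣ q ^ 2 - 1
        · exact ⟨3, h27, by omega⟩
        · exfalso
          have := v_prod (m := m) h2 h3 h27 (by omega)
          omega
      · exact ⟨2, h9, by omega⟩
    · exfalso
      have := v_prod (m := m) (b := 1) h2 h3 h9 (by omega)
      omega
  · exact ⟨1, by simpa using h31, by omega⟩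

end num

section group

variable {F : Type*} [Field F] [Fintype F]

theorem big_of_inv {ι : Type} [Fintype ι] [DecidableEq ι] (Q : QuadraticForm F (ι → F))
    (hQ : (polarBilin Q).Nondegenerate) (hn : 3 ≤ Fintype.card ι) (hs : ∃ u : ι → F, u ≠ 0 ∧ Q u = 0)
    {r : ℕ} (hr : 6 ≤ r) (h : Inv r ↥(Cfsg.isometryGroup F ⇑Q)) : Cfsg.Agent.H777.Elim.Big (POmega F ⇑Q) := by
  have : Fact (Nat.Prime 3) := ⟨Nat.prime_three⟩
  obtain ⟨A, s, hA, hs', hc⟩ := h
  have hpow : ∀ x ∈ A, x ^ (3 ^ r) = 1 := by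
    intro x hx
    have h1 : (⟨x, hx⟩ : A) ^ Nat.card A = 1 := pow_card_eq_one'
    rw [hc] at h1
    exact congrArg Subtype.val h1
  have hle : A ≤ Omega F ⇑Q := by
    intro x hx
    have h1 : ∃ k : ℕ, 3 ^ r = 2 * k + 1 := by
      have : Odd (3 ^ r) := Odd.pow (by decide)
      exact this
    obtain ⟨k, hk⟩ := h1
    have h2 : ⁅s, x ^ k⁆ = x := by
      have h3 := hs' (x ^ k) (pow_mem hx k)
      rw [commutatorElement_def, h3]
      have h4 : (x ^ k)⁻¹ * (x ^ k)⁻¹ * x ^ (3 ^ r) = x := by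
        rw [hk]
        group
      rwa [hpow x hx, mul_one] at h4
    rw [← h2]
    exact Subgroup.commutator_mem_commutator (Subgroup.mem_top _) (Subgroup.mem_top _)
  refine Cfsg.Agent.H777.Elim.Big.of_hom (A := A.subgroupOf (Omega F ⇑Q))
    (QuotientGroup.mk' (Subgroup.center (Omega F ⇑Q))) ?_ ?_ ?_ ?_
  · rw [IsPGroup.iff_card]
    refine ⟨r, ?_⟩
    rw [← hc]
    exact Nat.card_congr (Subgroup.subgroupOfEquivOfLe hle).toEquiv
  · intro x hx y hy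
    exact Subtype.ext (hA _ hx _ hy)
  · rw [Nat.card_congr (Subgroup.subgroupOfEquivOfLe hle).toEquiv, hc]
    exact Nat.pow_le_pow_right (by norm_num) hr
  · intro x hx h1
    have h2 : x ∈ Subgroup.center (Omega F ⇑Q) := (QuotientGroup.eq_one_iff x).1 h1
    have h4 := (Cfsg.Agent.LieClassical.OmegaCenter.mem_center_omega_iff Q hQ hn hs x).1 h2
    have h5 : x ^ 2 = 1 := by
      apply Cfsg.Agent.LieClassical.OmegaCenter.omega_ext
      show Cfsg.Agent.LieClassical.OmegaCenter.omegaMat x ^ 2 = 1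
      rcases h4 with h4 | h4 <;> rw [h4] <;> simp
    have h6 : x ^ (3 ^ r) = 1 := Subtype.ext (hpow _ hx)
    have h7 : Nat.Coprime (3 ^ r) 2 := Nat.Coprime.pow_left _ (by norm_num)
    have h8 := (pow_gcd_eq_one (a := x)).2 ⟨h6, h5⟩
    rwa [h7, pow_one] at h8

theorem not_dvd (h3 : (3 : F) ≠ 0) : ¬ 3 ∣ Nat.card F := by
  intro h
  obtain ⟨p, hp⟩ := CharP.exists F
  have hpp : p.Prime := CharP.char_is_prime F p
  obtain ⟨n, hp', hn⟩ := FiniteField.card F p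
  rw [Nat.card_eq_fintype_card, hn] at h
  have h4 : 3 ∣ p := Nat.prime_three.dvd_of_dvd_pow h
  have h5 : p = 3 := ((Nat.prime_dvd_prime_iff_eq Nat.prime_three hpp).1 h4).symm
  subst h5
  apply h3
  exact_mod_cast CharP.cast_eq_zero F 3

theorem two_le_card : 2 ≤ Nat.card F := Finite.one_lt_card

theorem exists_inv {m h : ℕ} (h3 : (3 : F) ≠ 0)
    (hd : 3 ^ 10 ∣ ∏ i ∈ Finset.range m, (Nat.card F ^ (2 * (i + 1)) - 1)) (hm : m ≤ h + 1) (hh : 3 ≤ h) :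
    ∃ r, 6 ≤ r ∧ Inv r ↥(Cfsg.isometryGroup F (quadFormPlus h F)) := by
  obtain ⟨a, ha, h6⟩ := nums two_le_card (not_dvd h3) hd hm hh
  refine ⟨_, h6, ?_⟩
  have h1 := inv_plus (F := F) (not_dvd h3) ha (h / 2) (h % 2)
  rwa [Nat.div_add_mod] at h1

theorem three_dvd {k n x : ℕ} {q : ℕ} (hq : ¬ 3 ∣ q) (h : 3 ^ 10 ∣ q ^ n * x) (hk : x ∣ k) : 3 ^ 10 ∣ k := by
  refine dvd_trans (Nat.Coprime.dvd_of_dvd_mul_left ?_ h) hk
  apply Nat.Coprime.pow
  exact (Nat.Prime.coprime_iff_not_dvd Nat.prime_three).2 hq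

/-- **`Ω_{2m+1}(q)`** -/
theorem row_oodd {m : ℕ} (hm : 3 ≤ m) (ho : Odd (Fintype.card F)) (h3 : (3 : F) ≠ 0) :
    Cfsg.Agent.H777.Elim.Row (POmega F (quadFormOdd m F)) := by
  rintro ⟨hV, -⟩
  have h1 := Cfsg.Agent.S0292.result (F := F) rfl ho m hm
  rw [← Nat.card_eq_fintype_card] at h1
  have h2 : 3 ^ 10 ∣ Nat.card F ^ (m ^ 2) * ∏ i ∈ Finset.range m, (Nat.card F ^ (2 * (i + 1)) - 1) := by
    rw [← h1]
    exact Dvd.dvd.mul_left hV 2
  obtain ⟨r, hr, h4⟩ := exists_inv (m := m) (h := m) h3 (three_dvd (not_dvd h3) h2 dvd_rfl) (by omega) hm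
  have h5 := ((h4.prod (Inv.zero _)).map (isoBlk _ (spl_odd (F := F) m)) (isoBlk_injective _ _))
  have h20 : (2 : F) ≠ 0 := by
    intro h
    have hc : CharP F 2 := CharTwo.of_one_ne_zero_of_two_eq_zero one_ne_zero h
    obtain ⟨n, -, hn⟩ := FiniteField.card F 2
    rw [hn] at ho
    exact absurd ho (by rw [Nat.not_odd_iff_even]; exact (Nat.even_pow.2 ⟨even_two, n.ne_zero⟩))
  rw [← coe_quadOdd] at h5 ⊢
  exact big_of_inv _ (quadOdd_nondegenerate h20) (by simp; omega) (quadOdd_isotropic (by omega)) (by omega) h5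

/-- **`PΩ⁺_{2m}(q)`** -/
theorem row_oplus {m : ℕ} (hm : 4 ≤ m) (h3 : (3 : F) ≠ 0) :
    Cfsg.Agent.H777.Elim.Row (POmega F (quadFormPlus m F)) := by
  rintro ⟨hV, -⟩
  have h1 := Cfsg.Agent.S0293.result (F := F) rfl m hm
  rw [← Nat.card_eq_fintype_card] at h1
  have h2 : 3 ^ 10 ∣ Nat.card F ^ (m * (m - 1)) * ((Nat.card F ^ m - 1) *
      ∏ i ∈ Finset.range (m - 1), (Nat.card F ^ (2 * (i + 1)) - 1)) := by
    rw [← mul_assoc, ← h1]
    exact Dvd.dvd.mul_left hV _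
  have h6 : (Nat.card F ^ m - 1) * ∏ i ∈ Finset.range (m - 1), (Nat.card F ^ (2 * (i + 1)) - 1) ∣
      ∏ i ∈ Finset.range m, (Nat.card F ^ (2 * (i + 1)) - 1) := by
    obtain ⟨k, rfl⟩ : ∃ k, m = k + 1 := ⟨m - 1, by omega⟩
    rw [Finset.prod_range_succ, Nat.add_sub_cancel, mul_comm]
    refine mul_dvd_mul_left _ ?_
    exact Nat.pow_sub_one_dvd_pow_sub_one _ (Dvd.intro_left 2 rfl)
  obtain ⟨r, hr, h4⟩ := exists_inv (m := m) (h := m) h3 (three_dvd (not_dvd h3) h2 h6) (by omega) (by omega)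
  rw [← coe_quadPlus] at h4 ⊢
  exact big_of_inv _ quadPlus_nondegenerate (by simp; omega) (quadPlus_isotropic (by omega)) hr h4

/-- **`PΩ⁻_{2m}(q)`** -/
theorem row_ominus {m : ℕ} (hm : 4 ≤ m) {a b : F}
    (hab : ∀ z₁ z₂ : F, z₁ ^ 2 + a * z₁ * z₂ + b * z₂ ^ 2 = 0 → z₁ = 0 ∧ z₂ = 0) (h3 : (3 : F) ≠ 0) :
    Cfsg.Agent.H777.Elim.Row (POmega F (quadFormMinus (m - 1) F a b)) := by
  rintro ⟨hV, -⟩
  have h1 := Cfsg.Agent.S0294.result (F := F) rfl m hm a b hab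
  rw [← Nat.card_eq_fintype_card] at h1
  have h2 : 3 ^ 10 ∣ Nat.card F ^ (m * (m - 1)) * ((Nat.card F ^ m + 1) *
      ∏ i ∈ Finset.range (m - 1), (Nat.card F ^ (2 * (i + 1)) - 1)) := by
    rw [← mul_assoc, ← h1]
    exact Dvd.dvd.mul_left hV _
  have h6 : (Nat.card F ^ m + 1) * ∏ i ∈ Finset.range (m - 1), (Nat.card F ^ (2 * (i + 1)) - 1) ∣
      ∏ i ∈ Finset.range m, (Nat.card F ^ (2 * (i + 1)) - 1) := by
    obtain ⟨k, rfl⟩ : ∃ k, m = k + 1 := ⟨m - 1, by omega⟩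
    rw [Finset.prod_range_succ, Nat.add_sub_cancel, mul_comm]
    refine mul_dvd_mul_left _ ?_
    refine ⟨Nat.card F ^ (k + 1) - 1, ?_⟩
    have := Nat.sq_sub_sq (Nat.card F ^ (k + 1)) 1
    rw [one_pow, ← pow_mul, mul_comm (k + 1) 2] at this
    exact this
  obtain ⟨r, hr, h4⟩ := exists_inv (m := m) (h := m - 1) h3 (three_dvd (not_dvd h3) h2 h6) (by omega) (by omega)
  have h5 := ((h4.prod (Inv.zero _)).map (isoBlk _ (spl_minus (F := F) (m - 1) a b)) (isoBlk_injective _ _))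
  rw [← coe_quadMinus] at h5 ⊢
  exact big_of_inv _ (quadMinus_nondegenerate hab) (by simp; omega) (quadMinus_isotropic (by omega) a b)
    (by omega) h5

end group

end Cfsg.Agent.H109.ROrth
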