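import Mathlib
import Cfsg.Agent.H109.Root

/-!
# Root groups from few relations, working versions (helper109)

* `exists_x_self` : the operator is `a` itself.
* `exists_x_fin` : `h` of finite order commuting with `a`, minimal polynomial given.
* `exists_x_f` : `h` of finite order, `a` a power of `h`, no minimal polynomial.
-/

set_option autoImplicit false

namespace Cfsg.Agent.H109

open Polynomial

/-- the subgroup generated by the conjugates of `u` under `a` -/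
def cu {G : Type*} [Group G] (a u : G) : Subgroup G :=
  Subgroup.closure {g | ∃ i : ℤ, g = a ^ i * u * (a ^ i)⁻¹}

section

variable {G : Type*} [Group G]

theorem mem_cu (a u : G) (i : ℤ) : a ^ i * u * (a ^ i)⁻¹ ∈ cu a u := Subgroup.subset_closure ⟨i, rfl⟩

theorem self_mem_cu (a u : G) : u ∈ cu a u := by
  have := mem_cu a u 0
  simpa using this

theorem cu_comm {a u : G} (hc : ∀ i j : ℤ, Commute (a ^ i * u * (a ^ i)⁻¹) (a ^ j * u * (a ^ j)⁻¹)) :
    ∀ v ∈ cu a u, ∀ w ∈ cu a u, v * w = w * v := by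
  have h1 : IsMulCommutative (Subgroup.closure {g | ∃ i : ℤ, g = a ^ i * u * (a ^ i)⁻¹}) :=
    Subgroup.isMulCommutative_closure (by
      rintro _ ⟨i, rfl⟩ _ ⟨j, rfl⟩
      exact (hc i j).eq)
  intro v hv w hw
  exact congrArg Subtype.val (h1.is_comm.comm ⟨v, hv⟩ ⟨w, hw⟩)

theorem cu_pow {a u : G} (hc : ∀ i j : ℤ, Commute (a ^ i * u * (a ^ i)⁻¹) (a ^ j * u * (a ^ j)⁻¹)) {p : ℕ}
    (hp : u ^ p = 1) : ∀ v ∈ cu a u, v ^ p = 1 := by
  intro v hv
  induction hv using Subgroup.closure_induction with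
  | mem y hy =>
    obtain ⟨i, rfl⟩ := hy
    rw [conj_pow, hp]; simp
  | one => simp
  | mul y z hy hz ihy ihz =>
    have : Commute y z := cu_comm hc y hy z hz
    rw [this.mul_pow, ihy, ihz, one_mul]
  | inv y hy ihy => rw [inv_pow, ihy, inv_one]

theorem conj_mem_cu {a u h : G} (hah : Commute a h) (hu : h * u * h⁻¹ ∈ cu a u) :
    ∀ v ∈ cu a u, h * v * h⁻¹ ∈ cu a u := by
  intro v hv
  induction hv using Subgroup.closure_induction with
  | mem y hy =>
    obtain ⟨i, rfl⟩ := hy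
    have e : h * (a ^ i * u * (a ^ i)⁻¹) * h⁻¹ = a ^ i * (h * u * h⁻¹) * (a ^ i)⁻¹ := by
      have h1 : Commute (a ^ i) h := hah.zpow_left i
      calc h * (a ^ i * u * (a ^ i)⁻¹) * h⁻¹ = (h * a ^ i) * u * (h * a ^ i)⁻¹ := by group
        _ = (a ^ i * h) * u * (a ^ i * h)⁻¹ := by rw [h1.eq]
        _ = _ := by group
    rw [e]
    have h2 : ∀ w ∈ cu a u, a ^ i * w * (a ^ i)⁻¹ ∈ cu a u := by
      intro w hw
      induction hw using Subgroup.closure_induction with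
      | mem y hy =>
        obtain ⟨j, rfl⟩ := hy
        have : a ^ i * (a ^ j * u * (a ^ j)⁻¹) * (a ^ i)⁻¹ = a ^ (i + j) * u * (a ^ (i + j))⁻¹ := by
          rw [zpow_add]; group
        rw [this]
        exact mem_cu _ _ _
      | one => simp [one_mem]
      | mul y z hy hz ihy ihz =>
        have : a ^ i * (y * z) * (a ^ i)⁻¹ = (a ^ i * y * (a ^ i)⁻¹) * (a ^ i * z * (a ^ i)⁻¹) := by group
        rw [this]; exact mul_mem ihy ihz
      | inv y hy ihy =>
        have : a ^ i * y⁻¹ * (a ^ i)⁻¹ = (a ^ i * y * (a ^ i)⁻¹)⁻¹ := by group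
        rw [this]; exact inv_mem ihy
    exact h2 _ hu
  | one => simp [one_mem]
  | mul y z hy hz ihy ihz =>
    have : h * (y * z) * h⁻¹ = (h * y * h⁻¹) * (h * z * h⁻¹) := by group
    rw [this]; exact mul_mem ihy ihz
  | inv y hy ihy =>
    have : h * y⁻¹ * h⁻¹ = (h * y * h⁻¹)⁻¹ := by group
    rw [this]; exact inv_mem ihy

theorem pow_conj_mem {U : Subgroup G} {h : G} (hh : ∀ v ∈ U, h * v * h⁻¹ ∈ U) (n : ℕ) :
    ∀ v ∈ U, h ^ n * v * (h ^ n)⁻¹ ∈ U := by
  induction n with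
  | zero => simp
  | succ n ih =>
    intro v hv
    have : h ^ (n + 1) * v * (h ^ (n + 1))⁻¹ = h * (h ^ n * v * (h ^ n)⁻¹) * h⁻¹ := by
      rw [pow_succ']; group
    rw [this]
    exact hh _ (ih v hv)

theorem mem_norm_of {U : Subgroup G} {h : G} (hh : ∀ v ∈ U, h * v * h⁻¹ ∈ U) (hh' : ∀ v ∈ U, h⁻¹ * v * h ∈ U) :
    h ∈ Subgroup.normalizer (U : Set G) := by
  rw [Subgroup.mem_normalizer_iff]
  intro v
  refine ⟨hh v, fun hv => ?_⟩
  have := hh' _ hv
  have e : h⁻¹ * (h * v * h⁻¹) * h = v := by group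
  rwa [e] at this

theorem mem_norm_fin {U : Subgroup G} {h : G} (hh : ∀ v ∈ U, h * v * h⁻¹ ∈ U) {n : ℕ} (hn : 0 < n)
    (h1 : h ^ n = 1) : h ∈ Subgroup.normalizer (U : Set G) := by
  refine mem_norm_of hh fun v hv => ?_
  have e : h⁻¹ = h ^ (n - 1) := by
    rw [inv_eq_iff_mul_eq_one, ← pow_succ']
    have : n - 1 + 1 = n := by omega
    rw [this, h1]
  have := pow_conj_mem hh (n - 1) v hv
  rw [← e, inv_inv] at this
  exact this

theorem self_mem_norm (a u : G) : a ∈ Subgroup.normalizer (cu a u : Set G) := by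
  have h1 : a * u * a⁻¹ ∈ cu a u := by
    have := mem_cu a u 1
    simpa using this
  have h2 : a⁻¹ * u * a⁻¹⁻¹ ∈ cu a u := by
    have := mem_cu a u (-1)
    simpa using this
  refine mem_norm_of (conj_mem_cu (Commute.refl a) h1) fun v hv => ?_
  have := conj_mem_cu ((Commute.refl a).inv_right) h2 v hv
  rwa [inv_inv] at this

theorem pw_mem (a u : G) (l : List ℤ) : pw a u l ∈ cu a u := by
  induction l with
  | nil => exact one_mem _
  | cons c l ih =>
    rw [pw_cons]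
    refine mul_mem (zpow_mem (self_mem_cu _ _) _) ?_
    exact (Subgroup.mem_normalizer_iff.1 (self_mem_norm a u) _).1 ih

end

variable {G : Type*} [Group G] {p : ℕ} [Fact p.Prime] {F : Type*} [Field F] [Fintype F] [Algebra (ZMod p) F]

/-- The operator is `a` itself. -/
theorem exists_x_self {u a : G} (hp : u ^ p = 1)
    (hc : ∀ i j : ℤ, Commute (a ^ i * u * (a ^ i)⁻¹) (a ^ j * u * (a ^ j)⁻¹))
    {α : F} (hα : Algebra.adjoin (ZMod p) {α} = ⊤) (hpoly : pw a u (lst (minpoly (ZMod p) α)) = 1) :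
    ∃ x : F → G, (∀ s t, x (s + t) = x s * x t) ∧ x 1 = u ∧ (∀ t, a * x t * a⁻¹ = x (α * t)) ∧
      (∀ t, x t ∈ cu a u) := by
  obtain ⟨x, h1, h2, h3, -, h5⟩ := exists_x_core (p := p) (cu a u) (cu_comm hc) (cu_pow hc hp) (self_mem_cu a u)
    (self_mem_norm a u) (self_mem_norm a u) (Commute.refl a) le_rfl (α := α) (γ := α) hα (l := [0, 1])
    (by simp) (by simp) (Or.inl hpoly)
  exact ⟨x, h1, h2, h3, h5⟩

/-- `h` of finite order commuting with `a`. -/
theorem exists_x_fin {u a h : G} (hp : u ^ p = 1)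
    (hc : ∀ i j : ℤ, Commute (a ^ i * u * (a ^ i)⁻¹) (a ^ j * u * (a ^ j)⁻¹)) (hah : Commute a h)
    {n : ℕ} (hn : 0 < n) (hh : h ^ n = 1)
    {α γ : F} (hα : Algebra.adjoin (ZMod p) {α} = ⊤) {l : List ℤ} (hl : ev α l = γ)
    (hact : h * u * h⁻¹ = pw a u l) (hpoly : pw a u (lst (minpoly (ZMod p) α)) = 1) :
    ∃ x : F → G, (∀ s t, x (s + t) = x s * x t) ∧ x 1 = u ∧ (∀ t, a * x t * a⁻¹ = x (α * t)) ∧
      (∀ t, h * x t * h⁻¹ = x (γ * t)) ∧ (∀ t, x t ∈ cu a u) :=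
  exists_x_core (p := p) (cu a u) (cu_comm hc) (cu_pow hc hp) (self_mem_cu a u)
    (self_mem_norm a u) (mem_norm_fin (conj_mem_cu hah (by rw [hact]; exact pw_mem _ _ _)) hn hh) hah le_rfl hα
    hl hact (Or.inl hpoly)

/-- `h` of order dividing `q - 1`, `a` a power of `h`, no minimal polynomial. -/
theorem exists_x_f {u a h : G} (hp : u ^ p = 1)
    (hc : ∀ i j : ℤ, Commute (a ^ i * u * (a ^ i)⁻¹) (a ^ j * u * (a ^ j)⁻¹)) (hah : Commute a h)
    (hh : h ^ (Fintype.card F - 1) = 1) (haq : a ^ (Fintype.card F - 1) = 1)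
    {α γ : F} (hα : Algebra.adjoin (ZMod p) {α} = ⊤) {f g : (ZMod p)[X]} (hf : aeval α f = γ)
    (hfg : f * minpoly (ZMod p) α = g * (X ^ Fintype.card F - X))
    (hact : h * u * h⁻¹ = pw a u (lst f)) :
    ∃ x : F → G, (∀ s t, x (s + t) = x s * x t) ∧ x 1 = u ∧ (∀ t, a * x t * a⁻¹ = x (α * t)) ∧
      (∀ t, h * x t * h⁻¹ = x (γ * t)) ∧ (∀ t, x t ∈ cu a u) :=
  exists_x_core (p := p) (cu a u) (cu_comm hc) (cu_pow hc hp) (self_mem_cu a u)
    (self_mem_norm a u) (mem_norm_fin (conj_mem_cu hah (by rw [hact]; exact pw_mem _ _ _))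
      (by have := Fintype.one_lt_card (α := F); omega) hh) hah le_rfl hα
    ((ev_lst f α).trans hf) hact (Or.inr ⟨f, g, rfl, hfg, haq⟩)

end Cfsg.Agent.H109
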