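import Mathlib
import Cfsg.Agent.H109.URel

/-!
# Few relations for a root group, characteristic two (helper109)
-/

set_option autoImplicit false

universe v

namespace Cfsg.Agent.H109

open Polynomial

variable {F : Type v} [Field F] [Fintype F]

/-- a generator is a power of its square in characteristic two -/
theorem sq_pow_half {ζ : Fˣ} (hζ : ∀ y, y ∈ Subgroup.zpowers ζ) (h2 : (2 : F) = 0) :
    Even (Fintype.card F) ∧ (ζ ^ 2) ^ (Fintype.card F / 2) = ζ := by
  have hch : CharP F 2 := CharTwo.of_one_ne_zero_of_two_eq_zero one_ne_zero h2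
  have hev : Even (Fintype.card F) := by
    rw [Nat.even_iff]
    exact FiniteField.even_card_of_char_two (ringChar.eq F 2)
  refine ⟨hev, ?_⟩
  rw [← pow_mul, Nat.two_mul_div_two_of_even hev]
  have ho := order_gen hζ
  have h1 : ζ ^ (Fintype.card F - 1) = 1 := by rw [← ho]; exact pow_orderOf_eq_one ζ
  have h3 : Fintype.card F = (Fintype.card F - 1) + 1 := by
    have := Fintype.card_pos (α := F)
    omega
  rw [h3, pow_succ, h1, one_mul]

/-- characteristic two: three relators -/
theorem uRelS_two {ζ : Fˣ} (hζ : ∀ y, y ∈ Subgroup.zpowers ζ) (h2 : (2 : F) = 0) : URelS ((ζ : F) ^ 2) 3 := by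
  classical
  have hch : CharP F 2 := CharTwo.of_one_ne_zero_of_two_eq_zero one_ne_zero h2
  let _ : Algebra (ZMod 2) F := ZMod.algebra F 2
  have : Fact (Nat.Prime 2) := ⟨Nat.prime_two⟩
  have hcard1 : 1 < Fintype.card F := Fintype.one_lt_card
  obtain ⟨hev, hhalf⟩ := sq_pow_half hζ h2
  set γ : F := (ζ : F) ^ 2 with hγ
  have hα := adjoin_sq_eq_top (p := 2) hζ
  rw [← hγ] at hα
  by_cases hγ1 : γ = 1
  · -- two elements
    have hall : ∀ t : F, t = 0 ∨ t = 1 := by
      intro t
      by_cases ht : t = 0
      · exact Or.inl ht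
      right
      obtain ⟨i, hi⟩ := hζ (Units.mk0 t ht)
      have h1 : ζ ^ 2 = 1 := Units.ext (by rw [Units.val_pow_eq_pow_val, Units.val_one]; exact hγ1)
      have h3 : ζ = 1 := by rw [← hhalf, h1, one_pow]
      have := congrArg Units.val hi
      simp only [h3, one_zpow, Units.val_one, Units.val_mk0] at this
      exact this.symm
    refine ⟨[FreeGroup.of 0 ^ 2, FreeGroup.of 1 * FreeGroup.of 0 * (FreeGroup.of 1)⁻¹ * (FreeGroup.of 0)⁻¹],
      by simp, ?_, ?_⟩
    · intro G _ x h hx hh r hr
      simp only [List.mem_cons, List.not_mem_nil, or_false] at hr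
      rcases hr with rfl | rfl
      · simp only [map_pow, FreeGroup.lift_apply_of, Matrix.cons_val_zero]
        rw [x_pow hx]
        simp [h2, x_zero hx]
      · simp only [map_mul, map_inv, FreeGroup.lift_apply_of, Matrix.cons_val_zero, Matrix.cons_val_one,
          Matrix.cons_val_fin_one]
        rw [hh, hγ1]; simp
    · intro J _ u h hr
      have r1 := hr _ (List.mem_cons_self)
      have r2 := hr _ (List.mem_cons_of_mem _ (List.mem_cons_self))
      simp only [map_mul, map_pow, map_inv, FreeGroup.lift_apply_of, Matrix.cons_val_zero, Matrix.cons_val_one,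
          Matrix.cons_val_fin_one] at r1 r2
      have huu : u * u = 1 := by rw [← sq]; exact r1
      refine ⟨fun t => if t = 0 then 1 else u, ?_, by simp, ?_, ?_⟩
      · intro s t
        rcases hall s with rfl | rfl <;> rcases hall t with rfl | rfl
        · simp
        · simp
        · simp
        · have : (1 : F) + 1 = 0 := by rw [one_add_one_eq_two]; exact h2
          simp [this, huu]
      · intro t
        rw [hγ1, one_mul]
        by_cases ht : t = 0
        · simp [ht]
        · simp only [ht, if_false]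
          exact mul_inv_eq_one.1 r2
      · intro t
        by_cases ht : t = 0
        · simp [ht, one_mem]
        · simp only [ht, if_false]
          exact Subgroup.subset_closure (by simp)
  · -- at least four elements
    have h1γ : 1 + γ ≠ 0 := by
      intro h
      apply hγ1
      have : γ = -1 := eq_neg_of_add_eq_zero_right h
      rw [this, CharTwo.neg_eq]
    obtain ⟨m, hm⟩ : ∃ k : ℕ, (ζ : F) ^ k = 1 + γ := by
      obtain ⟨k, hk⟩ := (mem_powers_iff_mem_zpowers).2 (hζ (Units.mk0 _ h1γ))
      refine ⟨k, ?_⟩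
      have := congrArg Units.val hk
      simpa using this
    have hl : γ ^ (Fintype.card F / 2 * m) = 1 + γ := by
      have h3 : γ ^ (Fintype.card F / 2) = (ζ : F) := by
        have := congrArg Units.val hhalf
        simpa using this
      rw [pow_mul, h3, hm]
    set l := Fintype.card F / 2 * m with hldef
    refine ⟨[FreeGroup.of 0 ^ 2,
      FreeGroup.of 0 * (FreeGroup.of 1 * FreeGroup.of 0 * (FreeGroup.of 1)⁻¹) *
        (FreeGroup.of 1 ^ l * FreeGroup.of 0 * (FreeGroup.of 1 ^ l)⁻¹)⁻¹,
      pw (FreeGroup.of 1) (FreeGroup.of 0) (lst (minpoly (ZMod 2) γ))], by simp, ?_, ?_⟩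
    · intro G _ x h hx hh r hr
      simp only [List.mem_cons, List.not_mem_nil, or_false] at hr
      rcases hr with rfl | rfl | rfl
      · simp only [map_pow, FreeGroup.lift_apply_of, Matrix.cons_val_zero]
        rw [x_pow hx]
        simp [h2, x_zero hx]
      · simp only [map_mul, map_pow, map_inv, FreeGroup.lift_apply_of, Matrix.cons_val_zero, Matrix.cons_val_one,
          Matrix.cons_val_fin_one]
        rw [x_conj_pow hh, hh, ← hx, mul_inv_eq_one]
        congr 1
        rw [hl]; ring
      · simp only [lift_pw, FreeGroup.lift_apply_of, Matrix.cons_val_zero, Matrix.cons_val_one,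
          Matrix.cons_val_fin_one]
        rw [pw_root hx hh, ev_lst, minpoly.aeval, zero_mul, x_zero hx]
    · intro J _ u h hr
      have r1 := hr _ (List.mem_cons_self)
      have r2 := hr _ (List.mem_cons_of_mem _ (List.mem_cons_self))
      have r3 := hr _ (List.mem_cons_of_mem _ (List.mem_cons_of_mem _ (List.mem_cons_self)))
      simp only [map_mul, map_pow, map_inv, FreeGroup.lift_apply_of, Matrix.cons_val_zero, Matrix.cons_val_one,
          Matrix.cons_val_fin_one, lift_pw] at r1 r2 r3
      have e1 : u * (h * u * h⁻¹) = h ^ l * u * (h ^ l)⁻¹ := mul_inv_eq_one.1 r2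
      have huu : u⁻¹ = u := by rw [inv_eq_iff_mul_eq_one, ← sq]; exact r1
      have e2 : (h * u * h⁻¹) * u = h ^ l * u * (h ^ l)⁻¹ := by
        calc (h * u * h⁻¹) * u = (u⁻¹ * (h * u⁻¹ * h⁻¹))⁻¹ := by group
          _ = (u * (h * u * h⁻¹))⁻¹ := by rw [huu]
          _ = (h ^ l * u * (h ^ l)⁻¹)⁻¹ := by rw [e1]
          _ = h ^ l * u⁻¹ * (h ^ l)⁻¹ := by group
          _ = _ := by rw [huu]
      obtain ⟨x, h1, h2, h3, h4⟩ := exists_x_self (p := 2) (F := F) r1
        (comm_of_trinomial ((Commute.refl h).pow_right l) e1 e2) hα r3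
      exact ⟨x, h1, h2, h3, fun t => cu_le_closure h u h (Subgroup.subset_closure (by simp)) (h4 t)⟩

end Cfsg.Agent.H109
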