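import Mathlib
import Cfsg.Agent.H109.SL2a
import Cfsg.Agent.H109.URelTwo

/-!
# Presentations of `SL₂(F)` (helper109)

* `rel_odd`, `rel_even` : the relations `SL2Lift.Rel` from few relations.
* `sl2_odd` : three generators, eight relators.
* `sl2_even` : three generators, five relators.
-/

set_option autoImplicit false
set_option linter.unusedSectionVars false

universe v

namespace Cfsg.Agent.H109

open Polynomial Cfsg.Agent.Lib
open Matrix (SpecialLinearGroup ProjectiveSpecialLinearGroup)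

section lists

variable {p : ℕ} [Fact p.Prime] {F : Type*} [Field F] [Finite F] [Algebra (ZMod p) F]

theorem exists_list {α : F} (hα : Algebra.adjoin (ZMod p) {α} = ⊤) (t : F) : ∃ l : List ℤ, ev α l = t := by
  have hs : Function.Surjective (aeval α : (ZMod p)[X] →ₐ[ZMod p] F) := by
    rw [← AlgHom.range_eq_top, ← Algebra.adjoin_singleton_eq_range_aeval, hα]
  obtain ⟨P, hP⟩ := hs t
  exact ⟨lst P, by rw [ev_lst, hP]⟩

end lists

section torus

variable {F : Type*} [Field F] [Fintype F] {G : Type*} [Group G]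

/-- the torus homomorphism -/
theorem exists_torus {ζ : Fˣ} (hζ : ∀ y, y ∈ Subgroup.zpowers ζ) {h : G} (hq : h ^ (Fintype.card F - 1) = 1) :
    ∃ Hm : Fˣ →* G, Hm ζ = h := by
  have hd : orderOf h ∣ orderOf ζ := by
    rw [order_gen hζ]
    exact orderOf_dvd_of_pow_eq_one hq
  exact ⟨monoidHomOfForallMemZpowers hζ hd, monoidHomOfForallMemZpowers_apply_gen hζ hd⟩

theorem torus_conj {ζ : Fˣ} (hζ : ∀ y, y ∈ Subgroup.zpowers ζ) {Hm : Fˣ →* G} {x : F → G} {χ : Fˣ →* Fˣ}
    (hc : ∀ t, Hm ζ * x t * (Hm ζ)⁻¹ = x ((χ ζ : F) * t)) (a : Fˣ) (t : F) :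
    Hm a * x t * (Hm a)⁻¹ = x ((χ a : F) * t) := by
  obtain ⟨i, rfl⟩ := hζ a
  have hinv : ∀ t, (Hm ζ)⁻¹ * x t * Hm ζ = x (((χ ζ)⁻¹ : Fˣ) * t) := by
    intro t
    have := hc (((χ ζ)⁻¹ : Fˣ) * t)
    rw [← mul_assoc, Units.mul_inv, one_mul] at this
    rw [← this]
    group
  simp only [map_zpow]
  induction i generalizing t with
  | zero => simp
  | succ n ih =>
    have e : (Hm ζ) ^ ((n : ℤ) + 1) * x t * ((Hm ζ) ^ ((n : ℤ) + 1))⁻¹ =
        (Hm ζ) ^ (n : ℤ) * (Hm ζ * x t * (Hm ζ)⁻¹) * ((Hm ζ) ^ (n : ℤ))⁻¹ := by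
      rw [zpow_add_one]; group
    rw [e, hc, ih, zpow_add_one, Units.val_mul, mul_assoc]
  | pred n ih =>
    have e : (Hm ζ) ^ (-(n : ℤ) - 1) * x t * ((Hm ζ) ^ (-(n : ℤ) - 1))⁻¹ =
        (Hm ζ) ^ (-(n : ℤ)) * ((Hm ζ)⁻¹ * x t * (Hm ζ)) * ((Hm ζ) ^ (-(n : ℤ)))⁻¹ := by
      rw [zpow_sub_one]; group
    rw [e, hinv, ih, zpow_sub_one, Units.val_mul, mul_assoc]

theorem torus_inv {ζ : Fˣ} (hζ : ∀ y, y ∈ Subgroup.zpowers ζ) {Hm : Fˣ →* G} {w : G}
    (hw : w * Hm ζ * w⁻¹ = (Hm ζ)⁻¹) (a : Fˣ) : w * Hm a * w⁻¹ = (Hm a)⁻¹ := by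
  obtain ⟨i, rfl⟩ := hζ a
  simp only [map_zpow]
  rw [← conj_zpow, hw, inv_zpow]

theorem neg_one_pow {ζ : Fˣ} (hζ : ∀ y, y ∈ Subgroup.zpowers ζ) (h2 : (2 : F) ≠ 0) :
    ζ ^ ((Fintype.card F - 1) / 2) = -1 ∧ 2 * ((Fintype.card F - 1) / 2) = Fintype.card F - 1 := by
  have hodd : Fintype.card F % 2 = 1 := by
    apply FiniteField.odd_card_of_char_ne_two
    intro h
    apply h2
    have := CharP.cast_eq_zero F (ringChar F)
    rw [h] at this
    exact_mod_cast this
  have h3 : 2 * ((Fintype.card F - 1) / 2) = Fintype.card F - 1 := by omega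
  refine ⟨?_, h3⟩
  have ho := order_gen hζ
  have hc1 : 1 < Fintype.card F := Fintype.one_lt_card
  have h4 : ζ ^ ((Fintype.card F - 1) / 2) * ζ ^ ((Fintype.card F - 1) / 2) = 1 := by
    rw [← pow_add, ← two_mul, h3, ← ho]
    exact pow_orderOf_eq_one ζ
  have hne : ζ ^ ((Fintype.card F - 1) / 2) ≠ 1 := by
    intro h
    have := orderOf_dvd_of_pow_eq_one h
    rw [ho] at this
    have := Nat.le_of_dvd (by omega) this
    omega
  have h5 : ((ζ ^ ((Fintype.card F - 1) / 2) : Fˣ) : F) * ((ζ ^ ((Fintype.card F - 1) / 2) : Fˣ) : F) = 1 := by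
    rw [← Units.val_mul, h4, Units.val_one]
  rcases mul_self_eq_one_iff.1 h5 with h | h
  · exact absurd (Units.ext h) hne
  · exact Units.ext h

/-- squares and nonsquares of units -/
theorem unit_cases {ζ : Fˣ} (hζ : ∀ y, y ∈ Subgroup.zpowers ζ) (t : Fˣ) :
    ∃ a : Fˣ, t = a ^ 2 * 1 ∨ t = a ^ 2 * ζ := by
  obtain ⟨i, rfl⟩ := hζ t
  obtain ⟨m, rfl | rfl⟩ : ∃ m, i = 2 * m ∨ i = 2 * m + 1 := ⟨i / 2, by omega⟩
  · refine ⟨ζ ^ m, Or.inl ?_⟩
    change ζ ^ (2 * m) = _
    rw [mul_one, ← zpow_natCast, ← zpow_mul, mul_comm]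
    norm_num
  · refine ⟨ζ ^ m, Or.inr ?_⟩
    change ζ ^ (2 * m + 1) = _
    rw [← zpow_natCast, ← zpow_mul, zpow_add_one, mul_comm 2 m]
    norm_num

end torus

section rel

variable {F : Type*} [Field F] [Fintype F] {G : Type*} [Group G]

/-- The relations in odd characteristic. -/
theorem rel_odd {ζ : Fˣ} (hζ : ∀ y, y ∈ Subgroup.zpowers ζ) (h2 : (2 : F) ≠ 0) {x : F → G} {h w : G}
    (hx : ∀ s t, x (s + t) = x s * x t) (hh : ∀ t, h * x t * h⁻¹ = x ((ζ : F) ^ 2 * t))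
    (whw : w * h * w⁻¹ = h⁻¹) (ww : w * w = h ^ ((Fintype.card F - 1) / 2)) (h3 : (x 1 * w) ^ 3 = 1)
    (hz : w * x (ζ : F) * w = x (-((ζ⁻¹ : Fˣ) : F)) * h⁻¹ * w ^ 3 * x (-((ζ⁻¹ : Fˣ) : F))) :
    ∃ Hm : Fˣ →* G, Hm ζ = h ∧ SL2Lift.Rel x (ext1 Hm) w := by
  obtain ⟨hm1, hq2⟩ := neg_one_pow hζ h2
  have hq : h ^ (Fintype.card F - 1) = 1 := by
    have e1 : w * (w * w) * w⁻¹ = w * w := by group
    rw [ww, ← conj_pow, whw, inv_pow] at e1
    rw [← hq2, two_mul, pow_add]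
    nth_rewrite 1 [← e1]
    exact inv_mul_cancel _
  obtain ⟨Hm, hHm⟩ := exists_torus hζ hq
  refine ⟨Hm, hHm, rel_of Hm hx ?_ ?_ ?_ ?_⟩
  · intro a t
    have := torus_conj hζ (Hm := Hm) (x := x) (χ := powMonoidHom 2) (by
      intro t; rw [hHm, hh]; simp) a t
    simpa using this
  · exact torus_inv hζ (by rw [hHm]; exact whw)
  · rw [ww, ← hm1, map_pow, hHm]
  · have hHm1 : Hm (-1) = w * w := by rw [ww, ← hm1, map_pow, hHm]
    intro t
    obtain ⟨a, ht | ht⟩ := unit_cases hζ t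
    · refine ⟨a, 1, ht, ?_⟩
      rw [inv_one, Units.val_one, hHm1, x_neg hx]
      have hw4 : w * w * (w * w) = 1 := by rw [ww, ← pow_add, ← two_mul, hq2, hq]
      have e : (x 1 * w) ^ 3 = x 1 * (w * x 1 * w) * x 1 * w := by
        simp only [pow_succ, pow_zero, one_mul, mul_assoc]
      rw [e] at h3
      have e2 : w * x 1 * w = (x 1)⁻¹ * w⁻¹ * (x 1)⁻¹ := by
        calc w * x 1 * w = (x 1)⁻¹ * (x 1 * (w * x 1 * w) * x 1 * w) * w⁻¹ * (x 1)⁻¹ := by group
          _ = _ := by rw [h3]; group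
      have e3 : w⁻¹ = w * w * w := by
        rw [inv_eq_iff_mul_eq_one]
        rw [← hw4]; group
      rw [e2, e3]
      simp only [mul_assoc]
    · refine ⟨a, ζ, ht, ?_⟩
      have e : Hm (-ζ⁻¹) = h⁻¹ * (w * w) := by
        have : (-ζ⁻¹ : Fˣ) = ζ⁻¹ * (-1) := by simp
        rw [this, map_mul, map_inv, hHm, hHm1]
      rw [hz, e]
      simp only [pow_succ, pow_zero, one_mul, mul_assoc]

/-- The relations in characteristic two. -/
theorem rel_even {ζ : Fˣ} (hζ : ∀ y, y ∈ Subgroup.zpowers ζ) (h2 : (2 : F) = 0) {x : F → G} {h w : G}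
    (hx : ∀ s t, x (s + t) = x s * x t) (hh : ∀ t, h * x t * h⁻¹ = x ((ζ : F) ^ 2 * t))
    (ww : w * w = (x 1 * w) ^ 3)
    (hj : w * h ^ (Fintype.card F / 2 - 1) * w⁻¹ = h ^ (Fintype.card F / 2)) :
    ∃ Hm : Fˣ →* G, Hm ζ = h ∧ SL2Lift.Rel x (ext1 Hm) w := by
  obtain ⟨hev, hhalf⟩ := sq_pow_half hζ h2
  have hc1 : 1 < Fintype.card F := Fintype.one_lt_card
  have ho := order_gen hζ
  set q := Fintype.card F with hqd
  obtain ⟨r, hr⟩ := hev
  have hr2 : q / 2 = r := by omega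
  rw [hr2] at hj hhalf
  set u := x 1 with hu
  have huu : u * u = 1 := by
    rw [hu, ← hx, one_add_one_eq_two, h2, x_zero hx]
  have hui : u⁻¹ = u := inv_eq_of_mul_eq_one_left huu
  -- `w² = 1`
  have hcw : Commute (w * w) (u * w) := by rw [ww]; exact (Commute.refl _).pow_left 3
  have hcw2 : Commute (w * w) w := (Commute.refl w).mul_left (Commute.refl w)
  have hcu : Commute (w * w) u := by
    have := hcw.mul_right hcw2.inv_right
    rwa [mul_inv_cancel_right] at this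
  have e0 : (u * w) ^ 3 = u * w * u * w * u * w := by
    simp only [pow_succ, pow_zero, one_mul, mul_assoc]
  have e1 : u * (w * u * w⁻¹) * u = w⁻¹ := by
    have h3 : u * w * u * w * u = w := by
      have : u * w * u * w * u * w = w * w := by rw [← e0, ← ww]
      exact mul_right_cancel this
    calc u * (w * u * w⁻¹) * u = u * w * u * w * (w * w)⁻¹ * u := by group
      _ = u * w * u * w * (u * (w * w)⁻¹) := by rw [mul_assoc, hcu.inv_left.eq]
      _ = (u * w * u * w * u) * (w * w)⁻¹ := by group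
      _ = w⁻¹ := by rw [h3]; group
  have hw1 : w * w = 1 := by
    have e2 : w = u * (w * u * w⁻¹) * u := by
      calc w = (w⁻¹)⁻¹ := by group
        _ = (u * (w * u * w⁻¹) * u)⁻¹ := by rw [e1]
        _ = u⁻¹ * (w * u⁻¹ * w⁻¹) * u⁻¹ := by group
        _ = _ := by rw [hui]
    rw [e1] at e2
    nth_rewrite 1 [e2]
    exact inv_mul_cancel w
  have hwi : w⁻¹ = w := inv_eq_of_mul_eq_one_left hw1
  -- the order of `h`
  have hγq : ((ζ : F) ^ 2) ^ (q - 1) = 1 := by
    have h1 : ζ ^ (q - 1) = 1 := by rw [← ho]; exact pow_orderOf_eq_one ζ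
    have := congrArg Units.val h1
    rw [Units.val_pow_eq_pow_val, Units.val_one] at this
    rw [← pow_mul, mul_comm, pow_mul, this, one_pow]
  have hyx : ∀ (k : ℕ) t, Commute (h ^ ((q - 1) * k)) (x t) := by
    intro k t
    have h1 := x_conj_pow hh ((q - 1) * k) t
    rw [pow_mul ((ζ : F) ^ 2), hγq, one_pow, one_mul] at h1
    exact mul_inv_eq_iff_eq_mul.1 h1
  have hy1 : w * h ^ ((q - 1) * (r - 1)) * w⁻¹ = h ^ ((q - 1) * r) := by
    rw [mul_comm, pow_mul, ← conj_pow, hj, ← pow_mul, mul_comm]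
  have hyw : Commute (h ^ ((q - 1) * r)) w := by
    have hyu : Commute (h ^ ((q - 1) * r)) u := hyx r 1
    have hyv : Commute (h ^ ((q - 1) * r)) (w * u * w⁻¹) := by
      have := (hyx (r - 1) 1).map (MulAut.conj w).toMonoidHom
      simp only [MulEquiv.toMonoidHom_eq_coe, MonoidHom.coe_coe, MulAut.conj_apply] at this
      rwa [hy1] at this
    have := (hyu.mul_right hyv).mul_right hyu
    rw [e1] at this
    exact Commute.inv_right_iff.1 this
  have hy : h ^ (q - 1) = 1 := by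
    have h1 : h ^ ((q - 1) * (r - 1)) = h ^ ((q - 1) * r) := by
      have h3 : w⁻¹ * h ^ ((q - 1) * r) * w = h ^ ((q - 1) * r) := by
        rw [mul_assoc, hyw.eq]; group
      rw [← h3, ← hy1]
      group
    have h3 : (q - 1) * r = (q - 1) * (r - 1) + (q - 1) := by
      obtain ⟨s, rfl⟩ : ∃ s, r = s + 1 := ⟨r - 1, by omega⟩
      rw [Nat.add_sub_cancel]; ring
    rw [h3, pow_add] at h1
    exact (mul_eq_left.1 h1.symm)
  have hwh : w * h * w⁻¹ = h⁻¹ := by
    have e3 : (h ^ r)⁻¹ = h ^ (r - 1) := by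
      rw [inv_eq_iff_mul_eq_one, ← pow_add]
      have : r + (r - 1) = q - 1 := by omega
      rw [this, hy]
    have e4 : h = (h ^ r) ^ 2 := by
      rw [← pow_mul]
      have : r * 2 = (q - 1) + 1 := by omega
      rw [this, pow_succ, hy, one_mul]
    have e5 : w * h ^ r * w⁻¹ = (h ^ r)⁻¹ := by
      have h1 : h ^ r = (h ^ (r - 1))⁻¹ := by rw [← e3, inv_inv]
      calc w * h ^ r * w⁻¹ = w * (h ^ (r - 1))⁻¹ * w⁻¹ := by rw [← h1]
        _ = (w * h ^ (r - 1) * w⁻¹)⁻¹ := by group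
        _ = _ := by rw [hj]
    calc w * h * w⁻¹ = w * (h ^ r) ^ 2 * w⁻¹ := by rw [← e4]
      _ = (w * h ^ r * w⁻¹) ^ 2 := by rw [conj_pow]
      _ = ((h ^ r) ^ 2)⁻¹ := by rw [e5, inv_pow]
      _ = _ := by rw [← e4]
  obtain ⟨Hm, hHm⟩ := exists_torus hζ hy
  have hneg : (-1 : Fˣ) = 1 := Units.ext (by
    rw [Units.val_neg, Units.val_one]
    have : (1 : F) + 1 = 0 := by rw [one_add_one_eq_two]; exact h2
    exact (eq_neg_of_add_eq_zero_left this).symm)
  refine ⟨Hm, hHm, rel_of Hm hx ?_ ?_ ?_ ?_⟩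
  · intro a t
    have := torus_conj hζ (Hm := Hm) (x := x) (χ := powMonoidHom 2) (by
      intro t; rw [hHm, hh]; simp) a t
    simpa using this
  · exact torus_inv hζ (by rw [hHm]; exact hwh)
  · rw [hw1, hneg, map_one]
  · intro t
    obtain ⟨i, hi⟩ := hζ t
    refine ⟨(ζ ^ r) ^ i, 1, ?_, ?_⟩
    · rw [mul_one, ← hi]
      change ζ ^ i = _
      have : ((ζ ^ r) ^ i) ^ 2 = ((ζ ^ 2) ^ r) ^ i := by
        rw [← zpow_natCast, ← zpow_mul, ← pow_mul, mul_comm 2 r, pow_mul, mul_comm i, zpow_mul]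
        norm_num
      rw [this, hhalf]
    · have e3 : u * w * u * w * u * w = 1 := by rw [← e0, ← ww, hw1]
      rw [inv_one, Units.val_one, x_neg hx, hneg, map_one, mul_one, ← hu]
      calc w * u * w = u⁻¹ * (u * w * u * w * u * w) * w⁻¹ * u⁻¹ := by group
        _ = u⁻¹ * w * u⁻¹ := by rw [e3, hwi]; group

end rel

section pres

variable {F : Type v} [Field F] [Fintype F]

theorem sl2_gen {ζ : Fˣ} (hζ : ∀ y, y ∈ Subgroup.zpowers ζ) :
    Subgroup.closure (Set.range ![(SL2Lift.X (1 : F)), dH F ζ, SL2Lift.W]) = ⊤ := by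
  obtain ⟨p, hch⟩ := CharP.exists F
  have hpp : p.Prime := (CharP.char_is_prime_or_zero F p).resolve_right (CharP.char_ne_zero_of_finite F p)
  have : Fact p.Prime := ⟨hpp⟩
  let _ : Algebra (ZMod p) F := ZMod.algebra F p
  set K := Subgroup.closure (Set.range ![(SL2Lift.X (1 : F)), dH F ζ, SL2Lift.W]) with hK
  have k0 : SL2Lift.X (1 : F) ∈ K := Subgroup.subset_closure ⟨0, rfl⟩
  have k1 : dH F ζ ∈ K := Subgroup.subset_closure ⟨1, rfl⟩
  have k2 : (SL2Lift.W : SpecialLinearGroup (Fin 2) F) ∈ K := Subgroup.subset_closure ⟨2, rfl⟩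
  have hpw : ∀ l : List ℤ, pw (dH F ζ) (SL2Lift.X (1 : F)) l ∈ K := by
    intro l
    induction l with
    | nil => exact one_mem _
    | cons a l ih => exact mul_mem (zpow_mem k0 a) (mul_mem (mul_mem k1 ih) (inv_mem k1))
  have hconj : ∀ t, dH F ζ * SL2Lift.X t * (dH F ζ)⁻¹ = SL2Lift.X ((ζ : F) ^ 2 * t) := by
    intro t
    have := relSL.conj (ζ : F) t ζ.ne_zero
    rw [ext1_unit] at this
    rw [this]; group
  have hX : ∀ t, SL2Lift.X t ∈ K := by
    intro t
    obtain ⟨l, hl⟩ := exists_list (adjoin_sq_eq_top (p := p) hζ) t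
    have := hpw l
    rwa [pw_root relSL.add hconj, hl, mul_one] at this
  have hH : ∀ a : Fˣ, dH F a ∈ K := by
    intro a
    obtain ⟨i, rfl⟩ := hζ a
    simp only [map_zpow]
    exact zpow_mem k1 i
  have hH' : ∀ (a : F) (ha : a ≠ 0), SL2Lift.H a ha ∈ K := fun a ha => hH (Units.mk0 a ha)
  rw [eq_top_iff]
  intro g _
  by_cases hc : g.1 1 0 = 0
  · obtain ⟨ha, e⟩ := SL2Lift.eq_of_zero g hc
    rw [e]
    exact mul_mem (hX _) (hH' _ _)
  · rw [SL2Lift.eq_of_ne_zero g hc]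
    exact mul_mem (mul_mem (mul_mem (hX _) (hH' _ _)) k2) (hX _)

theorem dH_conj (ζ : Fˣ) (t : F) : dH F ζ * SL2Lift.X t * (dH F ζ)⁻¹ = SL2Lift.X ((ζ : F) ^ 2 * t) := by
  have := relSL.conj (ζ : F) t ζ.ne_zero
  rw [ext1_unit] at this
  rw [this]; group

theorem lift_lift {k m : ℕ} {G : Type*} [Group G] (a : Fin k → G) (b : Fin m → FreeGroup (Fin k))
    (r : FreeGroup (Fin m)) : FreeGroup.lift a (FreeGroup.lift b r) = FreeGroup.lift (fun i => FreeGroup.lift a (b i)) r := by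
  have : (FreeGroup.lift a).comp (FreeGroup.lift b) = FreeGroup.lift (fun i => FreeGroup.lift a (b i)) := by
    ext i
    simp
  exact DFunLike.congr_fun this r

/-- **`SL₂(F)`, `F` of odd order, has a presentation with three generators and eight relators.** -/
theorem sl2_odd (h2 : (2 : F) ≠ 0) : H111.HasPres (SpecialLinearGroup (Fin 2) F) 3 8 := by
  obtain ⟨ζ, hζ⟩ := IsCyclic.exists_generator (α := Fˣ)
  obtain ⟨p, hch⟩ := CharP.exists F
  have hpp : p.Prime := (CharP.char_is_prime_or_zero F p).resolve_right (CharP.char_ne_zero_of_finite F p)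
  have : Fact p.Prime := ⟨hpp⟩
  let _ : Algebra (ZMod p) F := ZMod.algebra F p
  obtain ⟨hm1, hq2⟩ := neg_one_pow hζ h2
  obtain ⟨RU, hlen, hR1, hR2⟩ := uRel_odd hζ h2
  obtain ⟨l1, hl1⟩ := exists_list (adjoin_sq_eq_top (p := p) hζ) (ζ : F)
  obtain ⟨l2, hl2⟩ := exists_list (adjoin_sq_eq_top (p := p) hζ) (-((ζ⁻¹ : Fˣ) : F))
  let U : FreeGroup (Fin 3) := FreeGroup.of 0
  let Hh : FreeGroup (Fin 3) := FreeGroup.of 1
  let W : FreeGroup (Fin 3) := FreeGroup.of 2
  let R : List (FreeGroup (Fin 3)) := RU.map (FreeGroup.lift ![U, Hh]) ++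
    [W * Hh * W⁻¹ * Hh, W * W * (Hh ^ ((Fintype.card F - 1) / 2))⁻¹, (U * W) ^ 3,
      W * pw Hh U l1 * W * (pw Hh U l2 * Hh⁻¹ * W ^ 3 * pw Hh U l2)⁻¹]
  have hlenR : R.length ≤ 8 := by
    simp only [R, List.length_append, List.length_map, List.length_cons, List.length_nil]
    omega
  refine H111.HasPres.mono (of_hom ![(SL2Lift.X (1 : F)), dH F ζ, SL2Lift.W] (sl2_gen hζ) R ?_ ?_) hlenR
  · intro r hr
    have hrel := relSL (F := F)
    have hww : (SL2Lift.W : SpecialLinearGroup (Fin 2) F) * SL2Lift.W = dH F (-1) := by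
      rw [hrel.ww, ext1_of_ne _ (neg_ne_zero.2 one_ne_zero)]
      congr 1
      exact Units.ext (by simp)
    rcases List.mem_append.1 hr with hr | hr
    · obtain ⟨r', hr', rfl⟩ := List.mem_map.1 hr
      rw [lift_lift]
      have := hR1 _ SL2Lift.X (dH F ζ) hrel.add (dH_conj ζ) r' hr'
      rw [← this]
      congr 2
      ext i
      fin_cases i <;> simp [U, Hh]
    · simp only [List.mem_cons, List.not_mem_nil, or_false] at hr
      rcases hr with rfl | rfl | rfl | rfl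
      · simp only [map_mul, map_inv, FreeGroup.lift_apply_of, Hh, W, Matrix.cons_val_one, Matrix.cons_val]
        have := hrel.wh (ζ : F) ζ.ne_zero
        rw [ext1_unit, ← Units.val_inv_eq_inv_val, ext1_unit, map_inv] at this
        rw [this]
        group
      · simp only [map_mul, map_inv, map_pow, FreeGroup.lift_apply_of, Hh, W, Matrix.cons_val_one, Matrix.cons_val]
        rw [hww, ← map_pow, hm1, mul_inv_cancel]
      · simp only [map_mul, map_pow, FreeGroup.lift_apply_of, U, W, Matrix.cons_val_zero, Matrix.cons_val]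
        have h1 := hrel.wx 1 one_ne_zero
        have h3 : (-(1 : F)⁻¹) = ((-1 : Fˣ) : F) := by simp
        rw [h3, ext1_unit, ← hww] at h1
        have h4 : SL2Lift.X ((-1 : Fˣ) : F) = (SL2Lift.X (1 : F))⁻¹ := by
          rw [Units.val_neg, Units.val_one, x_neg hrel.add]
        rw [h4] at h1
        have h5 : (SL2Lift.W : SpecialLinearGroup (Fin 2) F) * SL2Lift.W * (SL2Lift.W * SL2Lift.W) = 1 := by
          rw [hww, ← map_mul]
          simp
        calc (SL2Lift.X (1 : F) * SL2Lift.W) ^ 3 = SL2Lift.X 1 * (SL2Lift.W * SL2Lift.X 1 * SL2Lift.W) *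
              SL2Lift.X 1 * SL2Lift.W := by simp only [pow_succ, pow_zero, one_mul, mul_assoc]
          _ = SL2Lift.W * SL2Lift.W * (SL2Lift.W * SL2Lift.W) := by rw [h1]; group
          _ = 1 := h5
      · simp only [map_mul, map_inv, map_pow, lift_pw, FreeGroup.lift_apply_of, Hh, W, U, Matrix.cons_val_zero,
          Matrix.cons_val_one, Matrix.cons_val]
        rw [pw_root hrel.add (dH_conj ζ), pw_root hrel.add (dH_conj ζ), hl1, hl2, mul_one, mul_one]
        have h1 := hrel.wx (ζ : F) ζ.ne_zero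
        have h3 : (-(ζ : F)⁻¹) = ((-ζ⁻¹ : Fˣ) : F) := by simp
        have h4 : dH F (-ζ⁻¹) = (dH F ζ)⁻¹ * (SL2Lift.W * SL2Lift.W) := by
          have : (-ζ⁻¹ : Fˣ) = ζ⁻¹ * (-1) := by simp
          rw [this, map_mul, map_inv, hww]
        rw [h3, ext1_unit, h4, Units.val_neg] at h1
        rw [h1, mul_inv_eq_one]
        simp only [pow_succ, pow_zero, one_mul, mul_assoc]
  · intro J _ a hgen hr _
    set u := a 0 with hu
    set h := a 1 with hh
    set w := a 2 with hw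
    have r1 := hr (W * Hh * W⁻¹ * Hh) (by simp [R])
    have r2 := hr (W * W * (Hh ^ ((Fintype.card F - 1) / 2))⁻¹) (by simp [R])
    have r3 := hr ((U * W) ^ 3) (by simp [R])
    have r4 := hr (W * pw Hh U l1 * W * (pw Hh U l2 * Hh⁻¹ * W ^ 3 * pw Hh U l2)⁻¹) (by simp [R])
    simp only [map_mul, map_inv, map_pow, lift_pw, FreeGroup.lift_apply_of, Hh, W, U, ← hu, ← hh, ← hw]
      at r1 r2 r3 r4
    have whw : w * h * w⁻¹ = h⁻¹ := eq_inv_of_mul_eq_one_left r1
    have ww : w * w = h ^ ((Fintype.card F - 1) / 2) := mul_inv_eq_one.1 r2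
    have hq : h ^ (Fintype.card F - 1) = 1 := by
      have e1 : w * (w * w) * w⁻¹ = w * w := by group
      rw [ww, ← conj_pow, whw, inv_pow] at e1
      rw [← hq2, two_mul, pow_add]
      nth_rewrite 1 [← e1]
      exact inv_mul_cancel _
    obtain ⟨x, hx, hx1, hxc, -⟩ := hR2 J u h hq (by
      intro r hr'
      have := hr (FreeGroup.lift ![U, Hh] r) (by
        simp only [R, List.mem_append, List.mem_map]
        exact Or.inl ⟨r, hr', rfl⟩)
      rw [lift_lift] at this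
      rw [← this]
      congr 2
      ext i
      fin_cases i <;> simp [U, Hh, hu, hh])
    rw [← hx1, pw_root hx hxc, pw_root hx hxc, hl1, hl2, mul_one, mul_one] at r4
    rw [← hx1] at r3
    obtain ⟨Hm, hHm, hrel⟩ := rel_odd hζ h2 hx hxc whw ww r3 (mul_inv_eq_one.1 r4)
    refine ⟨SL2Lift.hom hrel, ?_⟩
    intro i
    fin_cases i
    · exact (SL2Lift.hom_X hrel 1).trans hx1
    · change SL2Lift.hom hrel (SL2Lift.H (ζ : F) ζ.ne_zero) = _
      rw [SL2Lift.hom_H, ext1_unit]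
      exact hHm
    · exact SL2Lift.hom_W hrel

/-- **`SL₂(F)`, `F` of even order, has a presentation with three generators and five relators.** -/
theorem sl2_even (h2 : (2 : F) = 0) : H111.HasPres (SpecialLinearGroup (Fin 2) F) 3 5 := by
  obtain ⟨ζ, hζ⟩ := IsCyclic.exists_generator (α := Fˣ)
  obtain ⟨hev, hhalf⟩ := sq_pow_half hζ h2
  have hc1 : 1 < Fintype.card F := Fintype.one_lt_card
  obtain ⟨RU, hlen, hR1, hR2⟩ := uRelS_two hζ h2
  let U : FreeGroup (Fin 3) := FreeGroup.of 0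
  let Hh : FreeGroup (Fin 3) := FreeGroup.of 1
  let W : FreeGroup (Fin 3) := FreeGroup.of 2
  let R : List (FreeGroup (Fin 3)) := RU.map (FreeGroup.lift ![U, Hh]) ++
    [W * W * ((U * W) ^ 3)⁻¹, W * Hh ^ (Fintype.card F / 2 - 1) * W⁻¹ * (Hh ^ (Fintype.card F / 2))⁻¹]
  have hlenR : R.length ≤ 5 := by
    simp only [R, List.length_append, List.length_map, List.length_cons, List.length_nil]
    omega
  refine H111.HasPres.mono (of_hom ![(SL2Lift.X (1 : F)), dH F ζ, SL2Lift.W] (sl2_gen hζ) R ?_ ?_) hlenR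
  · intro r hr
    have hrel := relSL (F := F)
    have hneg : (-1 : Fˣ) = 1 := Units.ext (by
      rw [Units.val_neg, Units.val_one]
      have : (1 : F) + 1 = 0 := by rw [one_add_one_eq_two]; exact h2
      exact (eq_neg_of_add_eq_zero_left this).symm)
    have hww : (SL2Lift.W : SpecialLinearGroup (Fin 2) F) * SL2Lift.W = 1 := by
      rw [hrel.ww, ext1_of_ne _ (neg_ne_zero.2 one_ne_zero)]
      have : Units.mk0 (-1 : F) (neg_ne_zero.2 one_ne_zero) = 1 := by
        rw [← hneg]; exact Units.ext (by simp)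
      rw [this, map_one]
    rcases List.mem_append.1 hr with hr | hr
    · obtain ⟨r', hr', rfl⟩ := List.mem_map.1 hr
      rw [lift_lift]
      have := hR1 _ SL2Lift.X (dH F ζ) hrel.add (dH_conj ζ) r' hr'
      rw [← this]
      congr 2
      ext i
      fin_cases i <;> simp [U, Hh]
    · simp only [List.mem_cons, List.not_mem_nil, or_false] at hr
      rcases hr with rfl | rfl
      · simp only [map_mul, map_inv, map_pow, FreeGroup.lift_apply_of, U, W, Matrix.cons_val_zero, Matrix.cons_val]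
        have h1 := hrel.wx 1 one_ne_zero
        have h3 : (-(1 : F)⁻¹) = ((-1 : Fˣ) : F) := by simp
        rw [h3, ext1_unit, hneg, map_one, Units.val_one, mul_one] at h1
        have h4 : SL2Lift.X (1 : F) * SL2Lift.X 1 = 1 := by
          rw [← hrel.add, one_add_one_eq_two, h2, x_zero hrel.add]
        rw [hww, one_mul, inv_eq_one]
        calc (SL2Lift.X (1 : F) * SL2Lift.W) ^ 3 = SL2Lift.X 1 * (SL2Lift.W * SL2Lift.X 1 * SL2Lift.W) *
              SL2Lift.X 1 * SL2Lift.W := by simp only [pow_succ, pow_zero, one_mul, mul_assoc]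
          _ = (SL2Lift.X (1 : F) * SL2Lift.X 1) * SL2Lift.W * (SL2Lift.X (1 : F) * SL2Lift.X 1) * SL2Lift.W := by
              rw [h1]; simp only [mul_assoc]
          _ = 1 := by rw [h4, one_mul, mul_one, hww]
      · simp only [map_mul, map_inv, map_pow, FreeGroup.lift_apply_of, Hh, W, Matrix.cons_val_one, Matrix.cons_val]
        have h1 := hrel.wh (ζ : F) ζ.ne_zero
        rw [ext1_unit, ← Units.val_inv_eq_inv_val, ext1_unit, map_inv] at h1
        have h3 : SL2Lift.W * dH F ζ * (SL2Lift.W)⁻¹ = (dH F ζ)⁻¹ := by rw [h1]; group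
        rw [← conj_pow, h3, ← map_inv, ← map_pow, ← map_pow, ← map_inv, ← map_mul]
        have h4 : ζ⁻¹ ^ (Fintype.card F / 2 - 1) * (ζ ^ (Fintype.card F / 2))⁻¹ = 1 := by
          rw [inv_pow, ← mul_inv, inv_eq_one, ← pow_add]
          obtain ⟨r, hr⟩ := hev
          have : Fintype.card F / 2 - 1 + Fintype.card F / 2 = orderOf ζ := by
            rw [order_gen hζ]; omega
          rw [this, pow_orderOf_eq_one]
        rw [h4, map_one]
  · intro J _ a hgen hr _
    set u := a 0 with hu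
    set h := a 1 with hh
    set w := a 2 with hw
    have r1 := hr (W * W * ((U * W) ^ 3)⁻¹) (by simp [R])
    have r2 := hr (W * Hh ^ (Fintype.card F / 2 - 1) * W⁻¹ * (Hh ^ (Fintype.card F / 2))⁻¹) (by simp [R])
    simp only [map_mul, map_inv, map_pow, FreeGroup.lift_apply_of, Hh, W, U, ← hu, ← hh, ← hw] at r1 r2
    obtain ⟨x, hx, hx1, hxc, -⟩ := hR2 J u h (by
      intro r hr'
      have := hr (FreeGroup.lift ![U, Hh] r) (by
        simp only [R, List.mem_append, List.mem_map]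
        exact Or.inl ⟨r, hr', rfl⟩)
      rw [lift_lift] at this
      rw [← this]
      congr 2
      ext i
      fin_cases i <;> simp [U, Hh, hu, hh])
    rw [← hx1] at r1
    obtain ⟨Hm, hHm, hrel⟩ := rel_even hζ h2 hx hxc (mul_inv_eq_one.1 r1) (mul_inv_eq_one.1 r2)
    refine ⟨SL2Lift.hom hrel, ?_⟩
    intro i
    fin_cases i
    · exact (SL2Lift.hom_X hrel 1).trans hx1
    · change SL2Lift.hom hrel (SL2Lift.H (ζ : F) ζ.ne_zero) = _
      rw [SL2Lift.hom_H, ext1_unit]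
      exact hHm
    · exact SL2Lift.hom_W hrel

end pres

end Cfsg.Agent.H109
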