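import Mathlib

/-!
# Steinberg commutator relations from few of them (helper109)

`triple` : three additive families `A, B, C` with `⁅A r, B s⁆ = C (r s)` whenever `s / r` lies in a set of
representatives times cubes.
-/

set_option autoImplicit false

namespace Cfsg.Agent.H109

open scoped commutatorElement

section act

variable {F : Type*} [Field F] {J : Type*} [Group J]

/-- `d` acts on the family `z` through multiplication by `k` -/
def Act (d : J) (z : F → J) (k : F) : Prop := ∀ t, d * z t * d⁻¹ = z (k * t)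

theorem Act.mul {d d' : J} {z : F → J} {k k' : F} (h : Act d z k) (h' : Act d' z k') : Act (d * d') z (k * k') := by
  intro t
  have : d * d' * z t * (d * d')⁻¹ = d * (d' * z t * d'⁻¹) * d⁻¹ := by group
  rw [this, h', h, mul_assoc]

theorem Act.inv {d : J} {z : F → J} {k : F} (hk : k ≠ 0) (h : Act d z k) : Act d⁻¹ z k⁻¹ := by
  intro t
  have := h (k⁻¹ * t)
  rw [mul_inv_cancel_left₀ hk] at this
  rw [← this]
  group

theorem Act.conj {d : J} {z : F → J} {k : F} (h : Act d z k) (e : J) :
    Act (e * d * e⁻¹) (fun t => e * z t * e⁻¹) k := by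
  intro t
  have : e * d * e⁻¹ * (e * z t * e⁻¹) * (e * d * e⁻¹)⁻¹ = e * (d * z t * d⁻¹) * e⁻¹ := by group
  rw [this, h]

theorem Act.congr {d d' : J} {z z' : F → J} {k k' : F} (h : Act d z k) (hd : d = d') (hz : ∀ t, z t = z' t)
    (hk : k = k') : Act d' z' k' := by
  subst hd hk
  intro t
  rw [← hz, ← hz, h]

end act

section triple

variable {F : Type*} [Field F] {J : Type*} [Group J]

theorem fam_zero {z : F → J} (hz : ∀ s t, z (s + t) = z s * z t) : z 0 = 1 := by
  have := hz 0 0
  rw [add_zero] at this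
  exact (mul_eq_left.1 this.symm)

theorem fam_neg {z : F → J} (hz : ∀ s t, z (s + t) = z s * z t) (s : F) : z (-s) = (z s)⁻¹ := by
  rw [eq_inv_iff_mul_eq_one, ← hz, neg_add_cancel, fam_zero hz]

theorem comm_mul_right (a b b' : J) : ⁅a, b * b'⁆ = ⁅a, b⁆ * (b * ⁅a, b'⁆ * b⁻¹) := by
  simp only [commutatorElement_def]; group

theorem comm_mul_left (a a' b : J) : ⁅a * a', b⁆ = (a * ⁅a', b⁆ * a⁻¹) * ⁅a, b⁆ := by
  simp only [commutatorElement_def]; group

/-- The commutator relations of three root groups. -/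
theorem triple {A B C : F → J} (hA : ∀ s t, A (s + t) = A s * A t) (hB : ∀ s t, B (s + t) = B s * B t)
    (hC : ∀ s t, C (s + t) = C s * C t) (S : Set Fˣ)
    (span1 : ∀ M : AddSubgroup F, (∀ k : Fˣ, ∀ s ∈ S, (k : F) ^ 3 * (s : F) ∈ M) → ∀ t, t ∈ M)
    (span2 : ∀ M : AddSubgroup F, (∀ k : Fˣ, ∀ s ∈ S, (k : F) ^ 3 * ((s⁻¹ : Fˣ) : F) ∈ M) → ∀ t, t ∈ M)
    (hP : ∀ r k : Fˣ, ∀ s ∈ S, ⁅A (r : F), B ((r : F) * (k : F) ^ 3 * (s : F))⁆ =
      C ((r : F) * ((r : F) * (k : F) ^ 3 * (s : F)))) :
    (∀ r s, ⁅A r, B s⁆ = C (r * s)) ∧ (∀ s c, Commute (B s) (C c)) ∧ (∀ r c, Commute (A r) (C c)) := by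
  have hCn := fam_neg hC
  have hBn := fam_neg hB
  have h1 : ∀ r k : Fˣ, ∀ s ∈ S, Commute (B ((r : F) * (k : F) ^ 3 * (s : F)))
      (C ((r : F) * ((r : F) * (k : F) ^ 3 * (s : F)))) := by
    intro r k s hs
    have e1 := hP r k s hs
    have e2 := hP r (-k) s hs
    have e3 : (r : F) * ((-k : Fˣ) : F) ^ 3 * (s : F) = -((r : F) * (k : F) ^ 3 * (s : F)) := by
      rw [Units.val_neg]; ring
    rw [e3, mul_neg] at e2
    generalize (r : F) * (k : F) ^ 3 * (s : F) = σ at *
    have e4 := comm_mul_right (A (r : F)) (B σ) (B (-σ))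
    rw [← hB, add_neg_cancel, fam_zero hB, commutatorElement_one_right, e1, e2, hCn, ] at e4
    have e5 : B σ * (C ((r : F) * σ))⁻¹ * (B σ)⁻¹ = (C ((r : F) * σ))⁻¹ := (eq_inv_of_mul_eq_one_right e4.symm)
    have e6 : Commute (B σ) (C ((r : F) * σ))⁻¹ := mul_inv_eq_iff_eq_mul.1 e5
    exact Commute.inv_right_iff.1 e6
  have h2 : ∀ (σ : Fˣ) (c : F), Commute (B (σ : F)) (C c) := by
    intro σ
    let M : AddSubgroup F :=
      { carrier := {c | Commute (B (σ : F)) (C ((σ : F) ^ 2 * c))}
        add_mem' := by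
          intro a b ha hb
          simp only [Set.mem_ofPred_eq] at *
          rw [mul_add, hC]
          exact ha.mul_right hb
        zero_mem' := by
          simp only [Set.mem_ofPred_eq, mul_zero, fam_zero hC]
          exact Commute.one_right _
        neg_mem' := by
          intro a ha
          simp only [Set.mem_ofPred_eq] at *
          rw [mul_neg, hCn]
          exact ha.inv_right }
    have hM : ∀ t, t ∈ M := by
      apply span2
      intro k s hs
      change Commute (B (σ : F)) (C ((σ : F) ^ 2 * _))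
      have := h1 (σ * k ^ 3 * s⁻¹) k⁻¹ s hs
      have e1 : (((σ * k ^ 3 * s⁻¹ : Fˣ) : F) * ((k⁻¹ : Fˣ) : F) ^ 3 * (s : F)) = (σ : F) := by
        push_cast
        field_simp
      rw [e1] at this
      have e2 : ((σ * k ^ 3 * s⁻¹ : Fˣ) : F) * (σ : F) = (σ : F) ^ 2 * ((k : F) ^ 3 * ((s⁻¹ : Fˣ) : F)) := by
        push_cast
        ring
      rwa [e2] at this
    intro c
    have h3 : Commute (B (σ : F)) (C ((σ : F) ^ 2 * _)) := hM (((σ : F) ^ 2)⁻¹ * c)
    rwa [mul_inv_cancel_left₀ (pow_ne_zero 2 σ.ne_zero)] at h3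
  have h3 : ∀ (s c : F), Commute (B s) (C c) := by
    intro s c
    by_cases hs : s = 0
    · rw [hs, fam_zero hB]; exact Commute.one_left _
    · exact h2 (Units.mk0 s hs) c
  have h4 : ∀ (r : Fˣ) (s : F), ⁅A (r : F), B s⁆ = C ((r : F) * s) := by
    intro r
    let M : AddSubgroup F :=
      { carrier := {s | ⁅A (r : F), B ((r : F) * s)⁆ = C ((r : F) * ((r : F) * s))}
        add_mem' := by
          intro a b ha hb
          simp only [Set.mem_ofPred_eq] at *
          rw [mul_add, mul_add, hB, hC, comm_mul_right, ha, hb, (h3 _ _).eq]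
          group
        zero_mem' := by
          simp only [Set.mem_ofPred_eq, mul_zero, fam_zero hC, fam_zero hB, commutatorElement_one_right]
        neg_mem' := by
          intro a ha
          simp only [Set.mem_ofPred_eq] at *
          rw [mul_neg, mul_neg, hBn, hCn]
          have e4 := comm_mul_right (A (r : F)) (B ((r : F) * a)) (B ((r : F) * a))⁻¹
          rw [mul_inv_cancel, commutatorElement_one_right, ha] at e4
          have e5 := eq_inv_of_mul_eq_one_right e4.symm
          have e6 : ⁅A (r : F), (B ((r : F) * a))⁻¹⁆ = (B ((r : F) * a))⁻¹ *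
              (B ((r : F) * a) * ⁅A (r : F), (B ((r : F) * a))⁻¹⁆ * (B ((r : F) * a))⁻¹) * B ((r : F) * a) := by
            group
          rw [e6, e5, mul_assoc, ((h3 ((r : F) * a) ((r : F) * ((r : F) * a))).symm.inv_left).eq]
          group }
    have hM : ∀ t, t ∈ M := by
      apply span1
      intro k s hs
      change ⁅A (r : F), B ((r : F) * _)⁆ = C ((r : F) * ((r : F) * _))
      have := hP r k s hs
      rwa [mul_assoc (r : F)] at this
    intro s
    have h5 : ⁅A (r : F), B ((r : F) * _)⁆ = C ((r : F) * ((r : F) * _)) := hM (((r : F))⁻¹ * s)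
    rwa [mul_inv_cancel_left₀ r.ne_zero] at h5
  have h5 : ∀ r s, ⁅A r, B s⁆ = C (r * s) := by
    intro r s
    by_cases hr : r = 0
    · rw [hr, fam_zero hA, zero_mul, fam_zero hC, commutatorElement_one_left]
    · exact h4 (Units.mk0 r hr) s
  refine ⟨h5, h3, ?_⟩
  intro r c
  -- use `c = 1 * c`
  have e1 := h5 (r + 1) c
  rw [hA, comm_mul_left, h5, h5, add_mul, one_mul, add_comm, hC] at e1
  have e2 : A r * C c * (A r)⁻¹ = C c := mul_right_cancel e1
  exact mul_inv_eq_iff_eq_mul.1 e2

end triple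

end Cfsg.Agent.H109
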