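import Mathlib
import Cfsg.Agent.H109.Triple
import Cfsg.Agent.H109.Cubes
import Cfsg.Agent.CTFrame.Hom

/-!
# The Steinberg relations of type `A₂` from few relations (helper109)
-/

set_option autoImplicit false
set_option linter.unusedSectionVars false

namespace Cfsg.Agent.H109

open scoped commutatorElement
open Cfsg.Agent.Lib Cfsg.Agent.AGraded
open Matrix (SpecialLinearGroup)

section weyl

variable {F : Type*} [Field F] {J : Type*} [Group J] {x : F → J} {Hm : Fˣ →* J} {w : J}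

theorem rel_act (r : SL2Lift.Rel x (ext1 Hm) w) (a : Fˣ) : Act (Hm a) x ((a : F) ^ 2) := by
  intro t
  have := r.conj (a : F) t a.ne_zero
  rw [ext1_unit] at this
  rw [this]; group

theorem rel_wh (r : SL2Lift.Rel x (ext1 Hm) w) (a : Fˣ) : w * Hm a * w⁻¹ = (Hm a)⁻¹ := by
  have := r.wh (a : F) a.ne_zero
  rw [ext1_unit, ← Units.val_inv_eq_inv_val, ext1_unit, map_inv] at this
  rw [this]; group

theorem rel_ww (r : SL2Lift.Rel x (ext1 Hm) w) : w * w = Hm (-1) := by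
  have := r.ww
  rw [this]
  have e : (-1 : F) = ((-1 : Fˣ) : F) := by simp
  rw [e, ext1_unit]

theorem rel_wx (r : SL2Lift.Rel x (ext1 Hm) w) (t : Fˣ) :
    w * x (t : F) * w = x (-((t⁻¹ : Fˣ) : F)) * Hm (-t⁻¹) * w * x (-((t⁻¹ : Fˣ) : F)) := by
  have := r.wx (t : F) t.ne_zero
  have e : (-(t : F)⁻¹) = ((-t⁻¹ : Fˣ) : F) := by simp
  rw [e, ext1_unit] at this
  rw [this]
  simp

/-- the opposite root group -/
def yy (x : F → J) (w : J) (t : F) : J := w * x (-t) * w⁻¹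

theorem yy_add (r : SL2Lift.Rel x (ext1 Hm) w) (s t : F) : yy x w (s + t) = yy x w s * yy x w t := by
  unfold yy
  rw [neg_add, r.add]
  group

theorem w_x (t : F) : w * x t * w⁻¹ = yy x w (-t) := by
  unfold yy
  rw [neg_neg]

theorem w_yy (r : SL2Lift.Rel x (ext1 Hm) w) (t : F) : w * yy x w t * w⁻¹ = x (-t) := by
  unfold yy
  have h1 := rel_act r (-1) (-t)
  rw [← rel_ww r] at h1
  have e : w * (w * x (-t) * w⁻¹) * w⁻¹ = (w * w) * x (-t) * (w * w)⁻¹ := by group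
  rw [e, h1]
  simp

theorem Act.yy {d : J} {k : F} (h : Act (w⁻¹ * d * w) x k) : Act d (yy x w) k := by
  intro t
  unfold H109.yy
  have e : d * (w * x (-t) * w⁻¹) * d⁻¹ = w * ((w⁻¹ * d * w) * x (-t) * (w⁻¹ * d * w)⁻¹) * w⁻¹ := by group
  rw [e, h (-t)]
  congr 3
  ring

/-- the Weyl element `w(u) = h(u) w` -/
theorem weyl_eq (r : SL2Lift.Rel x (ext1 Hm) w) (u : Fˣ) :
    x (u : F) * yy x w (-((u⁻¹ : Fˣ) : F)) * x (u : F) = Hm u * w := by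
  have h1 := rel_wx r u⁻¹
  rw [inv_inv] at h1
  unfold yy
  rw [neg_neg]
  have hn := x_neg r.add (u : F)
  have h2 : x (u : F) * (w * x ((u⁻¹ : Fˣ) : F) * w⁻¹) * x (u : F) =
      x (u : F) * (w * x ((u⁻¹ : Fˣ) : F) * w) * ((w * w)⁻¹ * x (u : F)) := by group
  rw [h2, h1, hn]
  have h3 : (w * w)⁻¹ * x (u : F) = x (u : F) * (w * w)⁻¹ := by
    have h4 := rel_act r (-1) (u : F)
    rw [← rel_ww r] at h4
    have h5 : w * w * x (u : F) * (w * w)⁻¹ = x (u : F) := by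
      rw [h4]; congr 1; push_cast; ring
    have h6 : Commute (w * w) (x (u : F)) := mul_inv_eq_iff_eq_mul.1 h5
    exact h6.inv_left.eq
  rw [h3]
  have h7 : x (u : F) * ((x (u : F))⁻¹ * Hm (-u) * w * (x (u : F))⁻¹) * (x (u : F) * (w * w)⁻¹) =
      Hm (-u) * (w * w)⁻¹ * w := by group
  rw [h7]
  congr 1
  rw [rel_ww r, ← map_inv, ← map_mul]
  congr 1
  simp

end weyl

section three

variable {F : Type*} [Field F] {J : Type*} [Group J] {x : F → J} {Hm : Fˣ →* J} {w c : J}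

/-- the relations between `SL₂` and the element `c` of order three -/
structure D3 (x : F → J) (Hm : Fˣ →* J) (w c : J) : Prop where
  rel : SL2Lift.Rel x (ext1 Hm) w
  c3 : c * c * c = 1
  wc : (w * c⁻¹) * (w * c⁻¹) = 1
  wg : ∀ a, w * (c * Hm a * c⁻¹) * w⁻¹ = Hm a * (c * Hm a * c⁻¹)
  hg : ∀ a b, Commute (Hm a) (c * Hm b * c⁻¹)
  act : ∀ a : Fˣ, Act (c * Hm a * c⁻¹) x ((a⁻¹ : Fˣ) : F)
  R : (w * c⁻¹) * (c⁻¹ * x 1 * c) * (w * c⁻¹)⁻¹ = c⁻¹ * yy x w 1 * c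

variable (h : D3 x Hm w c)

include h

namespace D3

theorem sinv : (w * c⁻¹)⁻¹ = w * c⁻¹ := inv_eq_of_mul_eq_one_left h.wc

theorem cinv : c⁻¹ = c * c := inv_eq_of_mul_eq_one_left h.c3

theorem cinv2 : c⁻¹ * c⁻¹ = c := by
  rw [← mul_inv_rev, ← h.cinv, inv_inv]

theorem sD1 (a : Fˣ) : (w * c⁻¹) * (c * Hm a * c⁻¹) * (w * c⁻¹)⁻¹ = (Hm a)⁻¹ := by
  rw [← rel_wh h.rel a]; group

theorem flip {a b : J} (hab : (w * c⁻¹) * a * (w * c⁻¹)⁻¹ = b) : (w * c⁻¹) * b * (w * c⁻¹)⁻¹ = a := by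
  rw [← hab]
  have := h.wc
  calc w * c⁻¹ * (w * c⁻¹ * a * (w * c⁻¹)⁻¹) * (w * c⁻¹)⁻¹ =
      ((w * c⁻¹) * (w * c⁻¹)) * a * ((w * c⁻¹) * (w * c⁻¹))⁻¹ := by group
    _ = a := by rw [this]; group

theorem sD0 (a : Fˣ) : (w * c⁻¹) * (Hm a) * (w * c⁻¹)⁻¹ = (c * Hm a * c⁻¹)⁻¹ := by
  have h1 : (w * c⁻¹) * (c * Hm a * c⁻¹)⁻¹ * (w * c⁻¹)⁻¹ = Hm a := by
    rw [← inv_inj, ← h.sD1 a]; group
  exact h.flip h1

theorem D2eq (a : Fˣ) : c⁻¹ * Hm a * c = (Hm a * (c * Hm a * c⁻¹))⁻¹ := by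
  have h1 : (w * c⁻¹) * (c⁻¹ * Hm a * c) * (w * c⁻¹)⁻¹ = Hm a * (c * Hm a * c⁻¹) := by
    rw [← h.wg a]
    have : c⁻¹ * Hm a * c = c * (c * Hm a * c⁻¹) * c⁻¹ := by
      calc c⁻¹ * Hm a * c = (c * c) * Hm a * (c * c)⁻¹ := by rw [← h.cinv, inv_inv]
        _ = _ := by group
    rw [this]; group
  have h2 := h.flip h1
  rw [← h2]
  calc (w * c⁻¹) * (Hm a * (c * Hm a * c⁻¹)) * (w * c⁻¹)⁻¹ =
      ((w * c⁻¹) * Hm a * (w * c⁻¹)⁻¹) * ((w * c⁻¹) * (c * Hm a * c⁻¹) * (w * c⁻¹)⁻¹) := by group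
    _ = _ := by rw [h.sD0, h.sD1]; group

theorem wD1 (a : Fˣ) : w⁻¹ * (c * Hm a * c⁻¹) * w = Hm a * (c * Hm a * c⁻¹) := by
  have h1 : w * (Hm a * (c * Hm a * c⁻¹)) * w⁻¹ = c * Hm a * c⁻¹ := by
    calc w * (Hm a * (c * Hm a * c⁻¹)) * w⁻¹ = (w * Hm a * w⁻¹) * (w * (c * Hm a * c⁻¹) * w⁻¹) := by group
      _ = _ := by rw [rel_wh h.rel, h.wg]; group
  conv_lhs => rw [← h1]
  group

theorem wD0 (a : Fˣ) : w⁻¹ * Hm a * w = (Hm a)⁻¹ := by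
  have h1 : w * (Hm a)⁻¹ * w⁻¹ = Hm a := by
    calc w * (Hm a)⁻¹ * w⁻¹ = (w * Hm a * w⁻¹)⁻¹ := by group
      _ = Hm a := by rw [rel_wh h.rel a, inv_inv]
  conv_lhs => rw [← h1]
  group

theorem a0x (a : Fˣ) : Act (Hm a) x ((a : F) ^ 2) := rel_act h.rel a

theorem a1x (a : Fˣ) : Act (c * Hm a * c⁻¹) x ((a : F)⁻¹) :=
  (h.act a).congr rfl (fun _ => rfl) (by simp)

theorem a2x (a : Fˣ) : Act (c⁻¹ * Hm a * c) x ((a : F)⁻¹) := by
  have h1 := ((h.a0x a).mul (h.a1x a)).inv (by simp)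
  refine h1.congr (h.D2eq a).symm (fun _ => rfl) ?_
  have := a.ne_zero
  field_simp

theorem a0y (a : Fˣ) : Act (Hm a) (yy x w) (((a : F) ^ 2)⁻¹) := by
  apply Act.yy
  rw [h.wD0]
  exact (h.a0x a).inv (by simp)

theorem a1y (a : Fˣ) : Act (c * Hm a * c⁻¹) (yy x w) (a : F) := by
  apply Act.yy
  rw [h.wD1]
  refine ((h.a0x a).mul (h.a1x a)).congr rfl (fun _ => rfl) ?_
  have := a.ne_zero
  field_simp

theorem a2y (a : Fˣ) : Act (c⁻¹ * Hm a * c) (yy x w) (a : F) := by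
  have h1 := ((h.a0y a).mul (h.a1y a)).inv (by simp)
  refine h1.congr (h.D2eq a).symm (fun _ => rfl) ?_
  have := a.ne_zero
  field_simp

/-- torus actions on `x₂₃` -/
theorem a0x23 (a : Fˣ) : Act (Hm a) (fun t => c * x t * c⁻¹) ((a : F)⁻¹) := by
  refine ((h.a2x a).conj c).congr ?_ (fun _ => rfl) rfl
  group

theorem a1x23 (a : Fˣ) : Act (c * Hm a * c⁻¹) (fun t => c * x t * c⁻¹) ((a : F) ^ 2) :=
  (h.a0x a).conj c

theorem a0x13 (a : Fˣ) : Act (Hm a) (fun t => c⁻¹ * yy x w t * c) (a : F) := by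
  refine ((h.a1y a).conj c⁻¹).congr ?_ (fun t => ?_) rfl
  · group
  · rw [inv_inv]

theorem a1x13 (a : Fˣ) : Act (c * Hm a * c⁻¹) (fun t => c⁻¹ * yy x w t * c) (a : F) := by
  refine ((h.a2y a).conj c⁻¹).congr ?_ (fun t => ?_) rfl
  · calc c⁻¹ * (c⁻¹ * Hm a * c) * c⁻¹⁻¹ = (c⁻¹ * c⁻¹) * Hm a * (c⁻¹ * c⁻¹)⁻¹ := by
          simp only [mul_assoc, mul_inv_rev, inv_inv]
      _ = _ := by rw [h.cinv2]
  · rw [inv_inv]

theorem a0x31 (a : Fˣ) : Act (Hm a) (fun t => c⁻¹ * x t * c) ((a : F)⁻¹) := by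
  refine ((h.a1x a).conj c⁻¹).congr ?_ (fun t => ?_) rfl
  · group
  · rw [inv_inv]

/-- the action of `s = w c⁻¹` -/
theorem s12 (t : F) : (w * c⁻¹) * (c * x t * c⁻¹) * (w * c⁻¹)⁻¹ = yy x w (-t) := by
  rw [← w_x]; group

theorem s21 (t : F) : (w * c⁻¹) * (c * yy x w t * c⁻¹) * (w * c⁻¹)⁻¹ = x (-t) := by
  rw [← w_yy h.rel]; group

theorem s10 (t : F) : (w * c⁻¹) * yy x w t * (w * c⁻¹)⁻¹ = c * x (-t) * c⁻¹ := by
  have := h.s12 (-t)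
  rw [neg_neg] at this
  exact h.flip this

theorem s01 (t : F) : (w * c⁻¹) * x t * (w * c⁻¹)⁻¹ = c * yy x w (-t) * c⁻¹ := by
  have := h.s21 (-t)
  rw [neg_neg] at this
  exact h.flip this

theorem s20 (t : F) : (w * c⁻¹) * (c⁻¹ * x t * c) * (w * c⁻¹)⁻¹ = c⁻¹ * yy x w t * c := by
  by_cases ht : t = 0
  · subst ht
    have h1 : x 0 = 1 := x_zero h.rel.add
    have h2 : yy x w 0 = 1 := by unfold yy; rw [neg_zero, h1]; group
    rw [h1, h2]; group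
  · set a : Fˣ := (Units.mk0 t ht)⁻¹ with ha
    have ha' : (a : F)⁻¹ = t := by rw [ha]; simp
    have h1 : Hm a * (c⁻¹ * x 1 * c) * (Hm a)⁻¹ = c⁻¹ * x t * c := by
      have := h.a0x31 a 1
      rw [ha', mul_one] at this
      exact this
    have h2 : (c * Hm a * c⁻¹)⁻¹ * (c⁻¹ * yy x w 1 * c) * (c * Hm a * c⁻¹)⁻¹⁻¹ = c⁻¹ * yy x w t * c := by
      have := ((h.a1x13 a).inv a.ne_zero) 1
      rw [ha', mul_one] at this
      exact this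
    rw [← h1, ← h2, ← h.sD0, ← h.R]
    group

theorem s02 (t : F) : (w * c⁻¹) * (c⁻¹ * yy x w t * c) * (w * c⁻¹)⁻¹ = c⁻¹ * x t * c := h.flip (h.s20 t)

end D3

end three

end Cfsg.Agent.H109
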