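import Mathlib
import Cfsg.Agent.H109.SL3d
import Cfsg.Agent.LieClassical.SLGen

/-!
# Presentations of `SL₃(F)` (helper109)

* `sl3_odd` : four generators, fourteen relators, `F` of odd order.
* `sl3_even` : four generators, thirteen relators, `F` of even order.
-/

set_option autoImplicit false
set_option linter.unusedSectionVars false

universe v

namespace Cfsg.Agent.H109

open scoped commutatorElement
open Cfsg.Agent.Lib Cfsg.Agent.AGraded
open Matrix (SpecialLinearGroup)

variable {F : Type v} [Field F] [Fintype F]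

/-- the generators of `SL₃` -/
noncomputable def g3 (ζ : Fˣ) : Fin 4 → SpecialLinearGroup (Fin 3) F := ![x3 1, H3 ζ, w3, c3m]

section common

variable {J : Type*} [Group J] {x : F → J} {Hm : Fˣ →* J} {w c : J}

theorem D3.c_eq (h : D3 x Hm w c) : c = w⁻¹ * (c * w * c⁻¹)⁻¹ := by
  have h1 := h.sinv
  rw [mul_inv_rev, inv_inv] at h1
  calc c = c⁻¹ * c⁻¹ := h.cinv2.symm
    _ = w⁻¹ * (w * c⁻¹) * c⁻¹ := by group
    _ = w⁻¹ * (c * w⁻¹) * c⁻¹ := by rw [h1]
    _ = _ := by group

/-- From the data in `J` to the homomorphism with prescribed images of the generators. -/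
theorem exists_hom3_gen (ζ : Fˣ) (h : D3 x Hm w c) {S : Set Fˣ}
    (span1 : ∀ M : AddSubgroup F, (∀ k : Fˣ, ∀ s ∈ S, (k : F) ^ 3 * (s : F) ∈ M) → ∀ t, t ∈ M)
    (span2 : ∀ M : AddSubgroup F, (∀ k : Fˣ, ∀ s ∈ S, (k : F) ^ 3 * ((s⁻¹ : Fˣ) : F) ∈ M) → ∀ t, t ∈ M)
    (hC : ∀ s ∈ S, ⁅x 1, c * x (s : F) * c⁻¹⁆ = c⁻¹ * yy x w (s : F) * c) :
    ∃ π : SpecialLinearGroup (Fin 3) F →* J, π (x3 1) = x 1 ∧ π (H3 ζ) = Hm ζ ∧ π w3 = w ∧ π c3m = c := by
  obtain ⟨π, hπ⟩ := exists_hom3 h span1 span2 hC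
  have hX : ∀ i j : Fin 3, i ≠ j → ∀ t, π (XX x3 w3 c3m i j t) = XX x w c i j t := by
    intro i j hij t
    rw [XX_mat hij, hπ]
  have p01 : ∀ t, π (x3 t) = x t := fun t => hX 0 1 (by decide) t
  have p10 : ∀ t, π (yy x3 w3 t) = yy x w t := fun t => hX 1 0 (by decide) t
  have p12 : ∀ t, π (c3m * x3 t * c3m⁻¹) = c * x t * c⁻¹ := fun t => hX 1 2 (by decide) t
  have p21 : ∀ t, π (c3m * yy x3 w3 t * c3m⁻¹) = c * yy x w t * c⁻¹ := fun t => hX 2 1 (by decide) t
  have hweyl : ∀ u : Fˣ, π (H3 u * w3) = Hm u * w := by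
    intro u
    rw [← weyl_eq rel3, ← weyl_eq h.rel, map_mul, map_mul, p01, p10]
  have hw : π w3 = w := by
    have := hweyl 1
    rwa [map_one, map_one, one_mul, one_mul] at this
  have hH : ∀ u : Fˣ, π (H3 u) = Hm u := by
    intro u
    have := hweyl u
    rw [map_mul, hw] at this
    exact mul_right_cancel this
  -- `c w c⁻¹`
  have hcw : π (c3m * w3 * c3m⁻¹) = c * w * c⁻¹ := by
    have e1 : (c3m * w3 * c3m⁻¹ : SpecialLinearGroup (Fin 3) F) =
        (c3m * x3 ((1 : Fˣ) : F) * c3m⁻¹) * (c3m * yy x3 w3 (-(((1 : Fˣ)⁻¹ : Fˣ) : F)) * c3m⁻¹) *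
        (c3m * x3 ((1 : Fˣ) : F) * c3m⁻¹) := by
      have := weyl_eq (rel3 (F := F)) 1
      rw [map_one, one_mul] at this
      conv_lhs => rw [← this]
      group
    have e2 : c * w * c⁻¹ = (c * x ((1 : Fˣ) : F) * c⁻¹) * (c * yy x w (-(((1 : Fˣ)⁻¹ : Fˣ) : F)) * c⁻¹) *
        (c * x ((1 : Fˣ) : F) * c⁻¹) := by
      have := weyl_eq h.rel 1
      rw [map_one, one_mul] at this
      conv_lhs => rw [← this]
      group
    rw [e1, e2, map_mul, map_mul, p12, p21]
  refine ⟨π, p01 1, hH ζ, hw, ?_⟩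
  have k1 := (d3_mat (F := F)).c_eq
  have k2 := h.c_eq
  rw [k1, map_mul, map_inv, map_inv, hcw, hw, ← k2]

end common

/-- the generators generate -/
theorem gen3 {ζ : Fˣ} (hζ : ∀ y, y ∈ Subgroup.zpowers ζ) : Subgroup.closure (Set.range (g3 ζ)) = ⊤ := by
  obtain ⟨p, hch⟩ := CharP.exists F
  have hpp : p.Prime := (CharP.char_is_prime_or_zero F p).resolve_right (CharP.char_ne_zero_of_finite F p)
  have : Fact p.Prime := ⟨hpp⟩
  let _ : Algebra (ZMod p) F := ZMod.algebra F p
  set K := Subgroup.closure (Set.range (g3 ζ)) with hK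
  have k0 : (x3 1 : SpecialLinearGroup (Fin 3) F) ∈ K := Subgroup.subset_closure ⟨0, rfl⟩
  have k1 : (H3 ζ : SpecialLinearGroup (Fin 3) F) ∈ K := Subgroup.subset_closure ⟨1, rfl⟩
  have k2 : (w3 : SpecialLinearGroup (Fin 3) F) ∈ K := Subgroup.subset_closure ⟨2, rfl⟩
  have k3 : (c3m : SpecialLinearGroup (Fin 3) F) ∈ K := Subgroup.subset_closure ⟨3, rfl⟩
  have hpw : ∀ l : List ℤ, pw (H3 ζ) (x3 (1 : F)) l ∈ K := by
    intro l
    induction l with
    | nil => exact one_mem _
    | cons a l ih => exact mul_mem (zpow_mem k0 a) (mul_mem (mul_mem k1 ih) (inv_mem k1))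
  have hX : ∀ t : F, x3 t ∈ K := by
    intro t
    obtain ⟨l, hl⟩ := exists_list (adjoin_sq_eq_top (p := p) hζ) t
    have := hpw l
    rwa [pw_root rel3.add (rel_act rel3 ζ), hl, mul_one] at this
  have hY : ∀ t : F, yy x3 w3 t ∈ K := fun t => mul_mem (mul_mem k2 (hX _)) (inv_mem k2)
  have hXX : ∀ i j t, XX (x3 : F → _) w3 c3m i j t ∈ K := by
    intro i j t
    fin_cases i <;> fin_cases j <;> first
      | exact one_mem _
      | exact hX t
      | exact hY t
      | exact mul_mem (mul_mem k3 (hX t)) (inv_mem k3)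
      | exact mul_mem (mul_mem k3 (hY t)) (inv_mem k3)
      | exact mul_mem (mul_mem (inv_mem k3) (hX t)) k3
      | exact mul_mem (mul_mem (inv_mem k3) (hY t)) k3
  rw [eq_top_iff, ← LieClassical.SLGen.closure_transvections]
  rw [Subgroup.closure_le]
  rintro _ ⟨i, j, hij, t, rfl⟩
  have := hXX i j t
  rwa [XX_mat hij] at this

/-- **`SL₃(F)`, `F` of odd order, has a presentation with four generators and fourteen relators.** -/
theorem sl3_odd (h2 : (2 : F) ≠ 0) : H111.HasPres (SpecialLinearGroup (Fin 3) F) 4 14 := by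
  obtain ⟨ζ, hζ⟩ := IsCyclic.exists_generator (α := Fˣ)
  obtain ⟨p, hch⟩ := CharP.exists F
  have hpp : p.Prime := (CharP.char_is_prime_or_zero F p).resolve_right (CharP.char_ne_zero_of_finite F p)
  have : Fact p.Prime := ⟨hpp⟩
  let _ : Algebra (ZMod p) F := ZMod.algebra F p
  obtain ⟨hm1, hq2⟩ := neg_one_pow hζ h2
  obtain ⟨RU, hlen, hR1, hR2⟩ := uRel_odd hζ h2
  obtain ⟨l1, hl1⟩ := exists_list (adjoin_sq_eq_top (p := p) hζ) ((ζ⁻¹ : Fˣ) : F)
  let U : FreeGroup (Fin 4) := FreeGroup.of 0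
  let H : FreeGroup (Fin 4) := FreeGroup.of 1
  let W : FreeGroup (Fin 4) := FreeGroup.of 2
  let C : FreeGroup (Fin 4) := FreeGroup.of 3
  let R : List (FreeGroup (Fin 4)) := RU.map (FreeGroup.lift ![U, H]) ++
    [(C * H * C⁻¹) * U * (C * H * C⁻¹)⁻¹ * (pw H U l1)⁻¹,
      (U * W) ^ 3,
      W * H * W⁻¹ * H,
      W * W * (H ^ ((Fintype.card F - 1) / 2))⁻¹,
      C * C * C,
      (W * C⁻¹) * (W * C⁻¹),
      W * (C * H * C⁻¹) * W⁻¹ * (H * (C * H * C⁻¹))⁻¹,
      H * (C * H * C⁻¹) * ((C * H * C⁻¹) * H)⁻¹,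
      ⁅U, C * U * C⁻¹⁆ * (C⁻¹ * (W * U⁻¹ * W⁻¹) * C)⁻¹,
      (W * C⁻¹) * (C⁻¹ * U * C) * (W * C⁻¹)⁻¹ * (C⁻¹ * (W * U⁻¹ * W⁻¹) * C)⁻¹]
  have hlenR : R.length ≤ 14 := by
    simp only [R, List.length_append, List.length_map, List.length_cons, List.length_nil]
    omega
  refine H111.HasPres.mono (of_hom (g3 ζ) (gen3 hζ) R ?_ ?_) hlenR
  · intro r hr
    have d := d3_mat (F := F)
    have hrel := d.rel
    have hg0 : g3 ζ 0 = x3 1 := rfl
    have hg1 : g3 ζ 1 = H3 ζ := rfl
    have hg2 : g3 ζ 2 = w3 := rfl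
    have hg3 : g3 ζ 3 = c3m := rfl
    have hyy : w3 * (x3 (1 : F))⁻¹ * w3⁻¹ = yy x3 w3 1 := by
      unfold yy
      rw [x_neg hrel.add]
    rcases List.mem_append.1 hr with hr | hr
    · obtain ⟨r', hr', rfl⟩ := List.mem_map.1 hr
      rw [lift_lift]
      have := hR1 _ x3 (H3 ζ) hrel.add (rel_act hrel ζ) r' hr'
      rw [← this]
      congr 2
      ext i
      fin_cases i <;> simp [U, H, hg0, hg1]
    · simp only [List.mem_cons, List.not_mem_nil, or_false] at hr
      rcases hr with rfl | rfl | rfl | rfl | rfl | rfl | rfl | rfl | rfl | rfl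
      · simp only [map_mul, map_inv, lift_pw, FreeGroup.lift_apply_of, U, H, C, hg0, hg1, hg3]
        rw [mul_inv_eq_one, pw_root hrel.add (rel_act hrel ζ), hl1, d.act ζ 1]
      · simp only [map_mul, map_pow, FreeGroup.lift_apply_of, U, W, hg0, hg2]
        have h1 := rel_wx hrel 1
        rw [inv_one, Units.val_one, ← rel_ww hrel, x_neg hrel.add] at h1
        have h5 : (w3 : SpecialLinearGroup (Fin 3) F) * w3 * (w3 * w3) = 1 := by
          rw [rel_ww hrel, ← map_mul]
          simp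
        calc (x3 (1 : F) * w3) ^ 3 = x3 1 * (w3 * x3 1 * w3) * x3 1 * w3 := by
              simp only [pow_succ, pow_zero, one_mul, mul_assoc]
          _ = w3 * w3 * (w3 * w3) := by rw [h1]; group
          _ = 1 := h5
      · simp only [map_mul, map_inv, FreeGroup.lift_apply_of, W, H, hg1, hg2]
        rw [rel_wh hrel, inv_mul_cancel]
      · simp only [map_mul, map_inv, map_pow, FreeGroup.lift_apply_of, W, H, hg1, hg2]
        rw [rel_ww hrel, ← map_pow, hm1, mul_inv_cancel]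
      · simp only [map_mul, FreeGroup.lift_apply_of, C, hg3]
        exact d.c3
      · simp only [map_mul, map_inv, FreeGroup.lift_apply_of, C, W, hg2, hg3]
        exact d.wc
      · simp only [map_mul, map_inv, FreeGroup.lift_apply_of, C, W, H, hg1, hg2, hg3]
        rw [mul_inv_eq_one]
        exact d.wg ζ
      · simp only [map_mul, map_inv, FreeGroup.lift_apply_of, C, H, hg1, hg3]
        rw [mul_inv_eq_one]
        exact (d.hg ζ ζ).eq
      · simp only [map_mul, map_inv, map_commutatorElement, FreeGroup.lift_apply_of, C, U, W, hg0, hg2, hg3]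
        rw [mul_inv_eq_one, hyy]
        exact C_mat 1
      · simp only [map_mul, map_inv, FreeGroup.lift_apply_of, C, U, W, hg0, hg2, hg3]
        rw [mul_inv_eq_one, hyy]
        exact d.R
  · intro J _ a hgen hr _
    set u := a 0 with hu
    set h := a 1 with hh
    set w := a 2 with hw
    set c := a 3 with hc
    have r1 := hr ((C * H * C⁻¹) * U * (C * H * C⁻¹)⁻¹ * (pw H U l1)⁻¹) (by simp [R])
    have r2 := hr ((U * W) ^ 3) (by simp [R])
    have r3 := hr (W * H * W⁻¹ * H) (by simp [R])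
    have r4 := hr (W * W * (H ^ ((Fintype.card F - 1) / 2))⁻¹) (by simp [R])
    have r5 := hr (C * C * C) (by simp [R])
    have r6 := hr ((W * C⁻¹) * (W * C⁻¹)) (by simp [R])
    have r7 := hr (W * (C * H * C⁻¹) * W⁻¹ * (H * (C * H * C⁻¹))⁻¹) (by simp [R])
    have r8 := hr (H * (C * H * C⁻¹) * ((C * H * C⁻¹) * H)⁻¹) (by simp [R])
    have r9 := hr (⁅U, C * U * C⁻¹⁆ * (C⁻¹ * (W * U⁻¹ * W⁻¹) * C)⁻¹) (by simp [R])
    have r10 := hr ((W * C⁻¹) * (C⁻¹ * U * C) * (W * C⁻¹)⁻¹ * (C⁻¹ * (W * U⁻¹ * W⁻¹) * C)⁻¹) (by simp [R])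
    simp only [map_mul, map_inv, map_pow, map_commutatorElement, lift_pw, FreeGroup.lift_apply_of, H, W, U, C,
      ← hu, ← hh, ← hw, ← hc] at r1 r2 r3 r4 r5 r6 r7 r8 r9 r10
    have whw : w * h * w⁻¹ = h⁻¹ := eq_inv_of_mul_eq_one_left r3
    have ww : w * w = h ^ ((Fintype.card F - 1) / 2) := mul_inv_eq_one.1 r4
    have hq : h ^ (Fintype.card F - 1) = 1 := by
      have e1 : w * (w * w) * w⁻¹ = w * w := by group
      rw [ww, ← conj_pow, whw, inv_pow] at e1
      rw [← hq2, two_mul, pow_add]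
      nth_rewrite 1 [← e1]
      exact inv_mul_cancel _
    obtain ⟨x, hx, hx1, hxc, -⟩ := hR2 J u h hq (by
      intro r hr'
      have := hr (FreeGroup.lift ![U, H] r) (by
        simp only [R, List.mem_append, List.mem_map]
        exact Or.inl ⟨r, hr', rfl⟩)
      rw [lift_lift] at this
      rw [← this]
      congr 2
      ext i
      fin_cases i <;> simp [U, H, hu, hh])
    -- the element `g`
    set g := c * h * c⁻¹ with hgd
    have hgh : Commute g h := by
      have : h * g = g * h := mul_inv_eq_one.1 r8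
      exact this.symm
    have hwg : w * g * w⁻¹ = h * g := mul_inv_eq_one.1 r7
    have hgx1 : g * x 1 * g⁻¹ = x ((ζ⁻¹ : Fˣ) : F) := by
      rw [hx1]
      have := mul_inv_eq_one.1 r1
      rw [this, ← hx1, pw_root hx hxc, hl1, mul_one]
    have hgx : Act g x ((ζ⁻¹ : Fˣ) : F) :=
      act_pw hx hxc hgh hgx1 (fun t => exists_list (adjoin_sq_eq_top (p := p) hζ) t)
    have hw4 : w * w * (w * w) = 1 := by rw [ww, ← pow_add, ← two_mul, hq2, hq]
    have hgw : g * w * g⁻¹ = h⁻¹ * w := by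
      have e1 : w * g = h * g * w := by rw [← hwg]; group
      calc g * w * g⁻¹ = h⁻¹ * (h * g * w) * g⁻¹ := by group
        _ = h⁻¹ * w := by rw [← e1]; group
    -- the Weyl relation for `ζ`
    have hz : w * x (ζ : F) * w = x (-((ζ⁻¹ : Fˣ) : F)) * h⁻¹ * w ^ 3 * x (-((ζ⁻¹ : Fˣ) : F)) := by
      have e1 : (x ((ζ⁻¹ : Fˣ) : F) * (h⁻¹ * w)) ^ 3 = 1 := by
        have : (g * (u * w) * g⁻¹) ^ 3 = 1 := by rw [conj_pow, r2]; group
        rw [← this]
        congr 1
        rw [← hgx1, ← hgw, hx1]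
        group
      have e2 : h⁻¹ * w = w * h := by
        calc h⁻¹ * w = (w * h * w⁻¹) * w := by rw [whw]
          _ = w * h := by group
      have e3 : h * x ((ζ⁻¹ : Fˣ) : F) = x (ζ : F) * h := by
        have := hxc ((ζ⁻¹ : Fˣ) : F)
        have e : (ζ : F) ^ 2 * ((ζ⁻¹ : Fˣ) : F) = (ζ : F) := by
          rw [sq, mul_assoc, Units.mul_inv, mul_one]
        rw [e] at this
        rw [← this]; group
      have e4 : h * w * h = w := by
        calc h * w * h = h * (w * h * w⁻¹) * w := by group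
          _ = w := by rw [whw]; group
      have e5 : x ((ζ⁻¹ : Fˣ) : F) * (w * x (ζ : F) * w) * x ((ζ⁻¹ : Fˣ) : F) * w * h = 1 := by
        rw [← e1, e2]
        calc x ((ζ⁻¹ : Fˣ) : F) * (w * x (ζ : F) * w) * x ((ζ⁻¹ : Fˣ) : F) * w * h =
            x ((ζ⁻¹ : Fˣ) : F) * (w * x (ζ : F) * (h * w * h)) * x ((ζ⁻¹ : Fˣ) : F) * w * h := by rw [e4]
          _ = x ((ζ⁻¹ : Fˣ) : F) * w * (x (ζ : F) * h) * w * (h * x ((ζ⁻¹ : Fˣ) : F)) * w * h := by group
          _ = x ((ζ⁻¹ : Fˣ) : F) * w * (h * x ((ζ⁻¹ : Fˣ) : F)) * w * (h * x ((ζ⁻¹ : Fˣ) : F)) * w * h := by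
              rw [← e3]
          _ = _ := by simp only [pow_succ, pow_zero, one_mul, mul_assoc]
      have e6 : w ^ 3 = w⁻¹ := by
        rw [eq_inv_iff_mul_eq_one, ← pow_succ]
        rw [← hw4]
        simp only [pow_succ, pow_zero, one_mul, mul_assoc]
      have e7 : x (-((ζ⁻¹ : Fˣ) : F)) = (x ((ζ⁻¹ : Fˣ) : F))⁻¹ := x_neg hx _
      rw [e6, e7]
      calc w * x (ζ : F) * w = (x ((ζ⁻¹ : Fˣ) : F))⁻¹ * (x ((ζ⁻¹ : Fˣ) : F) * (w * x (ζ : F) * w) *
            x ((ζ⁻¹ : Fˣ) : F) * w * h) * h⁻¹ * w⁻¹ * (x ((ζ⁻¹ : Fˣ) : F))⁻¹ := by group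
        _ = _ := by rw [e5]; group
    obtain ⟨Hm, hHm, hrel⟩ := rel_odd hζ h2 hx hxc whw ww (by rw [hx1]; exact r2) hz
    have hyy : w * (x 1)⁻¹ * w⁻¹ = yy x w 1 := by
      unfold yy
      rw [x_neg hx]
    rw [← hx1, hyy] at r9 r10
    have d : D3 x Hm w c := d3_of_gen hζ hrel r5 r6 (by rw [hHm]; exact hwg) (by rw [hHm]; exact hgh.symm)
      (by rw [hHm]; exact hgx) (mul_inv_eq_one.1 r10)
    have h4 : Fintype.card F ≠ 4 := by
      intro h4
      rw [h4] at hq2
      omega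
    obtain ⟨π, p0, p1, p2, p3⟩ := exists_hom3_gen ζ d (S := {1})
      (by
        intro M hM
        apply cube_span h4
        intro k
        have := hM k 1 rfl
        simpa using this)
      (by
        intro M hM
        apply cube_span h4
        intro k
        have := hM k 1 rfl
        simpa using this)
      (by
        intro s hs
        rw [Set.mem_singleton_iff] at hs
        subst hs
        rw [Units.val_one]
        exact mul_inv_eq_one.1 r9)
    refine ⟨π, ?_⟩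
    intro i
    fin_cases i
    · exact p0.trans hx1
    · exact p1.trans hHm
    · exact p2
    · exact p3

/-- **`SL₃(F)`, `F` of even order, has a presentation with four generators and thirteen relators.** -/
theorem sl3_even (h2 : (2 : F) = 0) : H111.HasPres (SpecialLinearGroup (Fin 3) F) 4 13 := by
  obtain ⟨ζ, hζ⟩ := IsCyclic.exists_generator (α := Fˣ)
  have hch : CharP F 2 := CharTwo.of_one_ne_zero_of_two_eq_zero one_ne_zero h2
  have : Fact (Nat.Prime 2) := ⟨Nat.prime_two⟩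
  let _ : Algebra (ZMod 2) F := ZMod.algebra F 2
  obtain ⟨hev, hhalf⟩ := sq_pow_half hζ h2
  have hc1 : 1 < Fintype.card F := Fintype.one_lt_card
  obtain ⟨RU, hlen, hR1, hR2⟩ := uRelS_two hζ h2
  obtain ⟨l1, hl1⟩ := exists_list (adjoin_sq_eq_top (p := 2) hζ) ((ζ⁻¹ : Fˣ) : F)
  obtain ⟨l2, hl2⟩ := exists_list (adjoin_sq_eq_top (p := 2) hζ) (ζ : F)
  let U : FreeGroup (Fin 4) := FreeGroup.of 0
  let H : FreeGroup (Fin 4) := FreeGroup.of 1
  let W : FreeGroup (Fin 4) := FreeGroup.of 2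
  let C : FreeGroup (Fin 4) := FreeGroup.of 3
  let R : List (FreeGroup (Fin 4)) := RU.map (FreeGroup.lift ![U, H]) ++
    [(C * H * C⁻¹) * U * (C * H * C⁻¹)⁻¹ * (pw H U l1)⁻¹,
      W * W * ((U * W) ^ 3)⁻¹,
      W * H ^ (Fintype.card F / 2 - 1) * W⁻¹ * (H ^ (Fintype.card F / 2))⁻¹,
      C * C * C,
      (W * C⁻¹) * (W * C⁻¹),
      W * (C * H * C⁻¹) * W⁻¹ * (H * (C * H * C⁻¹))⁻¹,
      H * (C * H * C⁻¹) * ((C * H * C⁻¹) * H)⁻¹,
      ⁅U, C * U * C⁻¹⁆ * (C⁻¹ * (W * U⁻¹ * W⁻¹) * C)⁻¹,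
      (W * C⁻¹) * (C⁻¹ * U * C) * (W * C⁻¹)⁻¹ * (C⁻¹ * (W * U⁻¹ * W⁻¹) * C)⁻¹,
      ⁅U, C * pw H U l2 * C⁻¹⁆ * (C⁻¹ * (W * (pw H U l2)⁻¹ * W⁻¹) * C)⁻¹]
  have hlenR : R.length ≤ 13 := by
    simp only [R, List.length_append, List.length_map, List.length_cons, List.length_nil]
    omega
  refine H111.HasPres.mono (of_hom (g3 ζ) (gen3 hζ) R ?_ ?_) hlenR
  · intro r hr
    have d := d3_mat (F := F)
    have hrel := d.rel
    have hg0 : g3 ζ 0 = x3 1 := rfl
    have hg1 : g3 ζ 1 = H3 ζ := rfl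
    have hg2 : g3 ζ 2 = w3 := rfl
    have hg3 : g3 ζ 3 = c3m := rfl
    have hyy : ∀ t : F, w3 * (x3 t)⁻¹ * w3⁻¹ = yy x3 w3 t := by
      intro t
      unfold yy
      rw [x_neg hrel.add]
    have hneg : (-1 : Fˣ) = 1 := Units.ext (by
      rw [Units.val_neg, Units.val_one]
      have : (1 : F) + 1 = 0 := by rw [one_add_one_eq_two]; exact h2
      exact (eq_neg_of_add_eq_zero_left this).symm)
    have hww : (w3 : SpecialLinearGroup (Fin 3) F) * w3 = 1 := by
      rw [rel_ww hrel, hneg, map_one]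
    rcases List.mem_append.1 hr with hr | hr
    · obtain ⟨r', hr', rfl⟩ := List.mem_map.1 hr
      rw [lift_lift]
      have := hR1 _ x3 (H3 ζ) hrel.add (rel_act hrel ζ) r' hr'
      rw [← this]
      congr 2
      ext i
      fin_cases i <;> simp [U, H, hg0, hg1]
    · simp only [List.mem_cons, List.not_mem_nil, or_false] at hr
      rcases hr with rfl | rfl | rfl | rfl | rfl | rfl | rfl | rfl | rfl | rfl
      · simp only [map_mul, map_inv, lift_pw, FreeGroup.lift_apply_of, U, H, C, hg0, hg1, hg3]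
        rw [mul_inv_eq_one, pw_root hrel.add (rel_act hrel ζ), hl1, d.act ζ 1]
      · simp only [map_mul, map_inv, map_pow, FreeGroup.lift_apply_of, U, W, hg0, hg2]
        have h1 := rel_wx hrel 1
        rw [inv_one, Units.val_one, hneg, map_one, mul_one, x_neg hrel.add] at h1
        rw [mul_inv_eq_one, hww]
        calc (1 : SpecialLinearGroup (Fin 3) F) = w3 * w3 := hww.symm
          _ = x3 1 * ((x3 1)⁻¹ * w3 * (x3 1)⁻¹) * x3 1 * w3 := by group
          _ = (x3 (1 : F) * w3) ^ 3 := by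
              rw [← h1]
              simp only [pow_succ, pow_zero, one_mul, mul_assoc]
      · simp only [map_mul, map_inv, map_pow, FreeGroup.lift_apply_of, W, H, hg1, hg2]
        rw [← conj_pow, rel_wh hrel, ← map_inv, ← map_pow, ← map_pow, ← map_inv, ← map_mul]
        have h4 : ζ⁻¹ ^ (Fintype.card F / 2 - 1) * (ζ ^ (Fintype.card F / 2))⁻¹ = 1 := by
          rw [inv_pow, ← mul_inv, inv_eq_one, ← pow_add]
          obtain ⟨r, hr⟩ := hev
          have : Fintype.card F / 2 - 1 + Fintype.card F / 2 = orderOf ζ := by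
            rw [order_gen hζ]; omega
          rw [this, pow_orderOf_eq_one]
        rw [h4, map_one]
      · simp only [map_mul, FreeGroup.lift_apply_of, C, hg3]
        exact d.c3
      · simp only [map_mul, map_inv, FreeGroup.lift_apply_of, C, W, hg2, hg3]
        exact d.wc
      · simp only [map_mul, map_inv, FreeGroup.lift_apply_of, C, W, H, hg1, hg2, hg3]
        rw [mul_inv_eq_one]
        exact d.wg ζ
      · simp only [map_mul, map_inv, FreeGroup.lift_apply_of, C, H, hg1, hg3]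
        rw [mul_inv_eq_one]
        exact (d.hg ζ ζ).eq
      · simp only [map_mul, map_inv, map_commutatorElement, FreeGroup.lift_apply_of, C, U, W, hg0, hg2, hg3]
        rw [mul_inv_eq_one, hyy]
        exact C_mat 1
      · simp only [map_mul, map_inv, FreeGroup.lift_apply_of, C, U, W, hg0, hg2, hg3]
        rw [mul_inv_eq_one, hyy]
        exact d.R
      · simp only [map_mul, map_inv, lift_pw, map_commutatorElement, FreeGroup.lift_apply_of, C, U, W, H, hg0, hg1,
          hg2, hg3]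
        rw [mul_inv_eq_one, pw_root hrel.add (rel_act hrel ζ), hl2, mul_one, hyy]
        exact C_mat _
  · intro J _ a hgen hr _
    set u := a 0 with hu
    set h := a 1 with hh
    set w := a 2 with hw
    set c := a 3 with hc
    have r1 := hr ((C * H * C⁻¹) * U * (C * H * C⁻¹)⁻¹ * (pw H U l1)⁻¹) (by simp [R])
    have r2 := hr (W * W * ((U * W) ^ 3)⁻¹) (by simp [R])
    have r3 := hr (W * H ^ (Fintype.card F / 2 - 1) * W⁻¹ * (H ^ (Fintype.card F / 2))⁻¹) (by simp [R])
    have r5 := hr (C * C * C) (by simp [R])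
    have r6 := hr ((W * C⁻¹) * (W * C⁻¹)) (by simp [R])
    have r7 := hr (W * (C * H * C⁻¹) * W⁻¹ * (H * (C * H * C⁻¹))⁻¹) (by simp [R])
    have r8 := hr (H * (C * H * C⁻¹) * ((C * H * C⁻¹) * H)⁻¹) (by simp [R])
    have r9 := hr (⁅U, C * U * C⁻¹⁆ * (C⁻¹ * (W * U⁻¹ * W⁻¹) * C)⁻¹) (by simp [R])
    have r10 := hr ((W * C⁻¹) * (C⁻¹ * U * C) * (W * C⁻¹)⁻¹ * (C⁻¹ * (W * U⁻¹ * W⁻¹) * C)⁻¹) (by simp [R])
    have r11 := hr (⁅U, C * pw H U l2 * C⁻¹⁆ * (C⁻¹ * (W * (pw H U l2)⁻¹ * W⁻¹) * C)⁻¹) (by simp [R])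
    simp only [map_mul, map_inv, map_pow, map_commutatorElement, lift_pw, FreeGroup.lift_apply_of, H, W, U, C,
      ← hu, ← hh, ← hw, ← hc] at r1 r2 r3 r5 r6 r7 r8 r9 r10 r11
    obtain ⟨x, hx, hx1, hxc, -⟩ := hR2 J u h (by
      intro r hr'
      have := hr (FreeGroup.lift ![U, H] r) (by
        simp only [R, List.mem_append, List.mem_map]
        exact Or.inl ⟨r, hr', rfl⟩)
      rw [lift_lift] at this
      rw [← this]
      congr 2
      ext i
      fin_cases i <;> simp [U, H, hu, hh])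
    -- the element `g`
    set g := c * h * c⁻¹ with hgd
    have hgh : Commute g h := by
      have : h * g = g * h := mul_inv_eq_one.1 r8
      exact this.symm
    have hwg : w * g * w⁻¹ = h * g := mul_inv_eq_one.1 r7
    have hgx1 : g * x 1 * g⁻¹ = x ((ζ⁻¹ : Fˣ) : F) := by
      rw [hx1]
      have := mul_inv_eq_one.1 r1
      rw [this, ← hx1, pw_root hx hxc, hl1, mul_one]
    have hgx : Act g x ((ζ⁻¹ : Fˣ) : F) :=
      act_pw hx hxc hgh hgx1 (fun t => exists_list (adjoin_sq_eq_top (p := 2) hζ) t)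
    obtain ⟨Hm, hHm, hrel⟩ := rel_even hζ h2 hx hxc (by rw [hx1]; exact mul_inv_eq_one.1 r2) (mul_inv_eq_one.1 r3)
    have hyy : ∀ t, w * (x t)⁻¹ * w⁻¹ = yy x w t := by
      intro t
      unfold yy
      rw [x_neg hx]
    rw [← hx1, hyy] at r9 r10
    rw [← hx1, pw_root hx hxc, hl2, mul_one, hyy] at r11
    have d : D3 x Hm w c := d3_of_gen hζ hrel r5 r6 (by rw [hHm]; exact hwg) (by rw [hHm]; exact hgh.symm)
      (by rw [hHm]; exact hgx) (mul_inv_eq_one.1 r10)
    obtain ⟨π, p0, p1, p2, p3⟩ := exists_hom3_gen ζ d (S := {1, ζ})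
      (by
        intro M hM
        have h1 : ∀ k : Fˣ, (k : F) ^ 3 ∈ M := by
          intro k
          have := hM k 1 (Or.inl rfl)
          simpa using this
        by_cases h4 : Fintype.card F = 4
        · have hζ1 : ζ ≠ 1 := by
            intro h
            have := order_gen hζ
            rw [h, orderOf_one, h4] at this
            omega
          apply four_span h4 hζ1
          · simpa using h1 1
          · have := hM 1 ζ (Or.inr rfl)
            simpa using this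
        · exact cube_span h4 M h1)
      (by
        intro M hM
        have h1 : ∀ k : Fˣ, (k : F) ^ 3 ∈ M := by
          intro k
          have := hM k 1 (Or.inl rfl)
          simpa using this
        by_cases h4 : Fintype.card F = 4
        · have hζ1 : ζ⁻¹ ≠ 1 := by
            intro h
            have := order_gen hζ
            rw [inv_eq_one.1 h, orderOf_one, h4] at this
            omega
          apply four_span h4 hζ1
          · simpa using h1 1
          · have := hM 1 ζ (Or.inr rfl)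
            simpa using this
        · exact cube_span h4 M h1)
      (by
        intro s hs
        rcases hs with hs | hs
        · subst hs
          rw [Units.val_one]
          exact mul_inv_eq_one.1 r9
        · rw [Set.mem_singleton_iff] at hs
          subst hs
          exact mul_inv_eq_one.1 r11)
    refine ⟨π, ?_⟩
    intro i
    fin_cases i
    · exact p0.trans hx1
    · exact p1.trans hHm
    · exact p2
    · exact p3

end Cfsg.Agent.H109
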