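import Mathlib

/-!
# Even permutations with prescribed values (helper109)
-/

set_option autoImplicit false
set_option linter.unusedSectionVars false

namespace Cfsg.Agent.H109.SLn

open Equiv Equiv.Perm

variable {ι : Type*} [Fintype ι] [DecidableEq ι]

theorem exists_perm {k : ℕ} (f g : Fin k → ι) (hf : Function.Injective f) (hg : Function.Injective g) :
    ∃ σ : Perm ι, ∀ i, σ (f i) = g i := by
  have : MulAction.IsMultiplyPretransitive (Perm ι) ι k := Equiv.Perm.isMultiplyPretransitive ι k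
  obtain ⟨σ, hσ⟩ := MulAction.exists_smul_eq (Perm ι) (⟨f, hf⟩ : Fin k ↪ ι) ⟨g, hg⟩
  refine ⟨σ, fun i => ?_⟩
  have := DFunLike.congr_fun hσ i
  exact this

theorem inj2 {i j : ι} (hij : i ≠ j) : Function.Injective ![i, j] := by
  intro a b h
  fin_cases a <;> fin_cases b <;> simp_all

theorem inj3 {i j k : ι} (hij : i ≠ j) (hik : i ≠ k) (hjk : j ≠ k) : Function.Injective ![i, j, k] := by
  intro a b h
  fin_cases a <;> fin_cases b <;> simp_all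

theorem inj4 {i j k l : ι} (hij : i ≠ j) (hik : i ≠ k) (hjk : j ≠ k) (hil : i ≠ l) (hjl : j ≠ l) (hkl : k ≠ l) :
    Function.Injective ![i, j, k, l] := by
  intro a b h
  fin_cases a <;> fin_cases b <;> simp_all

/-- make a permutation even -/
theorem mk_even (σ : Perm ι) {a b : ι} (hab : a ≠ b) :
    ∃ γ : alternatingGroup ι, (γ : Perm ι) = σ ∨ (γ : Perm ι) = σ * swap a b := by
  rcases Int.units_eq_one_or (sign σ) with h | h
  · exact ⟨⟨σ, h⟩, Or.inl rfl⟩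
  · exact ⟨⟨σ * swap a b, mem_alternatingGroup.2 (by rw [Perm.sign_mul, h, sign_swap hab]; rfl)⟩, Or.inr rfl⟩

variable {p : Fin 4 → ι} (hp : Function.Injective p)

include hp

theorem p01 : p 0 ≠ p 1 := hp.ne (by decide)
theorem p02 : p 0 ≠ p 2 := hp.ne (by decide)
theorem p03 : p 0 ≠ p 3 := hp.ne (by decide)
theorem p12 : p 1 ≠ p 2 := hp.ne (by decide)
theorem p13 : p 1 ≠ p 3 := hp.ne (by decide)
theorem p23 : p 2 ≠ p 3 := hp.ne (by decide)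

theorem even_pair {i j : ι} (hij : i ≠ j) :
    ∃ γ : alternatingGroup ι, (γ : Perm ι) (p 0) = i ∧ (γ : Perm ι) (p 1) = j := by
  obtain ⟨σ, hσ⟩ := exists_perm ![p 0, p 1] ![i, j] (inj2 (p01 hp)) (inj2 hij)
  have h0 : σ (p 0) = i := hσ 0
  have h1 : σ (p 1) = j := hσ 1
  obtain ⟨γ, h | h⟩ := mk_even σ (p23 hp)
  · exact ⟨γ, by rw [h, h0], by rw [h, h1]⟩
  · refine ⟨γ, ?_, ?_⟩
    · rw [h, Perm.mul_apply, swap_apply_of_ne_of_ne (p02 hp) (p03 hp), h0]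
    · rw [h, Perm.mul_apply, swap_apply_of_ne_of_ne (p12 hp) (p13 hp), h1]

theorem even_triple {i j k : ι} (hij : i ≠ j) (hik : i ≠ k) (hjk : j ≠ k) :
    ∃ γ : alternatingGroup ι, (γ : Perm ι) (p 2) = k ∧
      (((γ : Perm ι) (p 0) = i ∧ (γ : Perm ι) (p 1) = j) ∨ ((γ : Perm ι) (p 0) = j ∧ (γ : Perm ι) (p 1) = i)) := by
  obtain ⟨σ, hσ⟩ := exists_perm ![p 0, p 1, p 2] ![i, j, k] (inj3 (p01 hp) (p02 hp) (p12 hp)) (inj3 hij hik hjk)
  have h0 : σ (p 0) = i := hσ 0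
  have h1 : σ (p 1) = j := hσ 1
  have h2 : σ (p 2) = k := hσ 2
  obtain ⟨γ, h | h⟩ := mk_even σ (p01 hp)
  · exact ⟨γ, by rw [h, h2], Or.inl ⟨by rw [h, h0], by rw [h, h1]⟩⟩
  · refine ⟨γ, ?_, Or.inr ⟨?_, ?_⟩⟩
    · rw [h, Perm.mul_apply, swap_apply_of_ne_of_ne (p02 hp).symm (p12 hp).symm, h2]
    · rw [h, Perm.mul_apply, swap_apply_left, h1]
    · rw [h, Perm.mul_apply, swap_apply_right, h0]

theorem stab_quad {k l : ι} (hk0 : k ≠ p 0) (hk1 : k ≠ p 1) (hl0 : l ≠ p 0) (hl1 : l ≠ p 1) (hkl : k ≠ l) :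
    ∃ γ : alternatingGroup ι, (γ : Perm ι) (p 0) = p 0 ∧ (γ : Perm ι) (p 1) = p 1 ∧
      (((γ : Perm ι) (p 2) = k ∧ (γ : Perm ι) (p 3) = l) ∨ ((γ : Perm ι) (p 2) = l ∧ (γ : Perm ι) (p 3) = k)) := by
  obtain ⟨σ, hσ⟩ := exists_perm p ![p 0, p 1, k, l] hp
    (inj4 (p01 hp) hk0.symm hk1.symm hl0.symm hl1.symm hkl)
  have h0 : σ (p 0) = p 0 := hσ 0
  have h1 : σ (p 1) = p 1 := hσ 1
  have h2 : σ (p 2) = k := hσ 2
  have h3 : σ (p 3) = l := hσ 3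
  obtain ⟨γ, h | h⟩ := mk_even σ (p23 hp)
  · exact ⟨γ, by rw [h, h0], by rw [h, h1], Or.inl ⟨by rw [h, h2], by rw [h, h3]⟩⟩
  · refine ⟨γ, ?_, ?_, Or.inr ⟨?_, ?_⟩⟩
    · rw [h, Perm.mul_apply, swap_apply_of_ne_of_ne (p02 hp) (p03 hp), h0]
    · rw [h, Perm.mul_apply, swap_apply_of_ne_of_ne (p12 hp) (p13 hp), h1]
    · rw [h, Perm.mul_apply, swap_apply_left, h3]
    · rw [h, Perm.mul_apply, swap_apply_right, h2]

omit hp in
theorem exists_not_mem (s : Finset ι) (h : s.card < Fintype.card ι) : ∃ a, a ∉ s := by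
  by_contra hc
  push Not at hc
  have : s = Finset.univ := Finset.eq_univ_iff_forall.2 hc
  rw [this, Finset.card_univ] at h
  omega

theorem stab_one (h5 : 5 ≤ Fintype.card ι) {k : ι} (hk0 : k ≠ p 0) (hk1 : k ≠ p 1) :
    ∃ γ : alternatingGroup ι, (γ : Perm ι) (p 0) = p 0 ∧ (γ : Perm ι) (p 1) = p 1 ∧ (γ : Perm ι) (p 2) = k := by
  obtain ⟨σ, hσ⟩ := exists_perm ![p 0, p 1, p 2] ![p 0, p 1, k] (inj3 (p01 hp) (p02 hp) (p12 hp))
    (inj3 (p01 hp) hk0.symm hk1.symm)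
  have h0 : σ (p 0) = p 0 := hσ 0
  have h1 : σ (p 1) = p 1 := hσ 1
  have h2 : σ (p 2) = k := hσ 2
  obtain ⟨a, ha⟩ := exists_not_mem {p 0, p 1, p 2, p 3} (lt_of_le_of_lt Finset.card_le_four h5)
  simp only [Finset.mem_insert, Finset.mem_singleton, not_or] at ha
  obtain ⟨γ, h | h⟩ := mk_even σ (a := p 3) (b := a) (Ne.symm ha.2.2.2)
  · exact ⟨γ, by rw [h, h0], by rw [h, h1], by rw [h, h2]⟩
  · refine ⟨γ, ?_, ?_, ?_⟩
    · rw [h, Perm.mul_apply, swap_apply_of_ne_of_ne (p03 hp) (Ne.symm ha.1), h0]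
    · rw [h, Perm.mul_apply, swap_apply_of_ne_of_ne (p13 hp) (Ne.symm ha.2.1), h1]
    · rw [h, Perm.mul_apply, swap_apply_of_ne_of_ne (p23 hp) (Ne.symm ha.2.2.1), h2]

theorem stab_two (h6 : 6 ≤ Fintype.card ι) {k l : ι} (hk0 : k ≠ p 0) (hk1 : k ≠ p 1) (hl0 : l ≠ p 0)
    (hl1 : l ≠ p 1) (hkl : k ≠ l) :
    ∃ γ : alternatingGroup ι, (γ : Perm ι) (p 0) = p 0 ∧ (γ : Perm ι) (p 1) = p 1 ∧
      (γ : Perm ι) (p 2) = k ∧ (γ : Perm ι) (p 3) = l := by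
  obtain ⟨σ, hσ⟩ := exists_perm p ![p 0, p 1, k, l] hp
    (inj4 (p01 hp) hk0.symm hk1.symm hl0.symm hl1.symm hkl)
  have h0 : σ (p 0) = p 0 := hσ 0
  have h1 : σ (p 1) = p 1 := hσ 1
  have h2 : σ (p 2) = k := hσ 2
  have h3 : σ (p 3) = l := hσ 3
  obtain ⟨a, ha⟩ := exists_not_mem {p 0, p 1, p 2, p 3} (lt_of_le_of_lt Finset.card_le_four (by omega))
  obtain ⟨b, hb⟩ := exists_not_mem {p 0, p 1, p 2, p 3, a} (lt_of_le_of_lt Finset.card_le_five h6)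
  simp only [Finset.mem_insert, Finset.mem_singleton, not_or] at ha hb
  obtain ⟨γ, h | h⟩ := mk_even σ (a := a) (b := b) (Ne.symm hb.2.2.2.2)
  · exact ⟨γ, by rw [h, h0], by rw [h, h1], by rw [h, h2], by rw [h, h3]⟩
  · refine ⟨γ, ?_, ?_, ?_, ?_⟩
    · rw [h, Perm.mul_apply, swap_apply_of_ne_of_ne (Ne.symm ha.1) (Ne.symm hb.1), h0]
    · rw [h, Perm.mul_apply, swap_apply_of_ne_of_ne (Ne.symm ha.2.1) (Ne.symm hb.2.1), h1]
    · rw [h, Perm.mul_apply, swap_apply_of_ne_of_ne (Ne.symm ha.2.2.1) (Ne.symm hb.2.2.1), h2]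
    · rw [h, Perm.mul_apply, swap_apply_of_ne_of_ne (Ne.symm ha.2.2.2) (Ne.symm hb.2.2.2.1), h3]

omit hp in
/-- a subgroup of the alternating group stable under conjugation of the three-cycle `c` by the alternating group is
everything -/
theorem top_of_three (hp : Function.Injective p) (c : alternatingGroup ι)
    (hc : (c : Perm ι) = swap (p 0) (p 1) * swap (p 1) (p 2)) (T : Subgroup (alternatingGroup ι))
    (hT : ∀ γ : alternatingGroup ι, γ * c * γ⁻¹ ∈ T) : T = ⊤ := by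
  have h3 : IsThreeCycle (c : Perm ι) := by
    rw [hc, swap_comm (p 0) (p 1)]
    exact isThreeCycle_swap_mul_swap_same (p01 hp).symm (p12 hp) (p02 hp)
  have hrev : swap (p 0) (p 2) * (c : Perm ι) * (swap (p 0) (p 2))⁻¹ = (c : Perm ι)⁻¹ := by
    have e1 : swap (p 0) (p 2) * (swap (p 0) (p 1) * swap (p 1) (p 2)) * (swap (p 0) (p 2))⁻¹ =
        (swap (p 0) (p 2) * swap (p 0) (p 1) * (swap (p 0) (p 2))⁻¹) *
        (swap (p 0) (p 2) * swap (p 1) (p 2) * (swap (p 0) (p 2))⁻¹) := by group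
    have e2 : ∀ a b : ι, swap (p 0) (p 2) * swap a b * (swap (p 0) (p 2))⁻¹ =
        swap (swap (p 0) (p 2) a) (swap (p 0) (p 2) b) := fun a b => by
      rw [swap_apply_apply]
    rw [hc, e1, e2, e2, swap_apply_left, swap_apply_right, swap_apply_of_ne_of_ne (p01 hp).symm (p12 hp),
      mul_inv_rev, swap_inv, swap_inv, swap_comm (p 2) (p 1), swap_comm (p 1) (p 0)]
  have key : (alternatingGroup ι) ≤ T.map (alternatingGroup ι).subtype := by
    refine (le_of_eq closure_three_cycles_eq_alternating.symm).trans ?_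
    rw [Subgroup.closure_le]
    intro σ hσ
    have hσ' : IsThreeCycle σ := hσ
    obtain ⟨τ, hτ⟩ := isConj_iff.1 ((isConj_iff_cycleType_eq).2 (h3.trans hσ'.symm))
    rcases Int.units_eq_one_or (sign τ) with h | h
    · refine ⟨_, hT ⟨τ, h⟩, ?_⟩
      exact hτ
    · have he : sign (τ * swap (p 0) (p 2)) = 1 := by rw [Perm.sign_mul, h, sign_swap (p02 hp)]; rfl
      refine ⟨_, inv_mem (hT ⟨τ * swap (p 0) (p 2), he⟩), ?_⟩
      change ((τ * swap (p 0) (p 2)) * (c : Perm ι) * (τ * swap (p 0) (p 2))⁻¹)⁻¹ = σ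
      rw [← hτ]
      calc ((τ * swap (p 0) (p 2)) * (c : Perm ι) * (τ * swap (p 0) (p 2))⁻¹)⁻¹ =
          (τ * (swap (p 0) (p 2) * (c : Perm ι) * (swap (p 0) (p 2))⁻¹) * τ⁻¹)⁻¹ := by group
        _ = _ := by rw [hrev]; group
  rw [eq_top_iff]
  intro γ _
  obtain ⟨γ', h1, h2⟩ := key γ.2
  have : γ' = γ := Subtype.ext h2
  rw [← this]
  exact h1

end Cfsg.Agent.H109.SLn
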