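import Mathlib
import Cfsg.Agent.H109.SLnB

/-!
# `SLₙ(F)`: the matrices and the homomorphism (helper109)
-/

set_option autoImplicit false
set_option linter.unusedSectionVars false
set_option linter.unusedSimpArgs false

namespace Cfsg.Agent.H109.SLn

open scoped commutatorElement
open Cfsg.Agent.Lib Cfsg.Agent.AGraded Cfsg.Agent.CTFrame.Weyl Cfsg.Agent.CTFrame.Torus
open Cfsg.Agent.LieClassical.SLGen
open Matrix (SpecialLinearGroup)
open Equiv Equiv.Perm

variable {ι : Type*} [Fintype ι] [DecidableEq ι] {p : Fin 4 → ι} (hp : Function.Injective p)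
variable (F : Type*) [Field F]

/-- permutation matrices -/
def r0 : alternatingGroup ι →* SpecialLinearGroup ι F where
  toFun γ := ⟨(Matrix.permMatrixHom : Perm ι →* Matrix ι ι F) (γ : Perm ι), by
    change (((γ : Perm ι)⁻¹).permMatrix F).det = 1
    rw [Matrix.det_permutation, sign_inv, mem_alternatingGroup.1 γ.2]
    simp⟩
  map_one' := Subtype.ext (by
    change (Matrix.permMatrixHom : Perm ι →* Matrix ι ι F) (1 : Perm ι) = 1
    exact map_one _)
  map_mul' a b := Subtype.ext (by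
    change (Matrix.permMatrixHom : Perm ι →* Matrix ι ι F) ((a : Perm ι) * (b : Perm ι)) = _ * _
    exact map_mul _ _ _)

variable {F}

theorem r0_smul (γ : alternatingGroup ι) (v : ι → F) (k : ι) :
    (r0 F γ • v) k = v ((γ : Perm ι)⁻¹ k) := by
  rw [Matrix.SpecialLinearGroup.smul_def]
  change (((γ : Perm ι)⁻¹).permMatrix F).mulVec v k = _
  rw [Matrix.permMatrix_mulVec]
  rfl

theorem tv_smul {i j : ι} (hij : i ≠ j) (a : F) (v : ι → F) (k : ι) :
    (SpecialLinearGroup.transvection hij a • v) k = if k = i then v i + a * v j else v k := by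
  rw [transvection_smul]
  by_cases hk : k = i
  · subst hk
    simp
  · simp [hk]

theorem r0_conj (γ : alternatingGroup ι) {i j : ι} (hij : i ≠ j) (hij' : (γ : Perm ι) i ≠ (γ : Perm ι) j) (a : F) :
    r0 F γ * SpecialLinearGroup.transvection hij a * (r0 F γ)⁻¹ = SpecialLinearGroup.transvection hij' a := by
  rw [mul_inv_eq_iff_eq_mul]
  apply smul_ext
  intro v
  funext k
  rw [mul_smul, mul_smul, r0_smul, tv_smul, tv_smul, r0_smul, r0_smul, r0_smul]
  by_cases hk : k = (γ : Perm ι) i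
  · subst hk
    simp
  · have : (γ : Perm ι)⁻¹ k ≠ i := fun e => hk (by rw [← e]; simp)
    rw [if_neg hk, if_neg this]

/-- the root group -/
def x0 (t : F) : SpecialLinearGroup ι F := SpecialLinearGroup.transvection (p01 hp) t

theorem X0_eq {i j : ι} (hij : i ≠ j) (t : F) :
    XX hp (r0 F) (x0 hp) i j t = SpecialLinearGroup.transvection hij t := by
  unfold XX cj x0
  rw [r0_conj _ (p01 hp) (by rw [sg_zero hp hij, sg_one hp hij]; exact hij)]
  congr 1
  · exact sg_zero hp hij
  · exact sg_one hp hij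

/-- the torus element -/
noncomputable def h0 (ζ : Fˣ) : SpecialLinearGroup ι F := t (XX hp (r0 F) (x0 hp)) (p 0) (p 1) (ζ : F)

theorem phi0 : ∀ i j (hij : i ≠ j) a, MonoidHom.id (SpecialLinearGroup ι F) (XX hp (r0 F) (x0 hp) i j a) =
    SpecialLinearGroup.transvection hij a := fun _ _ hij a => X0_eq hp hij a

theorem h0_smul (ζ : Fˣ) (v : ι → F) (k : ι) : (h0 hp ζ • v) k = df (p 0) (p 1) (ζ : F) k * v k :=
  phi_t (phi0 hp) (p01 hp) ζ.ne_zero v k

theorem w0_smul {i j : ι} (hij : i ≠ j) {u : F} (hu : u ≠ 0) (v : ι → F) (k : ι) :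
    (w (XX hp (r0 F) (x0 hp)) i j u • v) k = if k = i then u * v j else if k = j then -u⁻¹ * v i else v k :=
  phi_w (phi0 hp) hij hu v k

theorem cj0_smul (ζ : Fˣ) {i j : ι} (hij : i ≠ j) (v : ι → F) (k : ι) :
    (cj hp (r0 F) (h0 hp ζ) i j • v) k = df i j (ζ : F) k * v k := by
  unfold cj
  rw [← map_inv, mul_smul, mul_smul, r0_smul, h0_smul, r0_smul]
  have e : ((sg hp i j)⁻¹ : alternatingGroup ι) = ((sg hp i j)⁻¹ : alternatingGroup ι) := rfl
  have e1 : (((sg hp i j)⁻¹ : alternatingGroup ι) : Perm ι) = (sg hp i j : Perm ι)⁻¹ := rfl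
  rw [e1, inv_inv]
  have e2 : (sg hp i j : Perm ι) ((sg hp i j : Perm ι)⁻¹ k) = k := by simp
  rw [e2]
  congr 1
  unfold df
  have a1 : (sg hp i j : Perm ι)⁻¹ k = p 0 ↔ k = i := by
    rw [Perm.inv_eq_iff_eq, sg_zero hp hij]
  have a2 : (sg hp i j : Perm ι)⁻¹ k = p 1 ↔ k = j := by
    rw [Perm.inv_eq_iff_eq, sg_one hp hij]
  simp only [a1, a2]

theorem act0 (ζ : Fˣ) {k l : ι} (hkl : k ≠ l) : Act (cj hp (r0 F) (h0 hp ζ) k l) (x0 hp)
    (df k l (ζ : F) (p 0) * (df k l (ζ : F) (p 1))⁻¹) := by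
  intro t
  rw [mul_inv_eq_iff_eq_mul]
  apply smul_ext
  intro v
  funext m
  rw [mul_smul, mul_smul, cj0_smul hp ζ hkl, x0, x0, tv_smul, tv_smul, cj0_smul hp ζ hkl, cj0_smul hp ζ hkl,
    cj0_smul hp ζ hkl]
  by_cases hm : m = p 0
  · subst hm
    simp only [if_true]
    have := df_ne (i := k) (j := l) ζ.ne_zero (p 1)
    field_simp
  · simp [hm]

theorem x0_add (s t : F) : x0 hp (s + t) = x0 hp s * x0 hp t := by
  apply smul_ext
  intro v
  funext m
  rw [mul_smul, x0, x0, x0]
  simp only [tv_smul]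
  by_cases hm : m = p 0
  · subst hm
    simp only [if_true, (p01 hp).symm, if_false]
    ring
  · simp [hm]

/-- the data of the matrices -/
theorem dat0 (ζ : Fˣ) : Dat hp (r0 F) (x0 hp) (h0 hp ζ) ζ := by
  have hx : ∀ γ : alternatingGroup ι, (γ : Perm ι) (p 0) = p 0 → (γ : Perm ι) (p 1) = p 1 →
      ∀ t : F, Commute (r0 F γ) (x0 hp t) := by
    intro γ g0 g1 t
    apply smul_ext
    intro v
    funext m
    rw [mul_smul, mul_smul, r0_smul, x0, tv_smul, tv_smul, r0_smul, r0_smul, r0_smul]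
    have a0 : (γ : Perm ι)⁻¹ (p 0) = p 0 := by rw [Perm.inv_eq_iff_eq, g0]
    have a1 : (γ : Perm ι)⁻¹ (p 1) = p 1 := by rw [Perm.inv_eq_iff_eq, g1]
    have a2 : (γ : Perm ι)⁻¹ m = p 0 ↔ m = p 0 := by rw [Perm.inv_eq_iff_eq, g0]
    rw [a0, a1]
    simp only [a2]
  have hh : ∀ γ : alternatingGroup ι, (γ : Perm ι) (p 0) = p 0 → (γ : Perm ι) (p 1) = p 1 →
      Commute (r0 F γ) (h0 hp ζ) := by
    intro γ g0 g1
    apply smul_ext
    intro v
    funext m
    rw [mul_smul, mul_smul, r0_smul, h0_smul, h0_smul, r0_smul]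
    have a1 : (γ : Perm ι)⁻¹ m = p 1 ↔ m = p 1 := by rw [Perm.inv_eq_iff_eq, g1]
    have a2 : (γ : Perm ι)⁻¹ m = p 0 ↔ m = p 0 := by rw [Perm.inv_eq_iff_eq, g0]
    unfold df
    simp only [a1, a2]
  have hb : cj hp (r0 F) (h0 hp ζ) (p 0) (p 1) = h0 hp ζ := cj_base hp hh
  have hz := ζ.ne_zero
  exact
  { add := x0_add hp
    stx := hx
    sth := hh
    act := by
      have := act0 hp ζ (p01 hp)
      rw [hb] at this
      refine this.congr rfl (fun _ => rfl) ?_
      simp [df, (p01 hp).symm]; ring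
    B := by
      intro k h0 h1
      refine (act0 hp ζ h1.symm).congr rfl (fun _ => rfl) ?_
      simp [df, p01 hp, Ne.symm h0]
    T1 := by
      rw [eq_inv_iff_mul_eq_one]
      apply smul_ext
      intro v
      funext m
      rw [mul_smul, cj0_smul hp ζ (p01 hp).symm, h0_smul, one_smul, ← mul_assoc]
      unfold df
      by_cases h0 : m = p 0
      · subst h0; simp [p01 hp, hz]
      · by_cases h1 : m = p 1
        · subst h1; simp [h0, hz]
        · simp [h0, h1]
    T2 := by
      apply smul_ext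
      intro v
      funext m
      rw [mul_smul, mul_smul, h0_smul, cj0_smul hp ζ (p12 hp), cj0_smul hp ζ (p02 hp).symm, one_smul]
      unfold df
      by_cases h0 : m = p 0
      · subst h0; simp [p01 hp, p02 hp, hz]
      · by_cases h1 : m = p 1
        · subst h1; simp [h0, hz, p12 hp]
        · by_cases h2 : m = p 2
          · subst h2; simp [h0, h1, hz]
          · simp [h0, h1, h2]
    hg := by
      apply smul_ext
      intro v
      funext m
      rw [mul_smul, mul_smul, h0_smul, cj0_smul hp ζ (p12 hp), cj0_smul hp ζ (p12 hp), h0_smul]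
      ring
    C := by
      intro k h0 h1
      have e : x0 hp (1 : F) = SpecialLinearGroup.transvection (p01 hp) 1 := rfl
      rw [X0_eq hp (Ne.symm h1), X0_eq hp (Ne.symm h0), e, commutator_transvection (Ne.symm h0) (p01 hp) (Ne.symm h1),
        one_mul]
    D := by
      intro k l hk0 hk1 hl0 hl1 hkl
      rw [X0_eq hp hkl]
      apply smul_ext
      intro v
      funext m
      rw [mul_smul, mul_smul, x0]
      simp only [tv_smul]
      by_cases h0 : m = p 0
      · subst h0; simp [Ne.symm hk0, Ne.symm hk1]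
      · by_cases h1 : m = k
        · subst h1; simp [h0, hl0]
        · simp [h0, h1]
    H := rfl
    Id := by
      rw [← mul_inv_rev, eq_inv_iff_mul_eq_one, ← mul_eq_one_comm]
      apply smul_ext
      intro v
      funext m
      have h1F : (1 : F) ≠ 0 := one_ne_zero
      have a01 := p01 hp
      have a02 := p02 hp
      have a12 := p12 hp
      have c0 : (cyc hp : Perm ι)⁻¹ (p 0) = p 2 := by
        rw [Perm.inv_eq_iff_eq]
        change p 0 = swap (p 0) (p 1) (swap (p 1) (p 2) (p 2))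
        rw [swap_apply_right, swap_apply_right]
      have c1 : (cyc hp : Perm ι)⁻¹ (p 1) = p 0 := by
        rw [Perm.inv_eq_iff_eq]
        change p 1 = swap (p 0) (p 1) (swap (p 1) (p 2) (p 0))
        rw [swap_apply_of_ne_of_ne a01 a02, swap_apply_left]
      have c2 : (cyc hp : Perm ι)⁻¹ (p 2) = p 1 := by
        rw [Perm.inv_eq_iff_eq]
        change p 2 = swap (p 0) (p 1) (swap (p 1) (p 2) (p 1))
        rw [swap_apply_left, swap_apply_of_ne_of_ne a02.symm a12.symm]
      rw [mul_smul, mul_smul, one_smul]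
      simp only [w0_smul hp (p12 hp) h1F, w0_smul hp (p01 hp) h1F, r0_smul]
      by_cases h0 : m = p 0
      · subst h0; simp [a01, a02, a12, a01.symm, c1]
      · by_cases h1 : m = p 1
        · subst h1; simp [h0, a02.symm, a12.symm, c2]
        · by_cases h2 : m = p 2
          · subst h2; simp [h0, h1, a01.symm, c0]
          · have c3 : (cyc hp : Perm ι)⁻¹ m = m := by
              rw [Perm.inv_eq_iff_eq]
              change m = swap (p 0) (p 1) (swap (p 1) (p 2) m)
              rw [swap_apply_of_ne_of_ne h1 h2, swap_apply_of_ne_of_ne h0 h1]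
            simp [h0, h1, h2, c3] }

section hom

variable {J : Type*} [Group J] {ρ : alternatingGroup ι →* J} {x : F → J} {h : J} {ζ : Fˣ}

/-- **the homomorphism** -/
theorem Dat.exists_hom [Fintype F] {hp : Function.Injective p} (d : Dat hp ρ x h ζ) (hι : 4 ≤ Fintype.card ι)
    (hζ : ∀ y, y ∈ Subgroup.zpowers ζ) :
    ∃ π : SpecialLinearGroup ι F →* J, (∀ γ, π (r0 F γ) = ρ γ) ∧ (∀ t, π (x0 hp t) = x t) ∧ π (h0 hp ζ) = h := by
  obtain ⟨π, hπ, -, -⟩ := CTFrame.Hom.exists_hom (d.stein hι hζ) (d.hrel hι hζ) (by omega)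
  have d0 := dat0 hp (F := F) ζ
  have hX : ∀ {i j : ι} (_ : i ≠ j) t, π (XX hp (r0 F) (x0 hp) i j t) = XX hp ρ x i j t := by
    intro i j hij t
    rw [X0_eq hp hij, hπ]
  have hW : ∀ {i j : ι} (_ : i ≠ j) u, π (w (XX hp (r0 F) (x0 hp)) i j u) = w (XX hp ρ x) i j u := by
    intro i j hij u
    unfold w
    rw [map_mul, map_mul, hX hij, hX hij.symm]
  have hT : ∀ {i j : ι} (_ : i ≠ j) u, π (t (XX hp (r0 F) (x0 hp)) i j u) = t (XX hp ρ x) i j u := by
    intro i j hij u
    unfold t
    rw [map_mul, hW hij, hW hij]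
  refine ⟨π, ?_, ?_, ?_⟩
  · have htop := top_of_three hp (cyc hp) rfl ((π.comp (r0 F)).eqLocus ρ) (by
      intro γ
      change π (r0 F (γ * cyc hp * γ⁻¹)) = ρ (γ * cyc hp * γ⁻¹)
      have e1 : (γ : Perm ι) (p 0) ≠ (γ : Perm ι) (p 1) := fun e => p01 hp ((γ : Perm ι).injective e)
      have e2 : (γ : Perm ι) (p 1) ≠ (γ : Perm ι) (p 2) := fun e => p12 hp ((γ : Perm ι).injective e)
      rw [d.conj_cyc, d0.conj_cyc, map_mul, map_inv, map_inv, hW e1, hW e2])
    intro γ
    have : γ ∈ (π.comp (r0 F)).eqLocus ρ := by rw [htop]; trivial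
    exact this
  · intro t
    have := hX (p01 hp) t
    rwa [d0.X01, d.X01] at this
  · rw [h0, hT (p01 hp), ← d.H]

end hom

end Cfsg.Agent.H109.SLn
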