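import Mathlib
import Cfsg.Agent.H109.URelTwo

/-!
# Few relations for a root group under an element acting as a generator of the units (helper109)
-/

set_option autoImplicit false

universe v

namespace Cfsg.Agent.H109

open Polynomial

variable {F : Type v} [Field F] [Fintype F]

theorem URelS.mono {γ : F} {m m' : ℕ} (h : URelS γ m) (hm : m ≤ m') : URelS γ m' := by
  obtain ⟨R, h1, h2⟩ := h
  exact ⟨R, h1.trans hm, h2⟩

/-- a generator of the units, all finite fields: four relators -/
theorem uRelS_gen {ζ : Fˣ} (hζ : ∀ y, y ∈ Subgroup.zpowers ζ) : URelS (ζ : F) 4 := by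
  classical
  obtain ⟨p, hch⟩ := CharP.exists F
  have hpp : p.Prime := (CharP.char_is_prime_or_zero F p).resolve_right (CharP.char_ne_zero_of_finite F p)
  have : Fact p.Prime := ⟨hpp⟩
  let _ : Algebra (ZMod p) F := ZMod.algebra F p
  have hcp : ((p : ℕ) : F) = 0 := CharP.cast_eq_zero F p
  have hα := adjoin_eq_top (p := p) hζ
  by_cases h2 : (2 : F) = 0
  · -- characteristic two
    obtain ⟨-, hh⟩ := sq_pow_half hζ h2
    have hg : ∀ y, y ∈ Subgroup.zpowers (ζ ^ (Fintype.card F / 2)) := by
      intro y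
      obtain ⟨i, rfl⟩ := hζ y
      refine ⟨2 * i, ?_⟩
      change (ζ ^ (Fintype.card F / 2)) ^ (2 * i) = ζ ^ i
      rw [zpow_mul]
      congr 1
      rw [← pow_mul] at hh
      rw [zpow_ofNat, ← pow_mul, mul_comm]
      exact hh
    have := uRelS_two hg h2
    have e : (((ζ ^ (Fintype.card F / 2) : Fˣ) : F)) ^ 2 = (ζ : F) := by
      rw [← Units.val_pow_eq_pow_val, ← pow_mul, mul_comm, pow_mul, hh]
    rw [e] at this
    exact this.mono (by norm_num)
  by_cases h3 : (ζ : F) = -1
  · -- three elements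
    have hp2 : p ≠ 2 := by
      rintro rfl
      exact h2 (by exact_mod_cast hcp)
    have hu : ζ ^ 2 = 1 := Units.ext (by rw [Units.val_pow_eq_pow_val, h3]; simp)
    have ho := order_gen hζ
    have hd := orderOf_dvd_of_pow_eq_one hu
    rw [ho] at hd
    have hle := Nat.le_of_dvd (by norm_num) hd
    have hp3 : p = 3 := by
      have hcard : Fintype.card F ≤ 3 := by omega
      obtain ⟨n, hn, hc⟩ := FiniteField.card F p
      have h4 : p ^ 1 ≤ p ^ (n : ℕ) := Nat.pow_le_pow_right hpp.pos n.pos
      rw [pow_one] at h4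
      have h1 := hpp.two_le
      omega
    subst hp3
    refine ⟨[FreeGroup.of 0 ^ 3, FreeGroup.of 1 * FreeGroup.of 0 * (FreeGroup.of 1)⁻¹ * FreeGroup.of 0,
      pw (FreeGroup.of 1) (FreeGroup.of 0) (lst (minpoly (ZMod 3) (ζ : F)))], by simp, ?_, ?_⟩
    · intro G _ x h hx hh r hr
      simp only [List.mem_cons, List.not_mem_nil, or_false] at hr
      rcases hr with rfl | rfl | rfl
      · simp only [map_pow, FreeGroup.lift_apply_of, Matrix.cons_val_zero]
        rw [x_pow hx, hcp, zero_mul, x_zero hx]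
      · simp only [map_mul, map_inv, FreeGroup.lift_apply_of, Matrix.cons_val_zero, Matrix.cons_val_one,
          Matrix.cons_val_fin_one]
        rw [hh, h3, ← hx]
        simp [x_zero hx]
      · simp only [lift_pw, FreeGroup.lift_apply_of, Matrix.cons_val_zero, Matrix.cons_val_one,
          Matrix.cons_val_fin_one]
        rw [pw_root hx hh, ev_lst, minpoly.aeval, zero_mul, x_zero hx]
    · intro J _ u h hr
      have r1 := hr _ (List.mem_cons_self)
      have r2 := hr _ (List.mem_cons_of_mem _ (List.mem_cons_self))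
      have r3 := hr _ (List.mem_cons_of_mem _ (List.mem_cons_of_mem _ (List.mem_cons_self)))
      simp only [map_mul, map_pow, map_inv, FreeGroup.lift_apply_of, Matrix.cons_val_zero, Matrix.cons_val_one,
          Matrix.cons_val_fin_one, lift_pw] at r1 r2 r3
      have e1 : h * u * h⁻¹ = u⁻¹ := eq_inv_of_mul_eq_one_left r2
      have hnat : ∀ n : ℕ, h ^ n * u * (h ^ n)⁻¹ = u ∨ h ^ n * u * (h ^ n)⁻¹ = u⁻¹ := by
        intro n
        induction n with
        | zero => simp
        | succ n ih =>
          have e : h ^ (n + 1) * u * (h ^ (n + 1))⁻¹ = h * (h ^ n * u * (h ^ n)⁻¹) * h⁻¹ := by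
            rw [pow_succ']; group
          rcases ih with h1 | h1
          · right; rw [e, h1, e1]
          · left; rw [e, h1]
            calc h * u⁻¹ * h⁻¹ = (h * u * h⁻¹)⁻¹ := by group
              _ = u := by rw [e1, inv_inv]
      have hint : ∀ n : ℤ, h ^ n * u * (h ^ n)⁻¹ = u ∨ h ^ n * u * (h ^ n)⁻¹ = u⁻¹ := by
        intro n
        obtain ⟨m, rfl | rfl⟩ := n.eq_nat_or_neg
        · rw [zpow_natCast]; exact hnat m
        · rw [zpow_neg, zpow_natCast, inv_inv]
          have e : (h ^ m)⁻¹ * (h ^ m * u * (h ^ m)⁻¹) * h ^ m = u := by group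
          rcases hnat m with h1 | h1
          · left; rw [h1] at e; exact e
          · right
            rw [h1] at e
            calc (h ^ m)⁻¹ * u * h ^ m = ((h ^ m)⁻¹ * u⁻¹ * h ^ m)⁻¹ := by group
              _ = u⁻¹ := by rw [e]
      have hcc : ∀ i j : ℤ, Commute (h ^ i * u * (h ^ i)⁻¹) (h ^ j * u * (h ^ j)⁻¹) := by
        intro i j
        rcases hint i with e | e <;> rcases hint j with e' | e' <;> rw [e, e'] <;>
          first
          | exact Commute.refl _
          | exact (Commute.refl _).inv_right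
          | exact (Commute.refl _).inv_left
      obtain ⟨x, h1, h2, h3, h4⟩ := exists_x_self (p := 3) (F := F) r1 hcc hα r3
      exact ⟨x, h1, h2, h3, fun t => cu_le_closure h u h (Subgroup.subset_closure (by simp)) (h4 t)⟩
  · -- the general case
    have h1γ : 1 + (ζ : F) ≠ 0 := by
      intro h
      exact h3 (eq_neg_of_add_eq_zero_right h)
    obtain ⟨l, hl⟩ : ∃ k : ℕ, (ζ : F) ^ k = 1 + (ζ : F) := by
      obtain ⟨k, hk⟩ := (mem_powers_iff_mem_zpowers).2 (hζ (Units.mk0 _ h1γ))
      refine ⟨k, ?_⟩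
      have := congrArg Units.val hk
      simpa using this
    refine ⟨[FreeGroup.of 0 ^ p,
      FreeGroup.of 0 * (FreeGroup.of 1 * FreeGroup.of 0 * (FreeGroup.of 1)⁻¹) *
        (FreeGroup.of 1 ^ l * FreeGroup.of 0 * (FreeGroup.of 1 ^ l)⁻¹)⁻¹,
      (FreeGroup.of 1 * FreeGroup.of 0 * (FreeGroup.of 1)⁻¹) * FreeGroup.of 0 *
        (FreeGroup.of 1 ^ l * FreeGroup.of 0 * (FreeGroup.of 1 ^ l)⁻¹)⁻¹,
      pw (FreeGroup.of 1) (FreeGroup.of 0) (lst (minpoly (ZMod p) (ζ : F)))], by simp, ?_, ?_⟩
    · intro G _ x h hx hh r hr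
      simp only [List.mem_cons, List.not_mem_nil, or_false] at hr
      rcases hr with rfl | rfl | rfl | rfl
      · simp only [map_pow, FreeGroup.lift_apply_of, Matrix.cons_val_zero]
        rw [x_pow hx, hcp, zero_mul, x_zero hx]
      · simp only [map_mul, map_pow, map_inv, FreeGroup.lift_apply_of, Matrix.cons_val_zero, Matrix.cons_val_one,
          Matrix.cons_val_fin_one]
        rw [x_conj_pow hh, hh, ← hx, mul_inv_eq_one]
        congr 1
        rw [hl]; ring
      · simp only [map_mul, map_pow, map_inv, FreeGroup.lift_apply_of, Matrix.cons_val_zero, Matrix.cons_val_one,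
          Matrix.cons_val_fin_one]
        rw [x_conj_pow hh, hh, ← hx, mul_inv_eq_one]
        congr 1
        rw [hl]; ring
      · simp only [lift_pw, FreeGroup.lift_apply_of, Matrix.cons_val_zero, Matrix.cons_val_one,
          Matrix.cons_val_fin_one]
        rw [pw_root hx hh, ev_lst, minpoly.aeval, zero_mul, x_zero hx]
    · intro J _ u h hr
      have r1 := hr _ (List.mem_cons_self)
      have r2 := hr _ (List.mem_cons_of_mem _ (List.mem_cons_self))
      have r3 := hr _ (List.mem_cons_of_mem _ (List.mem_cons_of_mem _ (List.mem_cons_self)))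
      have r4 := hr _ (List.mem_cons_of_mem _ (List.mem_cons_of_mem _ (List.mem_cons_of_mem _ (List.mem_cons_self))))
      simp only [map_mul, map_pow, map_inv, FreeGroup.lift_apply_of, Matrix.cons_val_zero, Matrix.cons_val_one,
          Matrix.cons_val_fin_one, lift_pw] at r1 r2 r3 r4
      obtain ⟨x, h1, h2, h3, h4⟩ := exists_x_self (p := p) (F := F) r1
        (comm_of_trinomial ((Commute.refl h).pow_right l) (mul_inv_eq_one.1 r2) (mul_inv_eq_one.1 r3)) hα r4
      exact ⟨x, h1, h2, h3, fun t => cu_le_closure h u h (Subgroup.subset_closure (by simp)) (h4 t)⟩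

end Cfsg.Agent.H109
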