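import Mathlib
import Cfsg.Agent.H109.SLnC
import Cfsg.Agent.H109.URelGen

/-!
# `SLₙ(F)`: the relators (helper109)
-/

set_option autoImplicit false
set_option linter.unusedSectionVars false
set_option linter.unusedSimpArgs false

universe v

namespace Cfsg.Agent.H109.SLn

open scoped commutatorElement
open Cfsg.Agent.Lib Cfsg.Agent.AGraded Cfsg.Agent.CTFrame.Weyl Cfsg.Agent.CTFrame.Torus
open Cfsg.Agent.LieClassical.SLGen
open Matrix (SpecialLinearGroup)
open Equiv Equiv.Perm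

theorem exists_lt {F : Type*} [Field F] [Fintype F] {ζ : Fˣ} (hζ : ∀ y, y ∈ Subgroup.zpowers ζ) (t : F) :
    ∃ l : List ℤ, ev (ζ : F) l = t := by
  obtain ⟨p, hch⟩ := CharP.exists F
  have hpp : p.Prime := (CharP.char_is_prime_or_zero F p).resolve_right (CharP.char_ne_zero_of_finite F p)
  have : Fact p.Prime := ⟨hpp⟩
  let _ : Algebra (ZMod p) F := ZMod.algebra F p
  exact exists_list (adjoin_eq_top (p := p) hζ) t

theorem exists_lt_sq {F : Type*} [Field F] [Fintype F] {ζ : Fˣ} (hζ : ∀ y, y ∈ Subgroup.zpowers ζ) (t : F) :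
    ∃ l : List ℤ, ev ((ζ : F) ^ 2) l = t := by
  obtain ⟨p, hch⟩ := CharP.exists F
  have hpp : p.Prime := (CharP.char_is_prime_or_zero F p).resolve_right (CharP.char_ne_zero_of_finite F p)
  have : Fact p.Prime := ⟨hpp⟩
  let _ : Algebra (ZMod p) F := ZMod.algebra F p
  exact exists_list (adjoin_sq_eq_top (p := p) hζ) t

theorem gen_inv {G : Type*} [Group G] {ζ : G} (hζ : ∀ y, y ∈ Subgroup.zpowers ζ) :
    ∀ y, y ∈ Subgroup.zpowers ζ⁻¹ := by
  intro y
  rw [Subgroup.zpowers_inv]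
  exact hζ y

variable {ι : Type} [Fintype ι] [DecidableEq ι] {p : Fin 4 → ι} (hp : Function.Injective p)
variable {F : Type v} [Field F]

section words

variable {K : Type*} [Group K]

/-- words for the root elements -/
noncomputable def xw (lt : F → List ℤ) (ρ : alternatingGroup ι →* K) (u h : K) (t : F) : K :=
  pw (cj hp ρ h (p 1) (p 2)) u (lt t)

/-- words for the root elements -/
noncomputable def Xw (lt : F → List ℤ) (ρ : alternatingGroup ι →* K) (u h : K) : ι → ι → F → K :=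
  XX hp ρ (xw hp lt ρ u h)

theorem map_cj {K' : Type*} [Group K'] (φ : K →* K') (ρ : alternatingGroup ι →* K) (y : K) (i j : ι) :
    φ (cj hp ρ y i j) = cj hp (φ.comp ρ) (φ y) i j := by
  simp [cj]

theorem map_Xw {K' : Type*} [Group K'] (φ : K →* K') (lt : F → List ℤ) (ρ : alternatingGroup ι →* K) (u h : K)
    (i j : ι) (t : F) : φ (Xw hp lt ρ u h i j t) = Xw hp lt (φ.comp ρ) (φ u) (φ h) i j t := by
  unfold Xw XX
  rw [map_cj]
  unfold xw
  rw [map_pw, map_cj]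

theorem map_w {K' : Type*} [Group K'] (φ : K →* K') (X : ι → ι → F → K) (i j : ι) (u : F) :
    φ (w X i j u) = w (fun i j t => φ (X i j t)) i j u := by
  simp [w]

theorem map_t {K' : Type*} [Group K'] (φ : K →* K') (X : ι → ι → F → K) (i j : ι) (u : F) :
    φ (t X i j u) = t (fun i j t => φ (X i j t)) i j u := by
  simp [t, map_w]

theorem map_wXw {K' : Type*} [Group K'] (φ : K →* K') (lt : F → List ℤ) (ρ : alternatingGroup ι →* K) (u h : K)
    (i j : ι) (s : F) : φ (w (Xw hp lt ρ u h) i j s) = w (Xw hp lt (φ.comp ρ) (φ u) (φ h)) i j s := by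
  rw [map_w]
  congr 1
  funext i j t
  exact map_Xw hp φ lt ρ u h i j t

theorem map_tXw {K' : Type*} [Group K'] (φ : K →* K') (lt : F → List ℤ) (ρ : alternatingGroup ι →* K) (u h : K)
    (i j : ι) (s : F) : φ (t (Xw hp lt ρ u h) i j s) = t (Xw hp lt (φ.comp ρ) (φ u) (φ h)) i j s := by
  rw [map_t]
  congr 1
  funext i j t
  exact map_Xw hp φ lt ρ u h i j t

/-- the relators -/
noncomputable def RL (lt : F → List ℤ) (ζ : Fˣ) (R0 : List (FreeGroup (Fin 2))) (L : List (alternatingGroup ι))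
    (LB LC : List ι) (LD : List (ι × ι)) (ρ : alternatingGroup ι →* K) (u h : K) : List K :=
  R0.map (FreeGroup.lift ![u, cj hp ρ h (p 1) (p 2)]) ++
  [h * u * h⁻¹ * (xw hp lt ρ u h ((ζ : F) ^ 2))⁻¹,
    cj hp ρ h (p 1) (p 0) * h,
    h * cj hp ρ h (p 1) (p 2) * cj hp ρ h (p 2) (p 0),
    ⁅h, cj hp ρ h (p 1) (p 2)⁆,
    h * (t (Xw hp lt ρ u h) (p 0) (p 1) (ζ : F))⁻¹,
    ρ (cyc hp) * (w (Xw hp lt ρ u h) (p 1) (p 2) 1 * w (Xw hp lt ρ u h) (p 0) (p 1) 1)] ++
  L.map (fun γ => ⁅ρ γ, u⁆) ++ L.map (fun γ => ⁅ρ γ, h⁆) ++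
  LB.map (fun k => cj hp ρ h (p 1) k * u * (cj hp ρ h (p 1) k)⁻¹ * (xw hp lt ρ u h (ζ : F)⁻¹)⁻¹) ++
  LC.map (fun k => ⁅xw hp lt ρ u h 1, Xw hp lt ρ u h (p 1) k 1⁆ * (Xw hp lt ρ u h (p 0) k 1)⁻¹) ++
  LD.map (fun kl => ⁅xw hp lt ρ u h 1, Xw hp lt ρ u h kl.1 kl.2 1⁆)

theorem RL_map {K' : Type*} [Group K'] (φ : K →* K') (lt : F → List ℤ) (ζ : Fˣ) (R0 : List (FreeGroup (Fin 2)))
    (L : List (alternatingGroup ι)) (LB LC : List ι) (LD : List (ι × ι)) (ρ : alternatingGroup ι →* K) (u h : K) :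
    (RL hp lt ζ R0 L LB LC LD ρ u h).map φ = RL hp lt ζ R0 L LB LC LD (φ.comp ρ) (φ u) (φ h) := by
  have e1 : ∀ t : F, φ (xw hp lt ρ u h t) = xw hp lt (φ.comp ρ) (φ u) (φ h) t := by
    intro t
    unfold xw
    rw [map_pw, map_cj]
  have e2 : (⇑φ ∘ ⇑(FreeGroup.lift ![u, cj hp ρ h (p 1) (p 2)])) =
      ⇑(FreeGroup.lift ![φ u, cj hp (φ.comp ρ) (φ h) (p 1) (p 2)]) := by
    have : φ.comp (FreeGroup.lift ![u, cj hp ρ h (p 1) (p 2)]) =
        FreeGroup.lift ![φ u, cj hp (φ.comp ρ) (φ h) (p 1) (p 2)] := by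
      ext i
      fin_cases i
      · simp
      · simp [map_cj]
    rw [← this]
    rfl
  unfold RL
  simp only [List.map_append, List.map_map, List.map_cons, List.map_nil, map_mul, map_inv, e1, e2, map_cj,
    map_wXw, map_tXw, map_commutatorElement, Function.comp_def, map_Xw, MonoidHom.comp_apply]

theorem RL_length (lt : F → List ℤ) (ζ : Fˣ) (R0 : List (FreeGroup (Fin 2))) (L : List (alternatingGroup ι))
    (LB LC : List ι) (LD : List (ι × ι)) (ρ : alternatingGroup ι →* K) (u h : K) :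
    (RL hp lt ζ R0 L LB LC LD ρ u h).length =
      R0.length + 6 + 2 * L.length + LB.length + LC.length + LD.length := by
  unfold RL
  simp only [List.length_append, List.length_map, List.length_cons, List.length_nil]
  ring

end words

section comm

variable {J : Type*} [Group J] {ρ : alternatingGroup ι →* J} {h : J}

theorem T1_gen (sth : ∀ γ : alternatingGroup ι, (γ : Perm ι) (p 0) = p 0 → (γ : Perm ι) (p 1) = p 1 → Commute (ρ γ) h)
    (T1 : cj hp ρ h (p 1) (p 0) = h⁻¹) {i j : ι} (hij : i ≠ j) : cj hp ρ h j i = (cj hp ρ h i j)⁻¹ := by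
  have h1 := conj_cj hp sth (sg hp i j) (p01 hp).symm
  rw [sg_zero hp hij, sg_one hp hij, T1] at h1
  rw [← h1]
  unfold cj
  group

theorem comm_gen (sth : ∀ γ : alternatingGroup ι, (γ : Perm ι) (p 0) = p 0 → (γ : Perm ι) (p 1) = p 1 → Commute (ρ γ) h)
    (T1 : cj hp ρ h (p 1) (p 0) = h⁻¹) (T2 : h * cj hp ρ h (p 1) (p 2) * cj hp ρ h (p 2) (p 0) = 1)
    (hg : Commute h (cj hp ρ h (p 1) (p 2))) {k : ι} (hk0 : k ≠ p 0) (hk1 : k ≠ p 1) :
    Commute h (cj hp ρ h (p 1) k) := by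
  have hb : cj hp ρ h (p 0) (p 1) = h := cj_base hp sth
  obtain ⟨γ, h2, ⟨h0, h1⟩ | ⟨h0, h1⟩⟩ := even_triple hp (p01 hp) hk0.symm hk1.symm
  · have e1 := conj_comm hg (ρ γ)
    have e2 := conj_cj hp sth γ (p01 hp)
    rw [hb, h0, h1, hb] at e2
    rw [e2, conj_cj hp sth γ (p12 hp), h1, h2] at e1
    exact e1
  · have e1 := conj_comm hg (ρ γ)
    have e2 := conj_cj hp sth γ (p01 hp)
    rw [hb, h0, h1, T1] at e2
    have e3 := conj_cj hp sth γ (p12 hp)
    rw [h1, h2] at e3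
    rw [e2, e3] at e1
    have e4 : Commute h (cj hp ρ h (p 0) k) := by
      have := e1.inv_left
      rwa [inv_inv] at this
    have e5 := conj_cj hp sth γ (p02 hp).symm
    rw [h2, h0] at e5
    have e6 : h⁻¹ * cj hp ρ h (p 0) k * cj hp ρ h k (p 1) = 1 := by
      rw [← e2, ← e3, ← e5]
      calc ρ γ * h * (ρ γ)⁻¹ * (ρ γ * cj hp ρ h (p 1) (p 2) * (ρ γ)⁻¹) *
          (ρ γ * cj hp ρ h (p 2) (p 0) * (ρ γ)⁻¹) =
          ρ γ * (h * cj hp ρ h (p 1) (p 2) * cj hp ρ h (p 2) (p 0)) * (ρ γ)⁻¹ := by group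
        _ = 1 := by rw [T2]; group
    rw [T1_gen hp sth T1 hk1, ← eq_inv_of_mul_eq_one_left e6]
    exact (Commute.refl h).inv_right.mul_right e4

end comm

/-- the conditions on the lists -/
structure Lists (L : List (alternatingGroup ι)) (LB LC : List ι) (LD : List (ι × ι)) : Prop where
  fixL : ∀ γ ∈ L, (γ : Perm ι) (p 0) = p 0 ∧ (γ : Perm ι) (p 1) = p 1
  genL : ∀ γ : alternatingGroup ι, (γ : Perm ι) (p 0) = p 0 → (γ : Perm ι) (p 1) = p 1 →
    γ ∈ Subgroup.closure {s | s ∈ L}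
  okB : ∀ k ∈ LB, k ≠ p 0 ∧ k ≠ p 1
  okC : ∀ k ∈ LC, k ≠ p 0 ∧ k ≠ p 1
  okD : ∀ kl ∈ LD, kl.1 ≠ p 0 ∧ kl.1 ≠ p 1 ∧ kl.2 ≠ p 0 ∧ kl.2 ≠ p 1 ∧ kl.1 ≠ kl.2
  B : ∀ k, k ≠ p 0 → k ≠ p 1 → ∃ γ : alternatingGroup ι, (γ : Perm ι) (p 0) = p 0 ∧ (γ : Perm ι) (p 1) = p 1 ∧
    ∃ k' ∈ p 2 :: LB, (γ : Perm ι) k' = k
  C : ∀ k, k ≠ p 0 → k ≠ p 1 → ∃ γ : alternatingGroup ι, (γ : Perm ι) (p 0) = p 0 ∧ (γ : Perm ι) (p 1) = p 1 ∧
    ∃ k' ∈ LC, (γ : Perm ι) k' = k
  D : ∀ k l, k ≠ p 0 → k ≠ p 1 → l ≠ p 0 → l ≠ p 1 → k ≠ l → ∃ γ : alternatingGroup ι,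
    (γ : Perm ι) (p 0) = p 0 ∧ (γ : Perm ι) (p 1) = p 1 ∧ ∃ kl ∈ LD, (γ : Perm ι) kl.1 = k ∧ (γ : Perm ι) kl.2 = l

section converse

variable {J : Type} [Group J] [Fintype F] {ρ : alternatingGroup ι →* J} {u h : J} {ζ : Fˣ}

theorem dat_of (hζ : ∀ y, y ∈ Subgroup.zpowers ζ) {lt : F → List ℤ} (hlt : ∀ t, ev ((ζ⁻¹ : Fˣ) : F) (lt t) = t)
    {R0 : List (FreeGroup (Fin 2))}
    (hR0 : ∀ (J : Type) [Group J] (u h : J), (∀ r ∈ R0, FreeGroup.lift ![u, h] r = 1) →
      ∃ x : F → J, (∀ s t, x (s + t) = x s * x t) ∧ x 1 = u ∧ (∀ t, h * x t * h⁻¹ = x (((ζ⁻¹ : Fˣ) : F) * t)) ∧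
        (∀ t, x t ∈ Subgroup.closure {u, h}))
    {L : List (alternatingGroup ι)} {LB LC : List ι} {LD : List (ι × ι)} (hL : Lists (p := p) L LB LC LD)
    (hr : ∀ r ∈ RL hp lt ζ R0 L LB LC LD ρ u h, r = 1) :
    Dat hp ρ (xw hp lt ρ u h) h ζ ∧ xw hp lt ρ u h 1 = u := by
  have r0 : ∀ r ∈ R0, FreeGroup.lift ![u, cj hp ρ h (p 1) (p 2)] r = 1 := by
    intro r hr'
    apply hr
    unfold RL
    simp only [List.mem_append, List.mem_map]
    exact Or.inl (Or.inl (Or.inl (Or.inl (Or.inl (Or.inl ⟨r, hr', rfl⟩)))))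
  have r6 : ∀ r ∈ [h * u * h⁻¹ * (xw hp lt ρ u h ((ζ : F) ^ 2))⁻¹,
    cj hp ρ h (p 1) (p 0) * h,
    h * cj hp ρ h (p 1) (p 2) * cj hp ρ h (p 2) (p 0),
    ⁅h, cj hp ρ h (p 1) (p 2)⁆,
    h * (t (Xw hp lt ρ u h) (p 0) (p 1) (ζ : F))⁻¹,
    ρ (cyc hp) * (w (Xw hp lt ρ u h) (p 1) (p 2) 1 * w (Xw hp lt ρ u h) (p 0) (p 1) 1)], r = 1 := by
    intro r hr'
    apply hr
    unfold RL
    simp only [List.mem_append]
    exact Or.inl (Or.inl (Or.inl (Or.inl (Or.inl (Or.inr hr')))))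
  have rLu : ∀ γ ∈ L, Commute (ρ γ) u := by
    intro γ hγ
    rw [← commutatorElement_eq_one_iff_commute]
    apply hr
    unfold RL
    simp only [List.mem_append, List.mem_map]
    exact Or.inl (Or.inl (Or.inl (Or.inl (Or.inr ⟨γ, hγ, rfl⟩))))
  have rLh : ∀ γ ∈ L, Commute (ρ γ) h := by
    intro γ hγ
    rw [← commutatorElement_eq_one_iff_commute]
    apply hr
    unfold RL
    simp only [List.mem_append, List.mem_map]
    exact Or.inl (Or.inl (Or.inl (Or.inr ⟨γ, hγ, rfl⟩)))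
  have rB : ∀ k ∈ LB, cj hp ρ h (p 1) k * u * (cj hp ρ h (p 1) k)⁻¹ = xw hp lt ρ u h (ζ : F)⁻¹ := by
    intro k hk
    rw [← mul_inv_eq_one]
    apply hr
    unfold RL
    simp only [List.mem_append, List.mem_map]
    exact Or.inl (Or.inl (Or.inr ⟨k, hk, rfl⟩))
  have rC : ∀ k ∈ LC, ⁅xw hp lt ρ u h 1, Xw hp lt ρ u h (p 1) k 1⁆ = Xw hp lt ρ u h (p 0) k 1 := by
    intro k hk
    rw [← mul_inv_eq_one]
    apply hr
    unfold RL
    simp only [List.mem_append, List.mem_map]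
    exact Or.inl (Or.inr ⟨k, hk, rfl⟩)
  have rD : ∀ kl ∈ LD, Commute (xw hp lt ρ u h 1) (Xw hp lt ρ u h kl.1 kl.2 1) := by
    intro kl hk
    rw [← commutatorElement_eq_one_iff_commute]
    apply hr
    unfold RL
    simp only [List.mem_append, List.mem_map]
    exact Or.inr ⟨kl, hk, rfl⟩
  simp only [List.forall_mem_cons, List.not_mem_nil, IsEmpty.forall_iff, implies_true, and_true] at r6
  obtain ⟨q1, q2, q3, q4, q5, q6⟩ := r6
  rw [commutatorElement_eq_one_iff_commute] at q4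
  rw [mul_inv_eq_one] at q1 q5
  -- the root group
  obtain ⟨x, hadd, hx1, hgx, -⟩ := hR0 J u (cj hp ρ h (p 1) (p 2)) r0
  have hxw : ∀ t, xw hp lt ρ u h t = x t := by
    intro t
    unfold xw
    rw [← hx1, pw_root hadd hgx, hlt, mul_one]
  have hxe : xw hp lt ρ u h = x := funext hxw
  have hXw : Xw hp lt ρ u h = XX hp ρ x := by unfold Xw; rw [hxe]
  rw [hxe] at rB rC rD q1
  rw [hXw] at rC rD q5 q6
  rw [hxe]
  have T1 : cj hp ρ h (p 1) (p 0) = h⁻¹ := eq_inv_of_mul_eq_one_left q2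
  have act : Act h x ((ζ : F) ^ 2) := by
    refine act_pw hadd hgx q4 ?_ fun t => ⟨lt t, hlt t⟩
    rw [hx1]; exact q1
  -- the stabilizer
  have sth : ∀ γ : alternatingGroup ι, (γ : Perm ι) (p 0) = p 0 → (γ : Perm ι) (p 1) = p 1 → Commute (ρ γ) h := by
    intro γ g0 g1
    have := hL.genL γ g0 g1
    induction this using Subgroup.closure_induction with
    | mem y hy => exact rLh y hy
    | one => rw [map_one]; exact Commute.one_left h
    | mul a b ha hb iha ihb =>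
      have hfix : ∀ c ∈ Subgroup.closure {s | s ∈ L}, (c : Perm ι) (p 0) = p 0 ∧ (c : Perm ι) (p 1) = p 1 := by
        intro c hc
        induction hc using Subgroup.closure_induction with
        | mem y hy => exact hL.fixL y hy
        | one => exact ⟨rfl, rfl⟩
        | mul a b _ _ iha ihb =>
          refine ⟨?_, ?_⟩
          · change (a : Perm ι) ((b : Perm ι) (p 0)) = p 0
            rw [ihb.1, iha.1]
          · change (a : Perm ι) ((b : Perm ι) (p 1)) = p 1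
            rw [ihb.2, iha.2]
        | inv a _ iha =>
          refine ⟨?_, ?_⟩
          · change (a : Perm ι)⁻¹ (p 0) = p 0
            rw [Perm.inv_eq_iff_eq, iha.1]
          · change (a : Perm ι)⁻¹ (p 1) = p 1
            rw [Perm.inv_eq_iff_eq, iha.2]
      rw [map_mul]
      exact (iha (hfix a ha).1 (hfix a ha).2).mul_left (ihb (hfix b hb).1 (hfix b hb).2)
    | inv a ha iha =>
      have g0' : (a : Perm ι) (p 0) = p 0 := by
        have e : (a : Perm ι)⁻¹ (p 0) = p 0 := g0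
        rw [Perm.inv_eq_iff_eq] at e
        exact e.symm
      have g1' : (a : Perm ι) (p 1) = p 1 := by
        have e : (a : Perm ι)⁻¹ (p 1) = p 1 := g1
        rw [Perm.inv_eq_iff_eq] at e
        exact e.symm
      rw [map_inv]
      exact (iha g0' g1').inv_left
  have stu : ∀ γ ∈ Subgroup.closure {s | s ∈ L}, Commute (ρ γ) u := by
    intro γ hγ
    induction hγ using Subgroup.closure_induction with
    | mem y hy => exact rLu y hy
    | one => rw [map_one]; exact Commute.one_left u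
    | mul a b ha hb iha ihb => rw [map_mul]; exact iha.mul_left ihb
    | inv a ha iha => rw [map_inv]; exact iha.inv_left
  have stx : ∀ γ : alternatingGroup ι, (γ : Perm ι) (p 0) = p 0 → (γ : Perm ι) (p 1) = p 1 →
      ∀ t, Commute (ρ γ) (x t) := by
    intro γ g0 g1 t
    have h1 := sth γ g0 g1
    have h2 := stu γ (hL.genL γ g0 g1)
    obtain ⟨l, hl⟩ := exists_lt_sq hζ t
    have h3 : x t = pw h u l := by
      rw [← hx1, pw_root hadd act, hl, mul_one]
    rw [h3]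
    clear h3 hl
    induction l with
    | nil => exact Commute.one_right _
    | cons a l ih =>
      rw [pw_cons]
      exact (h2.zpow_right a).mul_right ((h1.mul_right ih).mul_right h1.inv_right)
  have hb1 : cj hp ρ h (p 0) (p 1) = h := cj_base hp sth
  have X01 : ∀ t, XX hp ρ x (p 0) (p 1) t = x t := fun t => cj_base hp (fun γ g0 g1 => stx γ g0 g1 t)
  have conjX : ∀ (γ : alternatingGroup ι) {i j : ι}, i ≠ j → ∀ t, ρ γ * XX hp ρ x i j t * (ρ γ)⁻¹ =
      XX hp ρ x ((γ : Perm ι) i) ((γ : Perm ι) j) t := fun γ i j hij t =>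
    conj_cj hp (fun γ g0 g1 => stx γ g0 g1 t) γ hij
  have hBact : ∀ k, k ≠ p 0 → k ≠ p 1 → Act (cj hp ρ h (p 1) k) x (ζ : F)⁻¹ := by
    intro k h0 h1
    obtain ⟨γ, g0, g1, k', hk', e⟩ := hL.B k h0 h1
    have hne : p 1 ≠ k' := fun e' => h1 (by rw [← e, ← e', g1])
    have h2 : Act (cj hp ρ h (p 1) k') x (ζ : F)⁻¹ := by
      rw [List.mem_cons] at hk'
      rcases hk' with rfl | hk'
      · intro t
        rw [hgx, Units.val_inv_eq_inv_val]
      · refine act_pw hadd act (comm_gen hp sth T1 q3 q4 (hL.okB k' hk').1 (hL.okB k' hk').2).symm ?_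
          fun t => exists_lt_sq hζ t
        rw [hx1]; exact rB k' hk'
    have h3 := h2.conj (ρ γ)
    refine h3.congr ?_ ?_ rfl
    · rw [conj_cj hp sth γ hne, g1, e]
    · intro t
      rw [(stx γ g0 g1 t).eq, mul_inv_cancel_right]
  refine ⟨?_, hx1⟩
  exact
  { add := hadd
    stx := stx
    sth := sth
    act := act
    B := hBact
    T1 := T1
    T2 := q3
    hg := q4
    C := by
      intro k h0 h1
      obtain ⟨γ, g0, g1, k', hk', e⟩ := hL.C k h0 h1
      have h2 := rC k' hk'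
      have n0 := (hL.okC k' hk').1
      have n1 := (hL.okC k' hk').2
      have e1 := conjX γ (Ne.symm n1) 1
      have e2 := conjX γ (Ne.symm n0) 1
      rw [g1, e] at e1
      rw [g0, e] at e2
      have e3 : ρ γ * x 1 * (ρ γ)⁻¹ = x 1 := by rw [(stx γ g0 g1 1).eq, mul_inv_cancel_right]
      rw [← e1, ← e2, ← h2]
      conv_lhs => rw [← e3]
      rw [conj_br]
    D := by
      intro k l hk0 hk1 hl0 hl1 hkl
      obtain ⟨γ, g0, g1, kl, hk', ek, el⟩ := hL.D k l hk0 hk1 hl0 hl1 hkl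
      have h2 := conj_comm (rD kl hk') (ρ γ)
      have n := (hL.okD kl hk').2.2.2.2
      have e1 := conjX γ n 1
      rw [ek, el] at e1
      have e3 : ρ γ * x 1 * (ρ γ)⁻¹ = x 1 := by rw [(stx γ g0 g1 1).eq, mul_inv_cancel_right]
      rwa [e1, e3] at h2
    H := q5
    Id := by
      rw [← mul_inv_rev, eq_inv_iff_mul_eq_one]
      exact q6 }

end converse

section direct

variable [Fintype F] {ζ : Fˣ}

/-- the relators hold in a group with the data -/
theorem rels_of {K : Type v} [Group K] {ρ : alternatingGroup ι →* K} {x : F → K} {h : K}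
    (d : Dat hp ρ x h ζ) {lt : F → List ℤ} (hlt : ∀ t, ev ((ζ⁻¹ : Fˣ) : F) (lt t) = t)
    {R0 : List (FreeGroup (Fin 2))}
    (hR0 : ∀ (G : Type v) [Group G] (x : F → G) (h : G), (∀ s t, x (s + t) = x s * x t) →
      (∀ t, h * x t * h⁻¹ = x (((ζ⁻¹ : Fˣ) : F) * t)) → ∀ r ∈ R0, FreeGroup.lift ![x 1, h] r = 1)
    {L : List (alternatingGroup ι)} {LB LC : List ι} {LD : List (ι × ι)} (hL : Lists (p := p) L LB LC LD) :
    ∀ r ∈ RL hp lt ζ R0 L LB LC LD ρ (x 1) h, r = 1 := by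
  have hg2 : Act (cj hp ρ h (p 1) (p 2)) x (ζ : F)⁻¹ := d.B (p 2) (p02 hp).symm (p12 hp).symm
  have hgx : ∀ t, cj hp ρ h (p 1) (p 2) * x t * (cj hp ρ h (p 1) (p 2))⁻¹ = x (((ζ⁻¹ : Fˣ) : F) * t) := by
    intro t
    rw [hg2 t, Units.val_inv_eq_inv_val]
  have hxw : ∀ t, xw hp lt ρ (x 1) h t = x t := by
    intro t
    unfold xw
    rw [pw_root d.add hgx, hlt, mul_one]
  have hxe : xw hp lt ρ (x 1) h = x := funext hxw
  have hXw : Xw hp lt ρ (x 1) h = XX hp ρ x := by unfold Xw; rw [hxe]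
  intro r hr
  unfold RL at hr
  rw [hXw, hxe] at hr
  simp only [List.mem_append, List.mem_map, List.mem_cons, List.not_mem_nil, or_false] at hr
  rcases hr with (((((⟨r, hr, rfl⟩ | hr) | ⟨γ, hγ, rfl⟩) | ⟨γ, hγ, rfl⟩) | ⟨k, hk, rfl⟩) | ⟨k, hk, rfl⟩) | ⟨kl, hk, rfl⟩
  · exact hR0 K x _ d.add hgx r hr
  · rcases hr with rfl | rfl | rfl | rfl | rfl | rfl
    · rw [d.act, mul_one, mul_inv_cancel]
    · rw [d.T1, inv_mul_cancel]
    · exact d.T2
    · exact commutatorElement_eq_one_iff_commute.2 d.hg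
    · rw [← d.H, mul_inv_cancel]
    · rw [d.Id, ← mul_inv_rev, inv_mul_cancel]
  · exact commutatorElement_eq_one_iff_commute.2 (d.stx γ (hL.fixL γ hγ).1 (hL.fixL γ hγ).2 1)
  · exact commutatorElement_eq_one_iff_commute.2 (d.sth γ (hL.fixL γ hγ).1 (hL.fixL γ hγ).2)
  · rw [d.B k (hL.okB k hk).1 (hL.okB k hk).2, mul_one, mul_inv_cancel]
  · rw [d.C k (hL.okC k hk).1 (hL.okC k hk).2, mul_inv_cancel]
  · obtain ⟨a, b, c, e, f⟩ := hL.okD kl hk
    exact commutatorElement_eq_one_iff_commute.2 (d.D kl.1 kl.2 a b c e f)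

end direct

include hp in
/-- **the quotient of the free product** -/
theorem quo [Fintype F] (hι : 4 ≤ Fintype.card ι) {L : List (alternatingGroup ι)} {LB LC : List ι}
    {LD : List (ι × ι)} (hL : Lists (p := p) L LB LC LD) :
    H111.Quo (Monoid.Coprod (alternatingGroup ι) (FreeGroup (Fin 2))) (SpecialLinearGroup ι F)
      (10 + 2 * L.length + LB.length + LC.length + LD.length) := by
  classical
  obtain ⟨ζ, hζ⟩ := IsCyclic.exists_generator (α := Fˣ)
  obtain ⟨R0, hlen, hR1, hR2⟩ := uRelS_gen (gen_inv hζ)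
  obtain ⟨lt, hlt⟩ : ∃ lt : F → List ℤ, ∀ t, ev ((ζ⁻¹ : Fˣ) : F) (lt t) = t :=
    ⟨fun t => (exists_lt (gen_inv hζ) t).choose, fun t => (exists_lt (gen_inv hζ) t).choose_spec⟩
  let f : Monoid.Coprod (alternatingGroup ι) (FreeGroup (Fin 2)) →* SpecialLinearGroup ι F :=
    Monoid.Coprod.lift (r0 F) (FreeGroup.lift ![x0 hp 1, h0 hp ζ])
  have d0 := dat0 hp (F := F) ζ
  have fl : f.comp Monoid.Coprod.inl = r0 F := by ext1 γ; simp [f]
  have fu : f (Monoid.Coprod.inr (FreeGroup.of 0)) = x0 hp 1 := by simp [f]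
  have fh : f (Monoid.Coprod.inr (FreeGroup.of 1)) = h0 hp ζ := by simp [f]
  have hrel0 := rels_of hp d0 hlt hR1 hL
  -- surjectivity
  have hsurj : Function.Surjective f := by
    rw [← MonoidHom.range_eq_top, eq_top_iff, ← closure_transvections, Subgroup.closure_le]
    rintro _ ⟨i, j, hij, a, rfl⟩
    have hr0 : ∀ γ, r0 F γ ∈ f.range := fun γ => ⟨Monoid.Coprod.inl γ, by simp [f]⟩
    have hu : x0 hp 1 ∈ f.range := ⟨_, fu⟩
    have hh : h0 hp ζ ∈ f.range := ⟨_, fh⟩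
    have hcj : ∀ y ∈ f.range, ∀ i j, cj hp (r0 F) y i j ∈ f.range := by
      intro y hy i j
      exact mul_mem (mul_mem (hr0 _) hy) (inv_mem (hr0 _))
    have hpw : ∀ l : List ℤ, pw (cj hp (r0 F) (h0 hp ζ) (p 1) (p 2)) (x0 hp (1 : F)) l ∈ f.range := by
      intro l
      induction l with
      | nil => exact one_mem _
      | cons a l ih =>
        exact mul_mem (zpow_mem hu a) (mul_mem (mul_mem (hcj _ hh _ _) ih) (inv_mem (hcj _ hh _ _)))
    have hx : ∀ t : F, x0 hp t ∈ f.range := by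
      intro t
      have hg2 : Act (cj hp (r0 F) (h0 hp ζ) (p 1) (p 2)) (x0 hp) (ζ : F)⁻¹ :=
        d0.B (p 2) (p02 hp).symm (p12 hp).symm
      have := hpw (lt t)
      rw [pw_root d0.add (γ := ((ζ⁻¹ : Fˣ) : F)) (fun t => by rw [hg2 t, Units.val_inv_eq_inv_val]), hlt,
        mul_one] at this
      exact this
    have := hcj _ (hx a) i j
    have e := X0_eq hp (F := F) hij a
    unfold XX at e
    rw [e] at this
    exact this
  have hq := H111.Quo.of_univ f hsurj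
    (RL hp lt ζ R0 L LB LC LD Monoid.Coprod.inl (Monoid.Coprod.inr (FreeGroup.of 0))
      (Monoid.Coprod.inr (FreeGroup.of 1))) (by
    intro r hr
    apply hrel0
    have := RL_map hp f lt ζ R0 L LB LC LD Monoid.Coprod.inl (Monoid.Coprod.inr (FreeGroup.of 0))
      (Monoid.Coprod.inr (FreeGroup.of 1))
    rw [fl, fu, fh] at this
    rw [← this]
    exact List.mem_map_of_mem hr) (by
    intro φ hφ
    have h1 : ∀ r ∈ RL hp lt ζ R0 L LB LC LD (φ.comp Monoid.Coprod.inl) (φ (Monoid.Coprod.inr (FreeGroup.of 0)))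
        (φ (Monoid.Coprod.inr (FreeGroup.of 1))), r = 1 := by
      intro r hr
      rw [← RL_map] at hr
      obtain ⟨r', hr', rfl⟩ := List.mem_map.1 hr
      exact hφ r' hr'
    obtain ⟨d, hd1⟩ := dat_of hp hζ hlt hR2 hL h1
    obtain ⟨π, hπ1, hπ2, hπ3⟩ := d.exists_hom hι hζ
    have e : π.comp f = φ := by
      apply Monoid.Coprod.hom_ext
      · ext1 γ
        simp only [MonoidHom.comp_apply, f, Monoid.Coprod.lift_apply_inl]
        exact hπ1 γ
      · ext i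
        fin_cases i
        · simp only [MonoidHom.comp_apply, f, Monoid.Coprod.lift_apply_inr, FreeGroup.lift_apply_of]
          exact (hπ2 1).trans hd1
        · simp only [MonoidHom.comp_apply, f, Monoid.Coprod.lift_apply_inr, FreeGroup.lift_apply_of]
          exact hπ3
    intro y hy
    rw [MonoidHom.mem_ker] at hy ⊢
    rw [← e, MonoidHom.comp_apply, hy, map_one])
  refine hq.mono ?_
  rw [RL_length]
  omega

end Cfsg.Agent.H109.SLn
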